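import Cfsg.Agent.H79.R3Defs

/-! Contingency tables with four rows and four columns. -/

set_option autoImplicit false

namespace Cfsg.Agent.H86.R3

open Cfsg.Agent.H79.R3 Finset

theorem sum4 {n : ℕ} (hn : 4 ≤ n) (g : Fin n → ℕ) (h : ∀ i : Fin n, 4 ≤ i.val → g i = 0) :
    ∑ i, g i = g ⟨0, by omega⟩ + g ⟨1, by omega⟩ + g ⟨2, by omega⟩ + g ⟨3, by omega⟩ := by
  obtain ⟨m, rfl⟩ : ∃ m, n = m + 4 := ⟨n - 4, by omega⟩
  rw [Fin.sum_univ_succ, Fin.sum_univ_succ, Fin.sum_univ_succ, Fin.sum_univ_succ,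
    sum_eq_zero fun j _ => h _ (by simp)]
  change g ⟨0, _⟩ + (g ⟨1, _⟩ + (g ⟨2, _⟩ + (g ⟨3, _⟩ + 0))) = _
  omega

theorem ct_eq (r₁ r₂ r₃ c₁ c₂ c₃ s : ℕ) : ct r₁ r₂ r₃ c₁ c₂ c₃ s =
    ((range (r₁ + 1) ×ˢ range (r₁ + 1) ×ˢ range (r₁ + 1) ×ˢ range (r₂ + 1) ×ˢ range (r₂ + 1) ×ˢ
      range (r₂ + 1) ×ˢ range (r₃ + 1) ×ˢ range (r₃ + 1) ×ˢ range (r₃ + 1)).filter fun p =>
      p.1 + p.2.1 + p.2.2.1 ≤ r₁ ∧ p.2.2.2.1 + p.2.2.2.2.1 + p.2.2.2.2.2.1 ≤ r₂ ∧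
      p.2.2.2.2.2.2.1 + p.2.2.2.2.2.2.2.1 + p.2.2.2.2.2.2.2.2 ≤ r₃ ∧
      p.1 + p.2.2.2.1 + p.2.2.2.2.2.2.1 ≤ c₁ ∧ p.2.1 + p.2.2.2.2.1 + p.2.2.2.2.2.2.2.1 ≤ c₂ ∧
      p.2.2.1 + p.2.2.2.2.2.1 + p.2.2.2.2.2.2.2.2 ≤ c₃ ∧
      s ≤ p.1 + p.2.1 + p.2.2.1 + (p.2.2.2.1 + p.2.2.2.2.1 + p.2.2.2.2.2.1) +
        (p.2.2.2.2.2.2.1 + p.2.2.2.2.2.2.2.1 + p.2.2.2.2.2.2.2.2)).card := by
  rw [card_filter]
  simp only [sum_product]
  rfl

theorem ctab : CtStmt := by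
  intro n a b d a' b' d' hn h1 h2 h3 h4 h5 h6
  let i0 : Fin n := ⟨0, by omega⟩
  let i1 : Fin n := ⟨1, by omega⟩
  let i2 : Fin n := ⟨2, by omega⟩
  let i3 : Fin n := ⟨3, by omega⟩
  have cz : ∀ a b d (i : Fin n), 4 ≤ i.val → cmp n a b d i = 0 := fun a b d i hi => by
    change (if i.val = 0 then _ else if i.val = 1 then _ else if i.val = 2 then _
      else if i.val = 3 then _ else 0) = 0
    rw [if_neg (by omega), if_neg (by omega), if_neg (by omega), if_neg (by omega)]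
  have cs : ∀ i : Fin n, i = i0 ∨ i = i1 ∨ i = i2 ∨ i = i3 ∨ 4 ≤ i.val := fun i => by
    simp only [Fin.ext_iff, i0, i1, i2, i3]; omega
  have key : ∀ N ∈ H75.ContTab (cmp n a b d) (cmp n a' b' d'),
      (∀ s t : Fin n, 4 ≤ s.val ∨ 4 ≤ t.val → N s t = 0) ∧
      (∀ s, N s i0 + N s i1 + N s i2 + N s i3 = cmp n a b d s) ∧
      ∀ t, N i0 t + N i1 t + N i2 t + N i3 t = cmp n a' b' d' t := fun N hN => by
    have z : ∀ s t : Fin n, 4 ≤ s.val ∨ 4 ≤ t.val → N s t = 0 := by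
      rintro s t (h | h)
      · exact sum_eq_zero_iff.1 ((hN.1 s).trans (cz _ _ _ s h)) t (mem_univ _)
      · exact sum_eq_zero_iff.1 ((hN.2 t).trans (cz _ _ _ t h)) s (mem_univ _)
    exact ⟨z, fun s => (sum4 hn _ fun t ht => z s t (Or.inr ht)).symm.trans (hN.1 s),
      fun t => (sum4 hn (fun s => N s t) fun s hs => z s t (Or.inl hs)).symm.trans (hN.2 t)⟩
  rw [ct_eq, ← Set.ncard_coe_finset, ← Nat.card_coe_set_eq]
  refine Nat.card_congr (Set.BijOn.equiv (fun N => (N i0 i0, N i0 i1, N i0 i2, N i1 i0, N i1 i1,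
    N i1 i2, N i2 i0, N i2 i1, N i2 i2)) ⟨fun N hN => ?_, fun N hN M hM e => ?_, ?_⟩)
  · obtain ⟨-, r, c⟩ := key N hN
    have r0 : _ = a := r i0
    have r1 : _ = b - a := r i1
    have r2 : _ = d - b := r i2
    have r3 : _ = n - d := r i3
    have c0 : _ = a' := c i0
    have c1 : _ = b' - a' := c i1
    have c2 : _ = d' - b' := c i2
    simp only [coe_filter, mem_product, mem_range, Set.mem_ofPred_eq]
    omega
  · obtain ⟨z, r, c⟩ := key N hN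
    obtain ⟨z', r', c'⟩ := key M hM
    simp only [Prod.mk.injEq] at e
    have := r i0; have := r i1; have := r i2; have := r i3
    have := c i0; have := c i1; have := c i2
    have := r' i0; have := r' i1; have := r' i2; have := r' i3
    have := c' i0; have := c' i1; have := c' i2
    funext s t
    rcases cs s with rfl | rfl | rfl | rfl | hs <;> rcases cs t with rfl | rfl | rfl | rfl | ht <;>
      first
        | omega
        | rw [z _ _ (Or.inr ht), z' _ _ (Or.inr ht)]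
        | rw [z _ _ (Or.inl hs), z' _ _ (Or.inl hs)]
  · rintro ⟨x₁, x₂, x₃, y₁, y₂, y₃, z₁, z₂, z₃⟩ hp
    simp only [coe_filter, mem_product, mem_range, Set.mem_ofPred_eq] at hp
    let L : List (List ℕ) := [[x₁, x₂, x₃, a - (x₁ + x₂ + x₃)], [y₁, y₂, y₃, b - a - (y₁ + y₂ + y₃)],
      [z₁, z₂, z₃, d - b - (z₁ + z₂ + z₃)],
      [a' - (x₁ + y₁ + z₁), b' - a' - (x₂ + y₂ + z₂), d' - b' - (x₃ + y₃ + z₃),
        x₁ + x₂ + x₃ + (y₁ + y₂ + y₃) + (z₁ + z₂ + z₃) + n - (d + d')]]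
    have zr : ∀ s t, 4 ≤ s → (L.getD s []).getD t 0 = 0 := fun s t hs => by
      rw [List.getD_eq_default L _ hs]; rfl
    have zc : ∀ s t, 4 ≤ t → (L.getD s []).getD t 0 = 0 := fun s t ht => by
      refine List.getD_eq_default _ _ ?_
      rcases s with _ | _ | _ | _ | s
      exacts [ht, ht, ht, ht, Nat.zero_le _]
    refine ⟨fun s t => (L.getD s []).getD t 0, ⟨fun s => ?_, fun t => ?_⟩, rfl⟩
    · rw [sum4 hn _ fun t ht => zc _ _ ht]
      rcases cs s with rfl | rfl | rfl | rfl | hs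
      · change x₁ + x₂ + x₃ + (a - _) = a
        omega
      · change y₁ + y₂ + y₃ + (b - a - _) = b - a
        omega
      · change z₁ + z₂ + z₃ + (d - b - _) = d - b
        omega
      · change a' - _ + (b' - a' - _) + (d' - b' - _) + (_ + n - _) = n - d
        omega
      · rw [zr _ _ hs, zr _ _ hs, zr _ _ hs, zr _ _ hs, cz _ _ _ _ hs]
    · rw [sum4 hn _ fun s hs => zr _ _ hs]
      rcases cs t with rfl | rfl | rfl | rfl | ht
      · change x₁ + y₁ + z₁ + (a' - _) = a'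
        omega
      · change x₂ + y₂ + z₂ + (b' - a' - _) = b' - a'
        omega
      · change x₃ + y₃ + z₃ + (d' - b' - _) = d' - b'
        omega
      · change a - _ + (b - a - _) + (d - b - _) + (_ + n - _) = n - d'
        omega
      · rw [zc _ _ ht, zc _ _ ht, zc _ _ ht, zc _ _ ht, cz _ _ _ _ ht]

end Cfsg.Agent.H86.R3
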