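import Cfsg.Agent.H86.CL
import Cfsg.Agent.H53.Replace

set_option autoImplicit false

/-! The replacement argument for minimal centrally large subgroups. -/

namespace Cfsg.Agent.H86

open Cfsg Subgroup
open scoped Pointwise commutatorElement

variable {G : Type*} [Group G]

/-- Itô's theorem inside a group: commutators of elements of a product of two abelian subgroups
commute. -/
theorem commute_commutator_of_mul {Z B : Subgroup G} (hZ : IsMulCommutative Z)
    (hB : IsMulCommutative B) (h : ((Z ⊔ B : Subgroup G) : Set G) = (Z : Set G) * (B : Set G))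
    {a b c d : G} (ha : a ∈ Z ⊔ B) (hb : b ∈ Z ⊔ B) (hc : c ∈ Z ⊔ B) (hd : d ∈ Z ⊔ B) :
    Commute ⁅a, b⁆ ⁅c, d⁆ := by
  have h1 : IsMulCommutative (Z.subgroupOf (Z ⊔ B)) := inferInstance
  have h2 : IsMulCommutative (B.subgroupOf (Z ⊔ B)) := inferInstance
  have h3 := S0572.result (Z.subgroupOf (Z ⊔ B)) (B.subgroupOf (Z ⊔ B)) (by
    rintro ⟨g, hg⟩
    have hg' : g ∈ (Z : Set G) * (B : Set G) := h ▸ hg
    obtain ⟨u, hu, v, hv, rfl⟩ := hg'
    exact ⟨⟨u, mem_sup_left hu⟩, hu, ⟨v, mem_sup_right hv⟩, hv, rfl⟩)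
  have h4 : ⁅⁅(⟨a, ha⟩ : ↥(Z ⊔ B)), (⟨b, hb⟩ : ↥(Z ⊔ B))⁆,
      ⁅(⟨c, hc⟩ : ↥(Z ⊔ B)), (⟨d, hd⟩ : ↥(Z ⊔ B))⁆⁆ ∈
      derivedSeries ↥(Z ⊔ B) 2 :=
    commutator_mem_commutator (commutator_mem_commutator (mem_top _) (mem_top _))
      (commutator_mem_commutator (mem_top _) (mem_top _))
  rw [h3, mem_bot, commutatorElement_eq_one_iff_commute] at h4
  exact congrArg Subtype.val h4

variable [Finite G] {p : ℕ} [Fact p.Prime]

theorem IsMinimalCentrallyLarge.replace (hG : IsPGroup p G) {Q B : Subgroup G}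
    (hQ : IsMinimalCentrallyLarge Q) (hB : IsMulCommutative B)
    (h : ((centralizer (Q : Set G) ⊔ B : Subgroup G) : Set G) =
      (centralizer (Q : Set G) : Set G) * (B : Set G))
    (hn : ¬ B ≤ normalizer ((centralizer (Q : Set G) : Subgroup G) : Set G)) {k : ℕ}
    (hk : Subgroup.upperCentralSeries G k = ⊤) :
    ∃ Q' : Subgroup G, IsMinimalCentrallyLarge Q' ∧
      ∑ i ∈ Finset.range k, Nat.card ↥(centralizer (Q : Set G) ⊓ Subgroup.upperCentralSeries G i) <
      ∑ i ∈ Finset.range k, Nat.card ↥(centralizer (Q' : Set G) ⊓ Subgroup.upperCentralSeries G i) := by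
  set Z := centralizer (Q : Set G) with hZ
  have hZc : IsMulCommutative Z := IsCentrallyLarge.comm hQ.1
  have hZQ : Z ≤ Q := IsCentrallyLarge.centralizer_le hQ.1
  have hlt : (Z ⊔ B) ⊓ normalizer (Z : Set G) < Z ⊔ B :=
    lt_of_le_of_ne inf_le_left fun e => hn (le_sup_right.trans (inf_eq_left.mp e))
  obtain ⟨x, hx, hxn⟩ := SetLike.exists_of_lt
    (H8.lt_inf_normalizer_of_lt (hG.to_subgroup _) hlt)
  have hxZ : x ∉ normalizer (Z : Set G) := fun e => hxn ⟨hx.1, e⟩
  set R := Q.map (MulAut.conj x).toMonoidHom with hRdef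
  have hR : IsMinimalCentrallyLarge R := IsMinimalCentrallyLarge.conj hQ x
  set Y := centralizer (R : Set G) with hY
  have hYZ : Y = Z.map (MulAut.conj x).toMonoidHom := centralizer_map_conj Q x
  have hYc : IsMulCommutative Y := IsCentrallyLarge.comm hR.1
  have hYR : Y ≤ R := IsCentrallyLarge.centralizer_le hR.1
  have hYn : Y ≤ normalizer (Z : Set G) := by
    rw [hYZ]
    rintro _ ⟨z, hz, rfl⟩
    exact ((mem_normalizer_iff.mp hx.2 z).mp ⟨mem_sup_left hz, le_normalizer hz⟩).2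
  set f : G → G := fun z => ⁅z⁻¹, x⁆ with hf
  have hfz : ∀ z, f z = z⁻¹ * (x * z * x⁻¹) := fun z => by
    simp only [hf, commutatorElement_def]; group
  have hcY : ∀ z ∈ Z, x * z * x⁻¹ ∈ Y := fun z hz => hYZ ▸ ⟨z, hz, rfl⟩
  set U := closure (f '' (Z : Set G)) with hU
  set S := (Z ⊓ Y) ⊔ U with hS
  have hUZY : U ≤ Z ⊔ Y := by
    rw [hU, closure_le]
    rintro _ ⟨z, hz, rfl⟩
    rw [hfz]
    exact mul_mem_sup (Z.inv_mem hz) (hcY z hz)
  have hSZY : S ≤ Z ⊔ Y := sup_le (inf_le_left.trans le_sup_left) hUZY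
  have hDc : Z ⊔ Y ≤ centralizer ((Z ⊓ Y : Subgroup G) : Set G) :=
    sup_le (H53.le_centralizer_of_le_comm hZc le_rfl inf_le_left)
      (H53.le_centralizer_of_le_comm hYc le_rfl inf_le_right)
  have hUc : IsMulCommutative U := by
    refine isMulCommutative_closure ?_
    rintro _ ⟨a, ha, rfl⟩ _ ⟨b, hb, rfl⟩
    exact commute_commutator_of_mul hZc hB h (mem_sup_left (Z.inv_mem ha)) hx.1
      (mem_sup_left (Z.inv_mem hb)) hx.1
  have hSc : IsMulCommutative S :=
    H51.isMulCommutative_sup (H51.isMulCommutative_of_le hZc inf_le_left) hUc (hUZY.trans hDc)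
  have hfS : ∀ z ∈ Z, f z ∈ S := fun z hz => mem_sup_right (subset_closure ⟨z, hz, rfl⟩)
  have hfib : ∀ a ∈ Z, ∀ b ∈ Z, (f a)⁻¹ * f b ∈ Z ⊓ Y → a⁻¹ * b ∈ Z ⊓ Y := by
    intro a ha b hb hab
    refine ⟨Z.mul_mem (Z.inv_mem ha) hb, ?_⟩
    have h1 := Y.mul_mem (Y.mul_mem (hcY a ha) hab.2) (Y.inv_mem (hcY b hb))
    have e : x * a * x⁻¹ * ((f a)⁻¹ * f b) * (x * b * x⁻¹)⁻¹ = a * b⁻¹ := by
      rw [hfz a, hfz b]; group
    rw [e] at h1
    have e2 : a⁻¹ * b = (a * b⁻¹)⁻¹ := by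
      rw [mul_inv_rev, inv_inv, H53.comm_of_mem hZc (Z.inv_mem ha) hb]
    rw [e2]; exact Y.inv_mem h1
  -- orders
  have hcardS : Nat.card Z ≤ Nat.card S := by
    have h1 := H53.relIndex_le_of_fibres (A := Z) (B := Z ⊓ Y) (Y := S) (C := Z ⊓ Y) f hfS hfib
    rw [← H53.card_mul_relIndex (inf_le_left : Z ⊓ Y ≤ Z),
      ← H53.card_mul_relIndex (le_sup_left : Z ⊓ Y ≤ S)]
    exact Nat.mul_le_mul_left _ h1
  have hSQR : S ≤ centralizer ((Q ⊓ R : Subgroup G) : Set G) :=
    hSZY.trans (sup_le (H53.centralizer_anti inf_le_left) (H53.centralizer_anti inf_le_right))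
  have hint : Q ⊓ R ⊓ S = Z ⊓ Y := by
    refine le_antisymm (fun y hy => ?_) (le_inf (inf_le_inf hZQ hYR) le_sup_left)
    obtain ⟨u, hu, v, hv, rfl⟩ := (H53.mem_sup_of_le_normalizer hYn).mp (hSZY hy.2)
    have hvQ : v ∈ Q := by
      have := Q.mul_mem (Q.inv_mem (hZQ hu)) hy.1.1
      simpa using this
    have huR : u ∈ R := by
      have := R.mul_mem hy.1.2 (R.inv_mem (hYR hv))
      simpa using this
    exact ⟨Z.mul_mem hu (IsMinimalCentrallyLarge.inf_centralizer_le hQ hR.1 ⟨hvQ, hv⟩),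
      Y.mul_mem (IsMinimalCentrallyLarge.inf_centralizer_le hR hQ.1 ⟨huR, hu⟩) hv⟩
  set T := (Q ⊓ R) ⊔ S with hT
  have c1 := H53.card_inf_mul_card_sup (hSQR.trans (centralizer_le_normalizer _))
  rw [hint, ← hT] at c1
  have c2 := IsMinimalCentrallyLarge.card_mul hQ hR
  rw [← hZ, ← hY] at c2
  have c3 : Nat.card Q ≤ Nat.card T := by
    refine Nat.le_of_mul_le_mul_left ?_ (Nat.card_pos (α := ↥(Z ⊓ Y)))
    rw [c1, c2]; exact Nat.mul_le_mul_left _ hcardS
  have hST : S ≤ T ⊓ centralizer (T : Set G) := by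
    refine le_inf le_sup_right ?_
    rw [hT, H53.centralizer_sup']
    exact le_inf hSQR (H51.isMulCommutative_iff_le_centralizer.mp hSc)
  have c4 := card_le_of_le hST
  have c5 := isCentrallyLarge_iff.mp hQ.1
  rw [← hZ, inf_eq_right.mpr hZQ] at c5
  have hTcl : IsCentrallyLarge T :=
    isCentrallyLarge_of_le (c5 ▸ Nat.mul_le_mul c3 (hcardS.trans c4))
  have c6 := isCentrallyLarge_iff.mp hTcl
  have hTmin : IsMinimalCentrallyLarge T := by
    refine isMinimalCentrallyLarge_of_card hQ hTcl ?_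
    refine Nat.le_of_mul_le_mul_right ?_ (Nat.card_pos (α := Z))
    rw [c5, ← c6]; exact Nat.mul_le_mul_left _ (hcardS.trans c4)
  refine ⟨T, hTmin, ?_⟩
  have hST' : S ≤ centralizer (T : Set G) := hST.trans inf_le_right
  set r : ℕ → ℕ := fun i => (Z ⊓ Y).relIndex (Z ⊓ Subgroup.upperCentralSeries G i) with hr
  have hrle : ∀ i, r (i + 1) ≤
      (Z ⊓ Y).relIndex (centralizer (T : Set G) ⊓ Subgroup.upperCentralSeries G i) := by
    intro i
    refine H53.relIndex_le_of_fibres f (fun a ha => ⟨hST' (hfS a ha.1), ?_⟩)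
      fun a ha b hb => hfib a ha.1 b hb.1
    exact Subgroup.mem_upperCentralSeries_succ_iff.mp ((Subgroup.upperCentralSeries G (i + 1)).inv_mem ha.2) x
  have hrmono : ∀ i, r i ≤ r (i + 1) := fun i =>
    relIndex_le_of_le_right (inf_le_inf_left _ (Subgroup.upperCentralSeries_mono G (Nat.le_succ i)))
      index_ne_zero_of_finite
  have d1 : ∀ i, Nat.card ↥(Z ⊓ Subgroup.upperCentralSeries G i) =
      Nat.card ↥(Z ⊓ Y ⊓ Subgroup.upperCentralSeries G i) * r i := by
    intro i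
    rw [← H53.card_inf_mul_relIndex (Z ⊓ Y) (Z ⊓ Subgroup.upperCentralSeries G i), ← inf_assoc,
      inf_eq_left.mpr (inf_le_left : Z ⊓ Y ≤ Z)]
  have d2 : ∀ i, Nat.card ↥(centralizer (T : Set G) ⊓ Subgroup.upperCentralSeries G i) =
      Nat.card ↥(Z ⊓ Y ⊓ Subgroup.upperCentralSeries G i) *
        (Z ⊓ Y).relIndex (centralizer (T : Set G) ⊓ Subgroup.upperCentralSeries G i) := by
    intro i
    rw [← H53.card_inf_mul_relIndex (Z ⊓ Y) (centralizer (T : Set G) ⊓ Subgroup.upperCentralSeries G i),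
      ← inf_assoc, inf_eq_left.mpr (le_sup_left.trans hST' : Z ⊓ Y ≤ centralizer (T : Set G))]
  have hex : ∃ i < k, r i < r (i + 1) := by
    by_contra hcon
    push Not at hcon
    have key : ∀ i ≤ k, r i ≤ r 0 := by
      intro i
      induction i with
      | zero => intro _; exact le_rfl
      | succ i ih => intro hi; exact (hcon i hi).trans (ih (Nat.le_of_succ_le hi))
    have h0 : r 0 = 1 := by simp [hr]
    have h1 := key k le_rfl
    rw [h0] at h1
    simp only [hr, hk, inf_top_eq] at h1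
    have h2 : (Z ⊓ Y).relIndex Z = 1 :=
      le_antisymm h1 (Nat.pos_of_ne_zero index_ne_zero_of_finite)
    rw [relIndex_eq_one] at h2
    have h3 : Z = Y := eq_of_le_of_card_ge (h2.trans inf_le_right)
      (by rw [hYZ, card_map_conj])
    exact hxZ (H52.mem_normalizer_of_map_conj_eq (hYZ.symm.trans h3.symm))
  refine Finset.sum_lt_sum (fun i _ => ?_) ?_
  · rw [d1, d2]; exact Nat.mul_le_mul_left _ ((hrmono i).trans (hrle i))
  · obtain ⟨i, hi, hlt⟩ := hex
    refine ⟨i, Finset.mem_range.mpr hi, ?_⟩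
    rw [d1, d2]
    exact Nat.mul_lt_mul_of_le_of_lt le_rfl (lt_of_lt_of_le hlt (hrle i)) Nat.card_pos

theorem exists_minimal_normalized (hG : IsPGroup p G) :
    ∃ Q : Subgroup G, IsMinimalCentrallyLarge Q ∧ thompsonSubgroupA G ≤ normalizer (Q : Set G) ∧
      minimalCentrallyLargeJoin G ≤ normalizer (Q : Set G) := by
  have := hG.isNilpotent
  obtain ⟨k, hk⟩ := Group.IsNilpotent.nilpotent G
  obtain ⟨Q, hQ, hmax⟩ := Set.exists_max_image {Q : Subgroup G | IsMinimalCentrallyLarge Q}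
    (fun Q => ∑ i ∈ Finset.range k,
      Nat.card ↥(centralizer (Q : Set G) ⊓ Subgroup.upperCentralSeries G i)) (Set.toFinite _)
    (exists_isMinimalCentrallyLarge G)
  have key : ∀ B : Subgroup G, IsMulCommutative B →
      ((centralizer (Q : Set G) ⊔ B : Subgroup G) : Set G) =
        (centralizer (Q : Set G) : Set G) * (B : Set G) → B ≤ normalizer (Q : Set G) := by
    intro B hB h
    have h1 : B ≤ normalizer ((centralizer (Q : Set G) : Subgroup G) : Set G) := by
      by_contra hn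
      obtain ⟨Q', hQ', hlt⟩ := IsMinimalCentrallyLarge.replace hG hQ hB h hn hk
      exact absurd (hmax Q' hQ') (not_le.mpr hlt)
    have := H53.le_normalizer_centralizer h1
    rwa [IsCentralizerLarge.centralizer_centralizer (IsCentrallyLarge.large hQ.1)] at this
  refine ⟨Q, hQ, sSup_le fun A hA => key A hA.1 (IsCentrallyLarge.sup_maxAbelian hQ.1 hA).2.2.2,
    sSup_le fun R hR => ?_⟩
  rw [← IsMinimalCentrallyLarge.inf_sup hR hQ.1]
  exact sup_le (inf_le_right.trans le_normalizer) (key _ (IsCentrallyLarge.comm hR.1)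
    (IsCentralizerLarge.main (IsCentrallyLarge.large hQ.1) (IsCentrallyLarge.large hR.1)).2.2.2.1)

end Cfsg.Agent.H86
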