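import Mathlib
import Cfsg.Agent.H11.ElDefs
import Cfsg.Agent.H9.Dihedral

/-! An element inverting a point of the line and normalising a second point. -/

set_option autoImplicit false

namespace Cfsg.Agent.H86.ElD

open Subgroup Cfsg.Agent.H11.EL

universe u

variable {G : Type u} [Group G]

theorem pow11 {A : Subgroup G} (hA : Nat.card A = 11) {a : G} (ha : a ∈ A) : a ^ 11 = 1 := by
  rw [← hA]
  exact orderOf_dvd_iff_pow_eq_one.mp (A.orderOf_dvd_natCard ha)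

theorem eq_one_of_odd {X : Subgroup G} {n : ℕ} (hX : Nat.card X = 2 * n + 1) {a : G} (ha : a ∈ X)
    (h2 : a * a = 1) : a = 1 := by
  have h := orderOf_dvd_iff_pow_eq_one.mp (X.orderOf_dvd_natCard ha)
  rwa [hX, pow_succ, pow_mul, sq, h2, one_pow, one_mul] at h

theorem exists_ex {A : Subgroup G} (hA : Nat.card A = 11) {g : G} (hg : g ∈ Nm A) :
    ∃ j : ℤ, Ex g A j := by
  have : Fact (Nat.Prime 11) := ⟨by norm_num⟩
  obtain ⟨b, hb⟩ := (isCyclic_of_prime_card hA).exists_generator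
  obtain ⟨j, hj⟩ := hb ⟨g * b * g⁻¹, (mem_normalizer_iff.mp hg _).mp b.2⟩
  have hj' : (b : G) ^ j = g * b * g⁻¹ := by simpa using congrArg Subtype.val hj
  refine ⟨j, fun a ha => ?_⟩
  obtain ⟨n, hn⟩ := hb ⟨a, ha⟩
  have hn' : (b : G) ^ n = a := by simpa using congrArg Subtype.val hn
  rw [← hn', ← conj_zpow, ← hj', ← zpow_mul, ← zpow_mul, mul_comm]

theorem card_two [Finite G] {X L : Subgroup G} {y : G} (hy : y ∈ X)
    (h : ∀ b ∈ X, Xor (b * y ∈ L) (b ∈ L)) : Nat.card X = 2 * Nat.card (X ⊓ L : Subgroup G) := by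
  have h1 : (L.subgroupOf X).index = 2 :=
    index_eq_two_iff.mpr ⟨⟨y, hy⟩, fun b => h b b.2⟩
  rw [← (L.subgroupOf X).card_mul_index, h1, mul_comm, ← inf_subgroupOf_left,
    Nat.card_congr (subgroupOfEquivOfLe inf_le_left).toEquiv]

theorem mem_ext {L : Subgroup G} {y : G} (hy : y ∈ Nm L) (h2 : y * y = 1) {x : G}
    (hx : x ∈ L ⊔ zpowers y) : x ∈ L ∨ x * y ∈ L := by
  have hc : ∀ a ∈ L, y * a * y⁻¹ ∈ L := fun a ha => (mem_normalizer_iff.mp hy a).mp ha
  have hi : y⁻¹ = y := inv_eq_of_mul_eq_one_right h2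
  let X : Subgroup G :=
    { carrier := {x | x ∈ L ∨ x * y ∈ L}
      one_mem' := Or.inl L.one_mem
      mul_mem' := by
        rintro a b (ha | ha) (hb | hb)
        · exact Or.inl (L.mul_mem ha hb)
        · exact Or.inr (by rw [mul_assoc]; exact L.mul_mem ha hb)
        · refine Or.inr ?_
          have := L.mul_mem ha (hc b hb)
          rwa [hi, show a * y * (y * b * y) = a * (y * y) * b * y by group, h2, mul_one] at this
        · refine Or.inl ?_
          have := L.mul_mem ha (hc _ hb)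
          rwa [show a * y * (y * (b * y) * y⁻¹) = a * (y * y) * b by group, h2, mul_one] at this
      inv_mem' := by
        rintro a (ha | ha)
        · exact Or.inl (L.inv_mem ha)
        · refine Or.inr ?_
          have := hc _ (L.inv_mem ha)
          rwa [show y * (a * y)⁻¹ * y⁻¹ = a⁻¹ * y⁻¹ by group, hi] at this }
  have : L ⊔ zpowers y ≤ X :=
    sup_le (fun a ha => Or.inl ha) ((zpowers_le).mpr (Or.inr (by rw [h2]; exact L.one_mem)))
  exact this hx

theorem ld (hla : LAStmt.{u}) (hlb : LBStmt.{u}) (hc1 : LC1Stmt.{u}) (hlc : LCStmt.{u}) :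
    LDStmt.{u} := by
  intro G _ _ A B y hP hyA hyB hy
  have la := hla _ hP.iso
  have lb := hlb _ hP.iso
  obtain ⟨f, s₀, h1⟩ := hc1 A B hP
  have lc := hlc A B f s₀ hP h1
  have pA : A ∈ Pts (A ⊔ B) := ⟨le_sup_left, hP.cA⟩
  have pB : B ∈ Pts (A ⊔ B) := ⟨le_sup_right, hP.cB⟩
  have hyL : y ∈ Nm (A ⊔ B) := by
    rw [← cj_eq_iff, cj_sup, cj_eq_iff.mpr hyA, cj_eq_iff.mpr hyB]
  have two : ∀ E ∈ Pts (A ⊔ B), y ∈ Nm E → E = A ∨ E = B := by
    intro E hE hyE
    by_cases hEA : E = A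
    · exact Or.inl hEA
    obtain ⟨a, ⟨ha, hab⟩, hu⟩ := la.reg A pA B pB E hE hP.ne.symm hEA
    have h2 : cj (y * a * y⁻¹) B = E := by
      rw [cj_mul, cj_mul, cj_eq_iff.mpr ((Nm B).inv_mem hyB), hab, cj_eq_iff.mpr hyE]
    have h3 := hu _ ⟨(mem_normalizer_iff.mp hyA a).mp ha, h2⟩
    rw [hy a ha, zpow_neg_one] at h3
    have h4 : a = 1 := eq_one_of_odd (n := 5) hP.cA ha (by
      nth_rw 1 [← h3]; exact inv_mul_cancel a)
    rw [h4, cj_one] at hab
    exact Or.inr hab.symm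
  have hN : ∀ v ∈ A ⊔ B, v ∈ Nm A → v * v = 1 → v = 1 := fun v hv hvA h2 =>
    eq_one_of_odd (n := 27) (la.cN A pA) (mem_inf.mpr ⟨hv, hvA⟩) h2
  have hy1 : y ≠ 1 := by
    rintro rfl
    have hb : A = ⊥ := by
      rw [eq_bot_iff]
      intro a ha
      have h3 := hy a ha
      rw [one_mul, inv_one, mul_one, zpow_neg_one] at h3
      exact eq_one_of_odd (n := 5) hP.cA ha (by nth_rw 1 [h3]; exact inv_mul_cancel a)
    have := hP.cA
    rw [hb, card_bot] at this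
    omega
  have hyn : y * y = 1 → y ∉ A ⊔ B := fun h2 h => hy1 (hN y h hyA h2)
  have hx : y * y = 1 → ∀ b ∈ A ⊔ B ⊔ zpowers y, Xor (b * y ∈ A ⊔ B) (b ∈ A ⊔ B) := by
    intro h2 b hb
    have hn : ¬ (b * y ∈ A ⊔ B ∧ b ∈ A ⊔ B) := fun h =>
      hyn h2 (by simpa using (A ⊔ B).mul_mem ((A ⊔ B).inv_mem h.2) h.1)
    rcases mem_ext hyL h2 hb with h | h
    · exact Or.inr ⟨h, fun h' => hn ⟨h', h⟩⟩
    · exact Or.inl ⟨h, fun h' => hn ⟨h, h'⟩⟩
  have hyX : y ∈ A ⊔ B ⊔ zpowers y := mem_sup_right (mem_zpowers y)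
  have card : y * y = 1 → Nat.card (A ⊔ B ⊔ zpowers y : Subgroup G) = 1320 := fun h2 => by
    rw [card_two hyX (hx h2), inf_eq_right.mpr le_sup_left, la.card]
  have key : y * y = 1 → ∃ a ∈ A ⊔ B, orderOf a = 2 ∧ orderOf (a * y) = 4 ∧
      a * y * (a * y) ∈ A ⊔ B ∧ orderOf (a * y * (a * y)) = 2 := by
    intro h2
    have : Fact (Nat.Prime 2) := ⟨Nat.prime_two⟩
    have hi : y⁻¹ = y := inv_eq_of_mul_eq_one_right h2
    have oy : orderOf y = 2 := H9.orderOf_eq_two_iff.mpr ⟨hy1, h2⟩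
    obtain ⟨K, hK, hyK⟩ := Sylow.exists_subgroup_card_pow_prime_le 2 (n := 1) (m := 3)
      (G := (A ⊔ B ⊔ zpowers y : Subgroup G)) (by rw [card h2]; norm_num)
      (zpowers ⟨y, hyX⟩) (by rw [Nat.card_zpowers, ← Subgroup.orderOf_coe]; exact oy) (by norm_num)
    set S := K.map (A ⊔ B ⊔ zpowers y : Subgroup G).subtype with hS
    have cS : Nat.card S = 8 := by
      rw [hS, card_map_of_injective (subtype_injective _), hK]; norm_num
    have yS : y ∈ S := ⟨_, hyK (mem_zpowers _), rfl⟩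
    have SX : S ≤ A ⊔ B ⊔ zpowers y := map_subtype_le _
    have cV : Nat.card (S ⊓ (A ⊔ B) : Subgroup G) = 4 := by
      have := card_two yS fun b hb => hx h2 b (SX hb)
      omega
    have el : ∀ v ∈ S ⊓ (A ⊔ B), v * v = 1 := fun v hv => by
      rw [← sq]
      refine lb.no4 v hv.2 ?_
      rw [← cV]
      exact orderOf_dvd_iff_pow_eq_one.mp ((S ⊓ (A ⊔ B)).orderOf_dvd_natCard hv)
    have hex : ∃ a ∈ S ⊓ (A ⊔ B), y * a ≠ a * y := by
      by_contra hcon
      push Not at hcon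
      have hm : ∀ v ∈ S ⊓ (A ⊔ B), cj v A = A ∨ cj v A = B := fun v hv => by
        refine two _ ⟨?_, by rw [card_cj, hP.cA]⟩ ?_
        · intro x hx
          rw [mem_cj] at hx
          have := (A ⊔ B).mul_mem ((A ⊔ B).mul_mem hv.2 (mem_sup_left hx)) ((A ⊔ B).inv_mem hv.2)
          simpa [mul_assoc] using this
        · rw [← cj_eq_iff, ← cj_mul, hcon v hv, cj_mul, cj_eq_iff.mpr hyA]
      have hinj : ∀ v ∈ S ⊓ (A ⊔ B), ∀ w ∈ S ⊓ (A ⊔ B), cj v A = cj w A → v = w := by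
        intro v hv w hw h
        have hm := (S ⊓ (A ⊔ B)).mul_mem ((S ⊓ (A ⊔ B)).inv_mem hw) hv
        have := hN _ hm.2 (by rw [← cj_eq_iff, cj_mul, h, ← cj_mul, inv_mul_cancel, cj_one])
          (el _ hm)
        exact (inv_mul_eq_one.mp this).symm
      have := Fintype.ofFinite (S ⊓ (A ⊔ B) : Subgroup G)
      obtain ⟨a, b, c, hab, hac, hbc⟩ := Fintype.two_lt_card_iff.mp
        (show 2 < Fintype.card (S ⊓ (A ⊔ B) : Subgroup G) by
          rw [← Nat.card_eq_fintype_card, cV]; norm_num)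
      have e1 : cj a.1 A ≠ cj b.1 A := fun h => hab (Subtype.ext (hinj _ a.2 _ b.2 h))
      have e2 : cj a.1 A ≠ cj c.1 A := fun h => hac (Subtype.ext (hinj _ a.2 _ c.2 h))
      have e3 : cj b.1 A ≠ cj c.1 A := fun h => hbc (Subtype.ext (hinj _ b.2 _ c.2 h))
      rcases hm _ a.2 with h1 | h1 <;> rcases hm _ b.2 with h2 | h2 <;>
        rcases hm _ c.2 with h3 | h3 <;>
        first | exact e1 (h1.trans h2.symm) | exact e2 (h1.trans h3.symm) | exact e3 (h2.trans h3.symm)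
    obtain ⟨a, ha, hne⟩ := hex
    have hb : y * a * y⁻¹ ∈ S ⊓ (A ⊔ B) :=
      ⟨S.mul_mem (S.mul_mem yS ha.1) (S.inv_mem yS), (mem_normalizer_iff.mp hyL a).mp ha.2⟩
    have hr : a * y * (a * y) = a * (y * a * y⁻¹) := by rw [hi]; group
    have hm : a * y * (a * y) ∈ S ⊓ (A ⊔ B) := by
      rw [hr]; exact (S ⊓ (A ⊔ B)).mul_mem ha hb
    have hr1 : a * y * (a * y) ≠ 1 := fun h => hne (by
      have hia : a⁻¹ = a := inv_eq_of_mul_eq_one_right (el a ha)
      have := inv_eq_of_mul_eq_one_right h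
      rwa [mul_inv_rev, hi, hia] at this)
    have ha1 : a ≠ 1 := by rintro rfl; simp at hne
    refine ⟨a, ha.2, H9.orderOf_eq_two_iff.mpr ⟨ha1, el a ha⟩, ?_, hm.2,
      H9.orderOf_eq_two_iff.mpr ⟨hr1, el _ hm⟩⟩
    have := orderOf_eq_prime_pow (p := 2) (n := 1) (x := a * y) (by rwa [pow_one, sq])
      (by rw [show 2 ^ (1 + 1) = 2 * 2 by norm_num, pow_mul, sq, sq]; exact el _ hm)
    simpa using this
  refine ⟨?_, two, card, fun h2 => ?_, fun h2 s hs os => ?_⟩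
  · obtain ⟨j, hj⟩ := exists_ex hP.cB hyB
    obtain ⟨c, hc⟩ := lc.mm y hyA hyB (-1) j hy hj
    intro b hb
    have h11 : b ^ (11 : ℤ) = 1 := by exact_mod_cast pow11 hP.cB hb
    rw [hj b hb, show j = -1 + 11 * (-c) by linarith, zpow_add, zpow_mul, h11, one_zpow, mul_one]
  · obtain ⟨a, ha, oa, o4, -, -⟩ := key h2
    have oy : orderOf y = 2 := H9.orderOf_eq_two_iff.mpr ⟨hy1, h2⟩
    refine ⟨closure {a, y}, ?_, ?_⟩
    · rw [closure_le]
      rintro x (rfl | rfl)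
      · exact mem_sup_left ha
      · exact hyX
    · have ha2 := H9.mul_self_of_orderOf_two oa
      rw [H9.closure_pair_involutions ha2]
      exact H9.closure_equiv_dihedral _ _ o4 ha2 (H9.left_inverts_mul ha2 h2)
        (H9.left_not_mem_zpowers_mul oa oy)
  · obtain ⟨a, ha, -, -, hm, o2⟩ := key h2
    obtain ⟨g, hg, he⟩ := lb.cls _ hm s hs o2 os
    refine ⟨g * (a * y) * g⁻¹, ?_, by rw [← he]; group⟩
    exact mul_mem (mul_mem (mem_sup_left hg) (mul_mem (mem_sup_left ha) hyX))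
      (inv_mem (mem_sup_left hg))

end Cfsg.Agent.H86.ElD
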