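import Mathlib
import Cfsg.Agent.H98.GbH

/-! Project GB, piece TH1a: the power sums of a coproduct-compatible sequence are primitive. -/

set_option autoImplicit false

namespace Cfsg.Agent.H86.GbTh1a

open Cfsg Finset Cfsg.Agent.H98.GB
open scoped ComplexConjugate

universe u

section alg
variable {A : Type*} [CommRing A] [Algebra ℂ A]

theorem newton (Q : ℕ → A) (k : ℕ) :
    ((k + 1 : ℕ) : ℂ) • nw Q (k + 1) = ∑ i ∈ range (k + 1), Q (i + 1) * nw Q (k - i) := by
  rw [nw, smul_smul, mul_inv_cancel₀ (Nat.cast_ne_zero.2 k.succ_ne_zero), one_smul]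
  exact Fin.sum_univ_eq_sum_range (fun i => Q (i + 1) * nw Q (k - i)) (k + 1)

theorem nw_zero (Q : ℕ → A) : nw Q 0 = 1 := by rw [nw]

theorem der (D : A →ₗ[ℂ] A) (hD : ∀ x z, D (x * z) = D x * z + x * D z) (Q : ℕ → A) {K r : ℕ}
    (hr : 0 < r) (c : ℂ)
    (h : ∀ k ≤ K, D (nw Q k) = if r ≤ k then c • nw Q (k - r) else 0) :
    ∀ k, k + 1 ≤ K → D (Q (k + 1)) = if k + 1 = r then ((r : ℂ) * c) • (1 : A) else 0 := by
  intro k
  induction k using Nat.strong_induction_on with
  | _ k ih =>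
  intro hk
  have h1 := congrArg D (newton Q k)
  rw [map_smul, map_sum, h _ hk] at h1
  simp only [hD] at h1
  rw [sum_add_distrib, sum_range_succ, Nat.sub_self, nw_zero, mul_one] at h1
  by_cases hrk : r ≤ k
  · obtain ⟨j, rfl⟩ := Nat.exists_eq_add_of_le' hrk
    have s1 : ∑ i ∈ range (j + r), D (Q (i + 1)) * nw Q (j + r - i) =
        ((r : ℂ) * c) • nw Q (j + 1) := by
      rw [sum_eq_single (r - 1)]
      · rw [ih _ (by omega) (by omega), if_pos (by omega), smul_mul_assoc, one_mul,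
          show j + r - (r - 1) = j + 1 by omega]
      · intro i hi hne
        rw [ih _ (mem_range.1 hi) (by have := mem_range.1 hi; omega), if_neg (by omega), zero_mul]
      · intro hn
        exact (hn (mem_range.2 (by omega))).elim
    have s2 : ∑ i ∈ range (j + r + 1), Q (i + 1) * D (nw Q (j + r - i)) =
        (c * ((j + 1 : ℕ) : ℂ)) • nw Q (j + 1) := by
      rw [← smul_smul, newton, smul_sum]
      symm
      refine sum_subset_zero_on_sdiff (range_subset_range.2 (by omega)) (fun i hi => ?_)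
        fun i hi => ?_
      · simp only [mem_sdiff, mem_range] at hi
        rw [h _ (by omega), if_neg (by omega), mul_zero]
      · have := mem_range.1 hi
        rw [h _ (by omega), if_pos (by omega), mul_smul_comm,
          show j + r - i - r = j - i by omega]
    rw [s1, s2, if_pos (by omega), show j + r + 1 - r = j + 1 by omega, smul_smul] at h1
    rw [if_neg (by omega)]
    have h2 : D (Q (j + r + 1)) = (((j + r + 1 : ℕ) : ℂ) * c - (r : ℂ) * c -
        c * ((j + 1 : ℕ) : ℂ)) • nw Q (j + 1) := by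
      rw [sub_smul, sub_smul, h1]; abel
    rw [h2]
    convert zero_smul ℂ _
    push_cast
    ring
  · have s1 : ∑ i ∈ range k, D (Q (i + 1)) * nw Q (k - i) = 0 := sum_eq_zero fun i hi => by
      have := mem_range.1 hi
      rw [ih _ this (by omega), if_neg (by omega), zero_mul]
    have s2 : ∑ i ∈ range (k + 1), Q (i + 1) * D (nw Q (k - i)) = 0 := sum_eq_zero fun i _ => by
      rw [h _ (by omega), if_neg (by omega), mul_zero]
    rw [s1, s2, zero_add, add_zero] at h1
    rw [← h1]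
    by_cases he : k + 1 = r
    · rw [if_pos he.ge, if_pos he, he, Nat.sub_self, nw_zero, smul_smul]
    · rw [if_neg (by omega), if_neg he, smul_zero]

end alg

section hall
variable {F : Type u} [Field F] [Fintype F] [DecidableEq F] {η : Fˣ →* ℂˣ} {H : Hall η}

theorem hg_smul {n : ℕ} {x : H.A} (c : ℂ) (h : H.Hg n x) : H.Hg n (c • x) := fun m hm => by
  rw [map_smul, Pi.smul_apply, h m hm, smul_zero]

theorem hg_sub {n : ℕ} {x y : H.A} (h : H.Hg n x) (h' : H.Hg n y) : H.Hg n (x - y) :=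
  fun m hm => by rw [map_sub, Pi.sub_apply, h m hm, h' m hm, sub_zero]

theorem hg_sum {n : ℕ} {s : Finset ℕ} {x : ℕ → H.A} (h : ∀ i ∈ s, H.Hg n (x i)) :
    H.Hg n (∑ i ∈ s, x i) := fun m hm => by
  rw [map_sum, Finset.sum_apply]
  exact sum_eq_zero fun i hi => h i hi m hm

theorem ip_zero (n : ℕ) (x : H.A) : H.ip n x 0 = 0 := by
  rw [Hall.ip, map_zero, Pi.zero_apply, H11.classInner_zero_right]

theorem ip_smul_left (n : ℕ) (c : ℂ) (x y : H.A) : H.ip n (c • x) y = c * H.ip n x y := by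
  rw [Hall.ip, map_smul, Pi.smul_apply, H11.classInner_smul_left, Hall.ip]

theorem ip_smul_right (n : ℕ) (c : ℂ) (x y : H.A) : H.ip n x (c • y) = conj c * H.ip n x y := by
  rw [Hall.ip, map_smul, Pi.smul_apply, H11.classInner_smul_right, Hall.ip]

theorem ip_sum_left (n : ℕ) (s : Finset ℕ) (x : ℕ → H.A) (y : H.A) :
    H.ip n (∑ i ∈ s, x i) y = ∑ i ∈ s, H.ip n (x i) y := by
  rw [Hall.ip, map_sum, Finset.sum_apply, H11.classInner_sum_left]
  rfl

theorem pr_of (hF : H.Fock) {n : ℕ} (hn : 0 < n) {x : H.A} (hx : H.Hg n x)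
    (h : ∀ m y, H.Pr m y → m < n → H.D m y x = 0) : H.Pr n x := by
  refine (hF.pr_iff hn hx).2 fun a b y z ha hb hab _ hz => ?_
  subst hab
  have hw : H.Hg a (H.D b z x) := hF.D_hg z (by rwa [add_comm])
  have h0 : H.D b z x = 0 := by
    refine hF.span ha hw fun m y' hy' => ?_
    rcases lt_or_ge a m with hm | hm
    · exact hF.D_lt y' hw hm
    obtain ⟨j, rfl⟩ := Nat.exists_eq_add_of_le hm
    refine hF.ip_self (hF.D_hg y' hw) ?_
    have key : ∀ w, H.ip j w (H.D m y' (H.D b z x)) = 0 := fun w => by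
      rw [← hF.adj hy'.1, ← hF.adj hz, mul_left_comm, show b + (m + j) = m + (b + j) by omega,
        hF.adj hy'.1, h m y' hy' (by omega), ip_zero]
    exact key _
  rw [add_comm, mul_comm, hF.adj hz, h0, ip_zero]

/-- `D` as a linear map. -/
noncomputable def DL (hF : H.Fock) (m : ℕ) (y : H.A) : H.A →ₗ[ℂ] H.A where
  toFun := H.D m y
  map_add' := hF.D_add m y
  map_smul' := hF.D_smul m y

theorem DL_apply (hF : H.Fock) (m : ℕ) (y x : H.A) : DL hF m y x = H.D m y x := rfl

theorem main (hF : H.Fock) {d K : ℕ} (Q : ℕ → H.A) (hd : 0 < d)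
    (h1 : ∀ k ≤ K, H.Hg (d * k) (nw Q k) ∧ H.ip (d * k) (nw Q k) (nw Q k) = 1)
    (h2 : ∀ m y, H.Pr m y → ∃ c : ℂ, ∀ k ≤ K, H.D m y (nw Q k) =
      if d ∣ m ∧ m / d ≤ k then c • nw Q (k - m / d) else 0) :
    ∀ k, 0 < k → k ≤ K → H.Pr (d * k) (Q k) ∧ H.ip (d * k) (Q k) (Q k) = k := by
  have hg : ∀ k, k + 1 ≤ K → H.Hg (d * (k + 1)) (Q (k + 1)) := by
    intro k
    induction k using Nat.strong_induction_on with
    | _ k ih =>
    intro hk
    have h3 := newton Q k
    rw [sum_range_succ, Nat.sub_self, nw_zero, mul_one] at h3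
    rw [eq_sub_of_add_eq' h3.symm]
    refine hg_sub (hg_smul _ (h1 _ hk).1) (hg_sum fun i hi => ?_)
    have hi := mem_range.1 hi
    have := hF.hg_mul (ih i hi (by omega)) (h1 (k - i) (by omega)).1
    rwa [← mul_add, show i + 1 + (k - i) = k + 1 by omega] at this
  have hp : ∀ k, k + 1 ≤ K → H.Pr (d * (k + 1)) (Q (k + 1)) := by
    intro k hk
    refine pr_of hF (by positivity) (hg k hk) fun m y hy hm => ?_
    obtain ⟨c, hc⟩ := h2 m y hy
    by_cases hdm : d ∣ m
    · obtain ⟨r, rfl⟩ := hdm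
      have hr : 0 < r := Nat.pos_of_mul_pos_left hy.2.1
      have h3 := der (DL hF _ y) (hF.D_mul hy) Q hr c (fun j hj => by
        simpa [Nat.mul_div_cancel_left _ hd, DL_apply] using hc j hj) k hk
      rwa [if_neg (by rintro rfl; omega)] at h3
    · have h3 := der (DL hF _ y) (hF.D_mul hy) Q (Nat.succ_pos K) c (fun j hj => by
        rw [if_neg (by omega)]
        simpa [hdm, DL_apply] using hc j hj) k hk
      rwa [if_neg (by omega)] at h3
  have h3 : ∀ r, ∃ c : ℂ, r + 1 ≤ K → ∀ k ≤ K, H.D (d * (r + 1)) (Q (r + 1)) (nw Q k) =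
      if r + 1 ≤ k then c • nw Q (k - (r + 1)) else 0 := by
    intro r
    by_cases hr : r + 1 ≤ K
    · obtain ⟨c, hc⟩ := h2 _ _ (hp r hr)
      exact ⟨c, fun _ j hj => by simpa [Nat.mul_div_cancel_left _ hd] using hc j hj⟩
    · exact ⟨0, fun h => (hr h).elim⟩
  choose c hc using h3
  have h4 : ∀ k ≤ K, ∑ i ∈ range k, conj (c i) = (k : ℂ) := by
    intro k hk
    obtain _ | k := k
    · simp
    have h5 := congrArg (fun x => H.ip (d * (k + 1)) x (nw Q (k + 1))) (newton Q k)
    simp only [ip_smul_left, ip_sum_left, (h1 _ hk).2, mul_one] at h5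
    rw [h5]
    refine sum_congr rfl fun i hi => ?_
    have hi := mem_range.1 hi
    have h6 : d * (k + 1) = d * (i + 1) + d * (k - i) := by
      rw [← mul_add, show i + 1 + (k - i) = k + 1 by omega]
    rw [h6, hF.adj (hg i (by omega)), hc i (by omega) _ hk, if_pos (by omega), ip_smul_right,
      show k + 1 - (i + 1) = k - i by omega, (h1 _ (by omega)).2, mul_one]
  intro k hk0 hk
  obtain ⟨k, rfl⟩ := Nat.exists_eq_succ_of_ne_zero hk0.ne'
  refine ⟨hp k hk, ?_⟩
  have h5 : c k = 1 := by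
    have h6 := h4 _ hk
    rw [sum_range_succ, h4 k (by omega), Nat.cast_succ, add_right_inj] at h6
    simpa using congrArg conj h6
  have h6 := der (DL hF _ (Q (k + 1))) (hF.D_mul (hp k hk)) Q (Nat.succ_pos k) (c k) (hc k hk) k hk
  rw [if_pos rfl, h5, mul_one] at h6
  have h7 := congrArg (fun x => H.ip 0 x 1) ((hF.D_pr (hp k hk) (hp k hk)).symm.trans h6)
  simpa only [ip_smul_left, hF.ip_one, mul_one] using h7

end hall

theorem th1a (hF : FOCKStmt.{u}) : TH1aStmt.{u} := by
  intro F _ _ _ η H d K P hd h1 h2 k hk0 hk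
  have hH := hF F η H
  obtain ⟨h3, h4⟩ := main hH (fun i => (-1 : ℂ) ^ (i + 1) • P i) hd h1 h2 k hk0 hk
  have hs : (-1 : ℂ) ^ (k + 1) * (-1 : ℂ) ^ (k + 1) = 1 := by rw [← mul_pow]; simp
  have he : P k = (-1 : ℂ) ^ (k + 1) • (-1 : ℂ) ^ (k + 1) • P k := by rw [smul_smul, hs, one_smul]
  have hp : 0 < d * k := h3.2.1
  refine ⟨?_, ?_⟩
  · rw [he]
    refine (hH.pr_iff hp (hg_smul _ h3.1)).2 fun a b y z ha hb hab hy hz => ?_
    rw [ip_smul_right, (hH.pr_iff hp h3.1).1 h3 a b y z ha hb hab hy hz, mul_zero]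
  · rw [ip_smul_left, ip_smul_right, ← mul_assoc, map_pow, map_neg, map_one, hs, one_mul] at h4
    exact h4

theorem eqns : True := by
  have := @DL.eq_1.{0}
  trivial

end Cfsg.Agent.H86.GbTh1a
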