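import Mathlib
import Cfsg.Agent.H98.GbL
import Cfsg.Agent.H72.GbMorth
import Cfsg.Agent.H86.GbTh1a

/-! Project GB, piece BLKC: labels with different cores are orthogonal on the regular classes. -/

set_option autoImplicit false

namespace Cfsg.Agent.H86.GbBlkc

open Cfsg Finset Cfsg.Agent.H98.GB Cfsg.Agent.H86.GbTh1a
open scoped ComplexConjugate

universe u

section hall
variable {F : Type u} [Field F] [Fintype F] [DecidableEq F] {η : Fˣ →* ℂˣ} {H : Hall η}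

theorem hg_sum' {ι : Type*} {n : ℕ} {s : Finset ι} {x : ι → H.A} (h : ∀ i ∈ s, H.Hg n (x i)) :
    H.Hg n (∑ i ∈ s, x i) := fun m hm => by
  rw [map_sum, Finset.sum_apply]
  exact sum_eq_zero fun i hi => h i hi m hm

theorem ip_suml {ι : Type*} (n : ℕ) (s : Finset ι) (x : ι → H.A) (y : H.A) :
    H.ip n (∑ i ∈ s, x i) y = ∑ i ∈ s, H.ip n (x i) y := by
  rw [Hall.ip, map_sum, Finset.sum_apply, H11.classInner_sum_left]
  rfl

theorem ip_sumr {ι : Type*} (n : ℕ) (s : Finset ι) (x : H.A) (y : ι → H.A) :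
    H.ip n x (∑ i ∈ s, y i) = ∑ i ∈ s, H.ip n x (y i) := by
  rw [Hall.ip, map_sum, Finset.sum_apply, H11.classInner_sum_right]
  rfl

theorem ip_hgl {n m : ℕ} {x : H.A} (hx : H.Hg m x) (h : n ≠ m) (y : H.A) : H.ip n x y = 0 := by
  rw [Hall.ip, hx n h, H11.classInner_zero_left]

theorem ip_hgr {n m : ℕ} {y : H.A} (hy : H.Hg m y) (h : n ≠ m) (x : H.A) : H.ip n x y = 0 := by
  rw [Hall.ip, hy n h, H11.classInner_zero_right]

theorem hg_mon (hF : H.Fock) {d : ℕ} {y : ℕ → H.A} (hy : ∀ k, 0 < k → H.Hg (d * k) (y k))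
    (μ : Multiset ℕ) (hμ : ∀ r ∈ μ, 0 < r) : H.Hg (d * μ.sum) (μ.map y).prod := by
  induction μ using Multiset.induction_on with
  | empty => simpa using hF.hg_one
  | cons x t ih =>
    rw [Multiset.map_cons, Multiset.sum_cons, Multiset.prod_cons, mul_add]
    exact hF.hg_mul (hy x (hμ x (Multiset.mem_cons_self _ _)))
      (ih fun z hz => hμ z (Multiset.mem_cons_of_mem hz))

theorem hg_sch (hF : H.Fock) {d : ℕ} {y : ℕ → H.A} (hy : ∀ k, 0 < k → H.Hg (d * k) (y k))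
    (N : ℕ) (S : Finset ℕ) : H.Hg (d * H19.wtS S) (sch N y S) :=
  hg_sum' fun μ hμ => hg_smul _ ((H19.mem_Par.1 hμ).1 ▸ hg_mon hF hy μ (H19.mem_Par.1 hμ).2)

theorem hg_prod (hF : H.Fock) {ι : Type*} (s : Finset ι) {a : ι → ℕ} {x : ι → H.A}
    (h : ∀ i, H.Hg (a i) (x i)) : H.Hg (∑ i ∈ s, a i) (∏ i ∈ s, x i) := by
  classical
  induction s using Finset.induction_on with
  | empty => simpa using hF.hg_one
  | insert i s hi ih =>
    rw [sum_insert hi, prod_insert hi]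
    exact hF.hg_mul (h i) ih

theorem D_mul0 (hF : H.Fock) {m : ℕ} {z x x' : H.A} (hz : H.Pr m z) (h : H.D m z x = 0)
    (h' : H.D m z x' = 0) : H.D m z (x * x') = 0 := by
  rw [hF.D_mul hz, h, h', zero_mul, mul_zero, add_zero]

theorem D_mon (hF : H.Fock) {m : ℕ} {z : H.A} (hz : H.Pr m z) {y : ℕ → H.A}
    (μ : Multiset ℕ) (hμ : ∀ r ∈ μ, H.D m z (y r) = 0) : H.D m z (μ.map y).prod = 0 := by
  induction μ using Multiset.induction_on with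
  | empty => simpa using hF.D_lt z hF.hg_one hz.2.1
  | cons x t ih =>
    rw [Multiset.map_cons, Multiset.prod_cons]
    exact D_mul0 hF hz (hμ x (Multiset.mem_cons_self _ _))
      (ih fun z hz => hμ z (Multiset.mem_cons_of_mem hz))

theorem D_sch (hF : H.Fock) {m : ℕ} {z : H.A} (hz : H.Pr m z) {y : ℕ → H.A}
    (hy : ∀ r, 0 < r → H.D m z (y r) = 0) (N : ℕ) (S : Finset ℕ) : H.D m z (sch N y S) = 0 := by
  rw [← DL_apply hF, sch, map_sum]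
  refine sum_eq_zero fun μ hμ => ?_
  rw [map_smul, DL_apply, D_mon hF hz μ fun r hr => hy r ((H19.mem_Par.1 hμ).2 r hr), smul_zero]

theorem D_prod (hF : H.Fock) {m : ℕ} {z : H.A} (hz : H.Pr m z) {ι : Type*} (s : Finset ι)
    {x : ι → H.A} (h : ∀ i ∈ s, H.D m z (x i) = 0) : H.D m z (∏ i ∈ s, x i) = 0 :=
  prod_induction x (fun a => H.D m z a = 0) (fun _ _ => D_mul0 hF hz)
    (hF.D_lt z hF.hg_one hz.2.1) h

theorem mem_ParReg {e j : ℕ} {μ : Multiset ℕ} (h : μ ∈ H19.ParReg e j) :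
    μ.sum = j ∧ ∀ r ∈ μ, 0 < r ∧ ¬ e ∣ r :=
  ⟨(H19.mem_Par.1 (mem_filter.1 h).1).1, fun r hr =>
    ⟨(H19.mem_Par.1 (mem_filter.1 h).1).2 r hr, (mem_filter.1 h).2 r hr⟩⟩

theorem ip_mon (hE : PERMStmt.{u}) {d e : ℕ} (hd : 0 < d) {y : ℕ → H.A}
    (hy : ∀ k, 0 < k → H.Pr (d * k) (y k))
    (hg : ∀ k, 0 < k → ¬ e ∣ k → H.ip (d * k) (y k) (y k) = k) {k k' : ℕ} {v v' : H.A}
    (hv : H.Hg k v) (hv' : H.Hg k' v')
    (hD : ∀ i, 0 < i → ¬ e ∣ i → H.D (d * i) (y i) v = 0 ∧ H.D (d * i) (y i) v' = 0)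
    {μ μ' : Multiset ℕ} (hμ : ∀ r ∈ μ, 0 < r ∧ ¬ e ∣ r) (hμ' : ∀ r ∈ μ', 0 < r ∧ ¬ e ∣ r) :
    H.ip (k + d * μ.sum) (v * (μ.map y).prod) (v' * (μ'.map y).prod) =
      H.ip k v v' * if μ = μ' then (H19.zM μ' : ℂ) else 0 := by
  have h := hE F η H ℕ y (fun i => d * i) {i | 0 < i ∧ ¬ e ∣ i} (fun i hi => hy i hi.1) k k' v v'
    hv hv' (fun i hi => hD i hi.1 hi.2) μ.toList μ'
    (fun i hi => hμ i (Multiset.mem_toList.1 hi)) hμ'
  rw [← Multiset.sum_coe, ← Multiset.prod_coe, ← Multiset.map_coe, ← Multiset.map_coe,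
    Multiset.coe_toList, Multiset.sum_map_mul_left, Multiset.map_id',
    H72.GbMorth.pm_diag _ (fun i : ℕ => (i : ℂ)) {i | 0 < i ∧ ¬ e ∣ i} (fun i hi j hj => by
      split_ifs with hij
      · rw [← hij]; exact hg i hi.1 hi.2
      · exact ip_hgr (hy j hj.1).1 (fun h => hij (Nat.eq_of_mul_eq_mul_left hd h)) _) _ _
      (fun i hi => hμ i (Multiset.mem_toList.1 hi)) hμ', Multiset.coe_toList] at h
  rw [h]
  congr 2
  simp [H19.zM, H72.GbMorth.fac]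

theorem core (hF : H.Fock) (hE : PERMStmt.{u}) (hR : REGStmt) {d e N : ℕ} (hd : 0 < d)
    (he : 0 < e) {y : ℕ → H.A} (hy : ∀ k, 0 < k → H.Pr (d * k) (y k))
    (hg : ∀ k, 0 < k → ¬ e ∣ k → H.ip (d * k) (y k) (y k) = k) {a a' : ℕ} {r r' : H.A}
    (hr : H.Hg a r) (hr' : H.Hg a' r')
    (hD : ∀ i, 0 < i → ¬ e ∣ i → H.D (d * i) (y i) r = 0 ∧ H.D (d * i) (y i) r' = 0)
    {S S' : Finset ℕ} (h1 : #S = N) (h2 : #S' = N) (h3 : H19.wtS S ≤ N) (h4 : H19.wtS S' ≤ N)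
    (hc : H19.cnt e S ≠ H19.cnt e S') :
    H.ip (d * H19.wtS S + a) (sch N y S * r) (sch N y S' * r') = 0 := by
  have hν : ∀ v, ∀ ν ∈ H19.Par v, ∀ x ∈ ν.map (e * ·), 0 < x ∧ e ∣ x := fun v ν hν x hx => by
    obtain ⟨b, hb, rfl⟩ := Multiset.mem_map.1 hx
    exact ⟨Nat.mul_pos he ((H19.mem_Par.1 hν).2 b hb), dvd_mul_right _ _⟩
  have hk : ∀ {ν : Multiset ℕ} {x : H.A}, (∀ b ∈ ν, 0 < b ∧ e ∣ b) → ∀ i, 0 < i → ¬ e ∣ i →
      H.D (d * i) (y i) x = 0 → H.D (d * i) (y i) ((ν.map y).prod * x) = 0 :=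
    fun hb i hi hei hx => D_mul0 hF (hy i hi) (D_mon hF (hy i hi) _ fun b hb' => by
      rw [hF.D_pr (hy i hi) (hy b (hb b hb').1), ip_hgl (hy b (hb b hb').1).1 (n := d * i)
        (fun h => hei (by rw [Nat.eq_of_mul_eq_mul_left hd h]; exact (hb b hb').2)), zero_smul]) hx
  unfold sch
  rw [H19.sum_Par_eq he, H19.sum_Par_eq he]
  simp only [sum_mul]
  rw [ip_suml]
  refine sum_eq_zero fun v hv => ?_
  rw [ip_suml]
  refine sum_eq_zero fun ν hν1 => ?_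
  rw [ip_sumr]
  refine sum_eq_zero fun v' _ => ?_
  rw [ip_sumr]
  refine sum_eq_zero fun ν' hν2 => ?_
  have hv' : e * v ≤ H19.wtS S := by
    rw [mul_comm, ← Nat.le_div_iff_mul_le he]; exact Nat.lt_succ_iff.1 (mem_range.1 hv)
  have hs : (ν.map (e * ·)).sum = e * v := by
    rw [Multiset.sum_map_mul_left, Multiset.map_id', (H19.mem_Par.1 hν1).1]
  have b1 := hν v ν hν1
  have b2 := hν v' ν' hν2
  generalize ν.map (e * ·) = ν1 at *
  generalize ν'.map (e * ·) = ν2 at *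
  have g1 := hF.hg_mul (hg_mon hF (fun k hk => (hy k hk).1) ν1 fun x hx => (b1 x hx).1) hr
  have g2 := hF.hg_mul (hg_mon hF (fun k hk => (hy k hk).1) ν2 fun x hx => (b2 x hx).1) hr'
  have key : ∀ μ ∈ H19.ParReg e (H19.wtS S - e * v), ∀ μ' ∈ H19.ParReg e (H19.wtS S' - e * v'),
      H.ip (d * H19.wtS S + a)
        (((H19.chiS N S (ν1 + μ) : ℂ) / (H19.zM (ν1 + μ) : ℂ)) • ((ν1 + μ).map y).prod * r)
        (((H19.chiS N S' (ν2 + μ') : ℂ) / (H19.zM (ν2 + μ') : ℂ)) • ((ν2 + μ').map y).prod * r') =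
      if μ = μ' then (H.ip (d * ν1.sum + a) ((ν1.map y).prod * r) ((ν2.map y).prod * r') /
        ((H19.zM ν1 : ℂ) * H19.zM ν2)) *
        (((H19.chiS N S (ν1 + μ) * H19.chiS N S' (ν2 + μ) : ℤ) : ℂ) / (H19.zM μ : ℂ)) else 0 := by
    intro μ hμ μ' hμ'
    obtain ⟨s1, p1⟩ := mem_ParReg hμ
    obtain ⟨-, p2⟩ := mem_ParReg hμ'
    have hn : d * H19.wtS S + a = d * ν1.sum + a + d * μ.sum := by
      rw [add_right_comm, ← mul_add, hs, s1, Nat.add_sub_cancel' hv']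
    rw [smul_mul_assoc, smul_mul_assoc, ip_smul_left, ip_smul_right, Multiset.map_add,
      Multiset.map_add, Multiset.prod_add, Multiset.prod_add, mul_right_comm _ _ r,
      mul_right_comm _ _ r', hn, ip_mon hE hd hy hg g1 g2
        (fun i hi hei => ⟨hk b1 i hi hei (hD i hi hei).1, hk b2 i hi hei (hD i hi hei).2⟩) p1 p2]
    split_ifs with hμμ
    · subst hμμ
      have z0 : (H19.zM μ : ℂ) ≠ 0 := Nat.cast_ne_zero.2 (H19.zM_pos fun x hx => (p1 x hx).1).ne'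
      rw [H19.zM_add fun x hx h => (p1 x h).2 (b1 x hx).2,
        H19.zM_add fun x hx h => (p1 x h).2 (b2 x hx).2, map_div₀, map_intCast, map_natCast]
      push_cast
      field_simp
    · simp
  rw [ip_suml]
  simp only [ip_sumr]
  rw [sum_congr rfl fun μ hμ => sum_congr rfl (key μ hμ)]
  by_cases hj : H19.wtS S - e * v = H19.wtS S' - e * v'
  · rw [← hj, sum_congr rfl fun μ hμ => (sum_ite_eq _ μ _).trans (if_pos hμ), ← mul_sum,
      hR N e he S S' h1 h2 h3 h4 hc ν1 ν2 b1 b2, mul_zero]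
  · refine sum_eq_zero fun μ hμ => sum_eq_zero fun μ' hμ' => if_neg fun h => hj ?_
    rw [← (mem_ParReg hμ).1, ← (mem_ParReg hμ').1, h]

end hall

theorem blkc (hF : FOCKStmt.{u}) (hN : NWEHStmt.{u}) (hE : PERMStmt.{u}) (hR : REGStmt)
    (hP : PIMStmt.{u}) (hQ : PIPStmt.{u}) (hL : LABStmt.{u}) (hS : SYSStmt.{u}) :
    BLKCStmt.{u} := by
  intro F _ _ _ C n hn Λ Λ' h1 h2 Γ hΓ hc
  have fk := hF F 1 C.H
  have lb : C.Lab := hL F C
  obtain ⟨T, hT, t1, -, t2, t3, t4⟩ := hP F 1 C.H C.p C.hp C.hpF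
  obtain ⟨q1, q2, q3⟩ := hQ F C
  obtain ⟨s1, -, s3⟩ := hS F C
  have hy : ∀ φ k, 0 < k → C.H.Pr (C.dg φ * k) (C.H.pi C.p (C.pp φ k)) :=
    fun φ k hk => t2 _ _ (s1 φ k hk)
  have e1 : ∀ L : C.Lb, C.H.pi C.p (sL C.N C.pp L) =
      sch C.N (fun k => C.H.pi C.p (C.pp Γ k)) (L Γ) *
        ∏ φ ∈ univ.erase Γ, sch C.N (fun k => C.H.pi C.p (C.pp φ k)) (L φ) := fun L => by
    rw [mul_prod_erase univ (fun φ => sch C.N (fun k => C.H.pi C.p (C.pp φ k)) (L φ))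
      (mem_univ Γ), ← hT, sL, map_prod]
    refine prod_congr rfl fun φ _ => ?_
    rw [((hN C.H.A).2.2.2.1 C.H.A T (C.pp φ)).2.2]
    simp only [hT]
  have e2 : ∀ L, C.IsLab n L →
      C.dg Γ * H19.wtS (L Γ) + ∑ φ ∈ univ.erase Γ, C.dg φ * H19.wtS (L φ) = n := fun L hL => by
    rw [add_sum_erase univ (fun φ => C.dg φ * H19.wtS (L φ)) (mem_univ Γ)]
    exact hL.2
  have e3 : ∀ L, C.IsLab n L → H19.wtS (L Γ) ≤ C.N := fun L hL => by
    have := e2 L hL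
    have := Nat.le_mul_of_pos_left (H19.wtS (L Γ)) (lb.dg_pos Γ)
    have : C.n0 ≤ C.N := Nat.le_mul_of_pos_left _ (Nat.succ_pos _)
    omega
  have e4 : ∀ (L : C.Lb) i, 0 < i → ¬ C.eG Γ ∣ i → C.H.D (C.dg Γ * i) (C.H.pi C.p (C.pp Γ i))
      (∏ φ ∈ univ.erase Γ, sch C.N (fun k => C.H.pi C.p (C.pp φ k)) (L φ)) = 0 := by
    intro L i hi hei
    refine D_prod fk (hy Γ i hi) _ fun φ hφ => D_sch fk (hy Γ i hi) (fun k hk => ?_) _ _
    rw [fk.D_pr (hy Γ i hi) (hy φ k hk)]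
    by_cases hm : C.dg Γ * i = C.dg φ * k
    · obtain ⟨c, hc⟩ := lb.dg_lp φ
      have hk' : C.dg φ * k = C.dg (C.lp φ) * (c * k) := by rw [hc, mul_assoc]
      have hc0 : 0 < c * k := by
        have := Nat.mul_pos (lb.dg_pos φ) hk
        rw [hk'] at this
        exact Nat.pos_of_mul_pos_left this
      rw [q1 φ k _ hk hk', ip_smul_left, hm, hk', q3 (C.dg (C.lp φ) * (c * k)) _ _ _ _
        (lb.reg_lp φ) hΓ hc0 hi le_rfl (hm.trans hk').le, if_neg, mul_zero, zero_smul]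
      rintro ⟨h3, -⟩
      have h4 := lb.eG_dvd φ fun h => ne_of_mem_erase hφ (h.symm.trans h3)
      rw [h3, mul_comm] at h4
      exact hei (Nat.dvd_of_mul_dvd_mul_left (lb.dg_pos Γ) (hm ▸ h4.mul_right k))
    · rw [ip_hgl (hy φ k hk).1 hm, zero_smul]
  have h := core fk hE hR (lb.dg_pos Γ) (lb.eG_pos Γ) (hy Γ) (fun k hk hek => by
      rw [q2 Γ k hk hek, s3 (C.dg Γ * k) Γ k Γ k trivial trivial hk hk le_rfl le_rfl,
        if_pos ⟨rfl, rfl⟩])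
    (hg_prod fk (univ.erase Γ) fun φ => hg_sch fk (fun k hk => (hy φ k hk).1) C.N (Λ φ))
    (hg_prod fk (univ.erase Γ) fun φ => hg_sch fk (fun k hk => (hy φ k hk).1) C.N (Λ' φ))
    (fun i hi hei => ⟨e4 Λ i hi hei, e4 Λ' i hi hei⟩) (h1.1 Γ) (h2.1 Γ) (e3 Λ h1) (e3 Λ' h2) hc
  rw [e2 Λ h1, ← e1, ← e1, ← t4, t3, Hall.ip, t1] at h
  exact h

end Cfsg.Agent.H86.GbBlkc
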