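import Mathlib
import Cfsg.Agent.H98.GbG
import Cfsg.Agent.H20.GbOsi
import Cfsg.Agent.H22.Transport
import Cfsg.Agent.H11.PermChar

/-! Project GB, piece R2G: a union of blocks whose local part is one product block. -/

set_option autoImplicit false
set_option linter.unusedSectionVars false

namespace Cfsg.Agent.H86.GbR2G

open Cfsg Cfsg.Agent.H17 Cfsg.Agent.H19 Cfsg.Agent.H20 Cfsg.Agent.H98.GB
open scoped ComplexConjugate

universe u

section loc
variable {G : Type u} [Group G] [Finite G] {M : Ideal AlgInt} {p : ℕ} [Fact p.Prime]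

theorem apply_sub (hM : IsPModular p M) {u : G} (hu : ∃ k : ℕ, orderOf u = p ^ k)
    {B : Set (IrrCharacter G)} (hB : LamClosed M B) {χ : IrrCharacter G} (hχ : χ ∈ B)
    {c : Cg u} (hc : ¬ p ∣ orderOf c) :
    χ.1 (u * (c : G)) = blockPart (locSet M (Cg u) B) (fun c : Cg u => χ.1 (u * (c : G))) c := by
  rw [blockPart_subsection u _ (irr_isClassFunction χ)]
  exact apply_eq_blockPart_locSet hM hB (H := Cg u) (h := ⟨u, self_mem_Cg u⟩ * c) (z := u)
    (pPart_mul_Cg hu hc) le_rfl hχ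

theorem mem_loc (hM : IsPModular p M) {u : G} (hu : ∃ k : ℕ, orderOf u = p ^ k)
    [Fintype (Cg u)] {B : Set (IrrCharacter G)} (hB : LamClosed M B) {χ : IrrCharacter G}
    (hχ : χ ∈ B) {ξ : IrrCharacter (Cg u)}
    (h : classInner (pRegularPart p fun c : Cg u => χ.1 (u * (c : G))) ξ.1 ≠ 0) :
    ξ ∈ locSet M (Cg u) B := by
  classical
  have := irr_finite (Cg u)
  have := Fintype.ofFinite (IrrCharacter (Cg u))
  by_contra hξ
  apply h
  have h1 : (pRegularPart p fun c : Cg u => χ.1 (u * (c : G))) =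
      pRegularPart p (∑ ζ ∈ Finset.univ.filter (· ∈ locSet M (Cg u) B),
        classInner (fun c : Cg u => χ.1 (u * (c : G))) ζ.1 • ζ.1) := by
    funext c
    by_cases hc : p ∣ orderOf c
    · rw [H16.pRegularPart_of_dvd _ hc, H16.pRegularPart_of_dvd _ hc]
    · rw [H16.pRegularPart_of_not_dvd _ hc, H16.pRegularPart_of_not_dvd _ hc,
        apply_sub hM hu hB hχ hc, blockPart_eq_sum, Finset.sum_apply]
      rfl
  rw [h1, H16.pRegularPart_sum, H11.classInner_sum_left]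
  refine Finset.sum_eq_zero fun ζ hζ => ?_
  rw [H16.pRegularPart_smul, H11.classInner_smul_left,
    (GbOsi.osi (Cg u) p M hM _).1 (lamClosed_locSet _ B) ζ (by simpa using hζ) ξ hξ, mul_zero]

theorem eq_one_of_conj {u : G} (hu : ∃ k : ℕ, orderOf u = p ^ k) {c : Cg u}
    (hc : ¬ p ∣ orderOf c) (h : IsConj (u * (c : G)) u) : c = 1 := by
  obtain ⟨k, hk⟩ := hu
  obtain ⟨x, hx⟩ := isConj_iff.1 h
  have hcm : Commute u (c : G) := (mem_Cg.1 c.2).symm
  have h1 : u ^ p ^ k = 1 := by rw [← hk, pow_orderOf_eq_one]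
  have h2 : (u * (c : G)) ^ p ^ k = 1 := by
    have h3 : (x * (u * (c : G)) * x⁻¹) ^ p ^ k = 1 := by rw [hx, h1]
    rw [conj_pow] at h3
    simpa using h3
  rw [hcm.mul_pow, h1, one_mul] at h2
  have h4 : c ^ p ^ k = 1 := Subtype.ext (by simpa using h2)
  have h5 : orderOf c ∣ p ^ k := orderOf_dvd_of_pow_eq_one h4
  have h6 : (orderOf c).Coprime (p ^ k) :=
    (((Fact.out : p.Prime).coprime_iff_not_dvd.2 hc).symm).pow_right k
  exact orderOf_eq_one_iff.1 (h6.eq_one_of_dvd h5)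

theorem exists_ne {u : G} (hu : ∃ k : ℕ, orderOf u = p ^ k) [Fintype (Cg u)]
    (ξ : IrrCharacter (Cg u)) : ∃ χ : IrrCharacter G,
      classInner (pRegularPart p fun c : Cg u => χ.1 (u * (c : G))) ξ.1 ≠ 0 := by
  classical
  have := irr_finite G
  have := Fintype.ofFinite (IrrCharacter G)
  by_contra hne
  push Not at hne
  have h0 : ∀ χ : IrrCharacter G, ∑ c : Cg u,
      (pRegularPart p (fun c : Cg u => χ.1 (u * (c : G))) c) * conj (ξ.1 c) = 0 := by
    intro χ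
    have h1 := hne χ
    rw [classInner, mul_eq_zero] at h1
    refine h1.resolve_left (inv_ne_zero ?_)
    exact_mod_cast Nat.card_pos.ne'
  have h2 : ∑ χ : IrrCharacter G, conj (χ.1 u) * ∑ c : Cg u,
      (pRegularPart p (fun c : Cg u => χ.1 (u * (c : G))) c) * conj (ξ.1 c) = 0 :=
    Finset.sum_eq_zero fun χ _ => by rw [h0, mul_zero]
  simp only [Finset.mul_sum] at h2
  rw [Finset.sum_comm, Finset.sum_eq_single (1 : Cg u)] at h2
  · have h1 : ¬ p ∣ orderOf (1 : Cg u) := by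
      rw [orderOf_one]; exact (Fact.out : p.Prime).not_dvd_one
    simp only [H16.pRegularPart_of_not_dvd _ h1, OneMemClass.coe_one, mul_one] at h2
    have h3 := H11.column_orthogonality_of_isConj (IsConj.refl u)
    have h4 : ∑ χ : IrrCharacter G, conj (χ.1 u) * (χ.1 u * conj (ξ.1 1)) =
        (∑ χ : IrrCharacter G, χ.1 u * conj (χ.1 u)) * conj (ξ.1 1) := by
      rw [Finset.sum_mul]
      exact Finset.sum_congr rfl fun χ _ => by ring
    rw [h4, h3, mul_eq_zero] at h2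
    rcases h2 with h2 | h2
    · exact H11.card_ne_zero _ h2
    · exact H11.irr_apply_one_ne_zero ξ.2 (by simpa using h2)
  · intro c _ hc1
    by_cases hc : p ∣ orderOf c
    · simp only [H16.pRegularPart_of_dvd _ hc, zero_mul, mul_zero, Finset.sum_const_zero]
    · simp only [H16.pRegularPart_of_not_dvd _ hc]
      have h3 := H11.column_orthogonality_of_not_isConj
        (fun h => hc1 (eq_one_of_conj hu hc h))
      have h4 : ∑ χ : IrrCharacter G, conj (χ.1 u) * (χ.1 (u * (c : G)) * conj (ξ.1 c)) =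
          (∑ χ : IrrCharacter G, χ.1 (u * (c : G)) * conj (χ.1 u)) * conj (ξ.1 c) := by
        rw [Finset.sum_mul]
        exact Finset.sum_congr rfl fun χ _ => by ring
      rw [h4, h3, zero_mul]
  · intro h; exact (h (Finset.mem_univ _)).elim

theorem loc_nonempty (hM : IsPModular p M) {u : G} (hu : ∃ k : ℕ, orderOf u = p ^ k)
    {B : Set (IrrCharacter G)} (hB : LamClosed M B) {χ : IrrCharacter G} (hχ : χ ∈ B)
    {c : Cg u} (hc : ¬ p ∣ orderOf c) (h : χ.1 (u * (c : G)) ≠ 0) :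
    (locSet M (Cg u) B).Nonempty := by
  rw [Set.nonempty_iff_ne_empty]
  intro he
  apply h
  rw [apply_sub hM hu hB hχ hc, he, blockPart_empty]
  rfl

end loc

section prod
variable {G₁ G₂ : Type u} [Group G₁] [Finite G₁] [Group G₂] [Finite G₂] {M : Ideal AlgInt}

theorem centralChar_prod (x : IrrCharacter G₁ × IrrCharacter G₂) (y : G₁ × G₂) :
    centralChar (H11.irrProdEquiv x).1 y = centralChar x.1.1 y.1 * centralChar x.2.1 y.2 := by
  have h : Subgroup.centralizer ({y} : Set (G₁ × G₂)) =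
      (Subgroup.centralizer ({y.1} : Set G₁)).prod (Subgroup.centralizer ({y.2} : Set G₂)) := by
    ext z
    simp only [Subgroup.mem_centralizer_singleton_iff, Subgroup.mem_prod, Prod.ext_iff,
      Prod.fst_mul, Prod.snd_mul]
  unfold centralChar
  rw [h, Subgroup.index_prod, H11.irrProdEquiv_apply, H11.irrProdEquiv_apply]
  push_cast
  simp only [Prod.fst_one, Prod.snd_one]
  ring

theorem lam_prod {x x' : IrrCharacter G₁ × IrrCharacter G₂} (h1 : lam M x.1 = lam M x'.1)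
    (h2 : lam M x.2 = lam M x'.2) : lam M (H11.irrProdEquiv x) = lam M (H11.irrProdEquiv x') := by
  rw [lam_eq_iff] at h1 h2 ⊢
  intro y
  rw [centralChar_prod, centralChar_prod,
    red_mul (H17.centralChar_mem_Vr _ _) (H17.centralChar_mem_Vr _ _),
    red_mul (H17.centralChar_mem_Vr _ _) (H17.centralChar_mem_Vr _ _), h1, h2]

theorem blockCoeff_prod (b₁ : Set (IrrCharacter G₁)) (b₂ : Set (IrrCharacter G₂)) (y : G₁ × G₂) :
    blockCoeff (H11.irrProdEquiv '' (b₁ ×ˢ b₂)) y = blockCoeff b₁ y.1 * blockCoeff b₂ y.2 := by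
  classical
  have := irr_finite G₁
  have := irr_finite G₂
  unfold blockCoeff
  rw [finsum_mem_image H11.irrProdEquiv.injective.injOn,
    finsum_mem_eq_finite_toFinset_sum _ (Set.toFinite (b₁ ×ˢ b₂)),
    finsum_mem_eq_finite_toFinset_sum _ (Set.toFinite b₁),
    finsum_mem_eq_finite_toFinset_sum _ (Set.toFinite b₂)]
  have h : (Set.toFinite (b₁ ×ˢ b₂)).toFinset =
      (Set.toFinite b₁).toFinset ×ˢ (Set.toFinite b₂).toFinset := by
    ext x; simp
  rw [h, Finset.sum_product, Nat.card_prod]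
  have h2 : (∑ a ∈ (Set.toFinite b₁).toFinset, ∑ b ∈ (Set.toFinite b₂).toFinset,
      (H11.irrProdEquiv (a, b)).1 1 * conj ((H11.irrProdEquiv (a, b)).1 y)) =
      (∑ a ∈ (Set.toFinite b₁).toFinset, a.1 1 * conj (a.1 y.1)) *
        ∑ b ∈ (Set.toFinite b₂).toFinset, b.1 1 * conj (b.1 y.2) := by
    rw [Finset.sum_mul_sum]
    refine Finset.sum_congr rfl fun a _ => Finset.sum_congr rfl fun b _ => ?_
    rw [H11.irrProdEquiv_apply, H11.irrProdEquiv_apply]
    simp only [Prod.fst_one, Prod.snd_one, map_mul]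
    ring
  rw [h2]
  push_cast
  ring

end prod

theorem lam_irrMap {H K : Type u} [Group H] [Finite H] [Group K] [Finite K] {M : Ideal AlgInt}
    (e : H ≃* K) {χ ψ : IrrCharacter H} (h : lam M χ = lam M ψ) :
    lam M (H22.irrMap e χ) = lam M (H22.irrMap e ψ) := by
  rw [lam_eq_iff] at h ⊢
  intro y
  obtain ⟨x, rfl⟩ := e.surjective y
  rw [H22.centralChar_irrMap, H22.centralChar_irrMap, h]

theorem r2g : R2GStmt.{u} := by
  intro G _ _ p _ M hM G₁ G₂ _ _ _ _ j hj u₁ hu₁ hr S b₁ b₂ hS hne hb₁ hb₂ h1 h2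
  classical
  set u : G := j (u₁, 1) with hu0
  have hu : ∃ k : ℕ, orderOf u = p ^ k := by
    obtain ⟨k, hk⟩ := hu₁
    refine ⟨k, ?_⟩
    rw [hu0, orderOf_injective j hj, Prod.orderOf_mk, orderOf_one, Nat.lcm_one_right, hk]
  have := Fintype.ofFinite (Cg u)
  let e : G₁ × G₂ ≃* Cg u := (MonoidHom.ofInjective hj).trans (MulEquiv.subgroupCongr hr)
  have he : ∀ y, ((e y : Cg u) : G) = j y := fun y => rfl
  have hue : ∀ y : G₁ × G₂, u * ((e y : Cg u) : G) = j (u₁ * y.1, y.2) := fun y => by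
    rw [he, hu0, ← map_mul]; congr 1; ext <;> simp
  have hT := truncMul_Cg hM hu
  have hd : ∀ (χ : IrrCharacter G) (x : IrrCharacter G₁ × IrrCharacter G₂),
      classInner (pRegularPart p fun c : Cg u => χ.1 (u * (c : G)))
        (H22.irrMap e (H11.irrProdEquiv x)).1 ≠ 0 → (χ ∈ S ↔ x ∈ b₁ ×ˢ b₂) := by
    intro χ x hx
    refine h1 χ x.1 x.2 ?_
    rw [← H11.classInner_comp_mulEquiv e] at hx
    convert hx using 2
    · funext y
      rw [← H22.pRegularPart_comp e]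
      simp only [hue]
    · funext y
      rw [H22.irrMap_apply_apply, H11.irrProdEquiv_apply]
  have hloc : locSet M (Cg u) S = H22.irrMap e '' (H11.irrProdEquiv '' (b₁ ×ˢ b₂)) := by
    ext ξ
    obtain ⟨ξ', rfl⟩ := (H22.irrMap e).surjective ξ
    obtain ⟨x, rfl⟩ := H11.irrProdEquiv.surjective ξ'
    rw [H22.irrMap_mem_image, H11.irrProdEquiv.injective.mem_set_image]
    obtain ⟨χ, hχ⟩ := exists_ne hu (H22.irrMap e (H11.irrProdEquiv x))
    rw [← hd χ x hχ]
    by_cases hs : χ ∈ S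
    · exact iff_of_true (mem_loc hM hu hS hs hχ) hs
    · have h3 := mem_loc hM hu hS.compl hs hχ
      rw [hT.locSet_compl hM.2.1 hS] at h3
      exact iff_of_false h3 hs
  have hlam : ∀ ξ ∈ locSet M (Cg u) S, ∀ ξ' ∈ locSet M (Cg u) S, lam M ξ = lam M ξ' := by
    rw [hloc]
    rintro _ ⟨_, ⟨x, hx, rfl⟩, rfl⟩ _ ⟨_, ⟨x', hx', rfl⟩, rfl⟩
    exact lam_irrMap e (lam_prod (block_lam_eq hM.2.1 hb₁ hx.1 hx'.1)
      (block_lam_eq hM.2.1 hb₂ hx.2 hx'.2))
  have hex : ∀ χ ∈ S, ∃ ξ ∈ locSet M (Cg u) S, ∀ z, lam M ξ (truncZ (Cg u) z) = lam M χ z := by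
    intro χ hχ
    have hB := H17.isPBlock_blockOf (M := M) χ
    have hBc := lamClosed_of_isPBlock hM.2.1 hB
    have hsub : blockOf M χ.1 ⊆ S := fun ψ hψ => hS χ hχ ψ ((mem_blockOf_iff hM.2.1 χ ψ).1 hψ)
    obtain ⟨χ', hχ', s, y, hs, hy, h0⟩ := h2 _ hB hsub
    have hc : ¬ p ∣ orderOf (e (s, y)) := by
      rw [MulEquiv.orderOf_eq, Prod.orderOf_mk]
      intro h
      rcases (Nat.Prime.dvd_lcm (Fact.out : p.Prime)).1 h with h | h
      · exact hs h
      · exact hy h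
    obtain ⟨ξ, hξ⟩ := loc_nonempty hM hu hBc hχ' hc (by rw [hue]; exact h0)
    obtain ⟨χ'', h3⟩ := hT.exists_lam_eq hM.2.1 ξ
    have h4 := (mem_locSet_iff_of_lam_eq h3 hBc).1 hξ
    refine ⟨ξ, (mem_locSet_iff_of_lam_eq h3 hS).2 (hsub h4), fun z => ?_⟩
    rw [h3, (mem_blockOf_iff hM.2.1 χ χ'').1 h4]
  refine ⟨?_, fun s y => ?_⟩
  · obtain ⟨χ₀, h0⟩ := hne
    refine ⟨χ₀, Set.ext fun χ => ?_⟩
    rw [mem_blockOf_iff hM.2.1]
    refine ⟨fun hχ => ?_, hS χ₀ h0 χ⟩
    obtain ⟨ξ, hξ, h3⟩ := hex χ hχ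
    obtain ⟨ξ₀, hξ₀, h4⟩ := hex χ₀ h0
    exact AlgHom.ext fun z => by rw [← h3, ← h4, hlam ξ hξ ξ₀ hξ₀]
  · rw [← he, ← coeff_truncZ, truncZ_eB_Cg hM hu hS, hloc, coeff_eB, coeff_eB, coeff_eB,
      H22.blockCoeff_image, blockCoeff_prod,
      red_mul (blockCoeff_mem_Vr hM.2.1 hb₁ _) (blockCoeff_mem_Vr hM.2.1 hb₂ _)]

end Cfsg.Agent.H86.GbR2G
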