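import Cfsg.Agent.H50.L81Defs

/-! Project L81, piece HW. -/

set_option autoImplicit false

namespace Cfsg.Agent.H86.L81Hw

open Equiv Cfsg.Lie H37 H40 H34 H29 Module H82 H50.SL2S Finset H50.E83 H50.L81
open scoped Matrix MatrixGroups

theorem aop_zero (p : Par) {W : Type} [AddCommGroup W] [Module K W] (ρ : SL →* Module.End K W)
    (c : ℕ) (h1 : 1 ≤ c) (v : W) (hv : v ∈ Fx ρ (UU F)) : Aop ρ p c v = 0 := by
  have hs : ∑ t : F, p.κ t ^ (80 - c) = 0 := by
    have := FiniteField.sum_pow_lt_card_sub_one F (80 - c) (by rw [card_F]; omega)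
    simp_rw [← map_pow]
    rw [← map_sum, this, map_zero]
  have hu : ∀ t : F, ρ (uu t) v = v := fun t => hv _ ⟨t, rfl⟩
  rw [Aop, if_neg (by omega), LinearMap.neg_apply, LinearMap.sum_apply]
  simp_rw [LinearMap.smul_apply, hu]
  rw [← Finset.sum_smul, hs, zero_smul, neg_zero]

theorem fix_span (hM : MonoStmt) (hA : MonaStmt) (p : Par) (r : ℕ) (hr : r < 81) (f : SL → K)
    (hf : f ∈ SP p r) (hu : f ∈ Fx reg (UU F)) : ∃ a : K, f = a • mono p r 0 := by
  obtain ⟨⟨cf, hcf⟩, h2⟩ := hM p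
  obtain ⟨c, hc⟩ := ((h2 r hr).1 f).1 hf
  have hJ : ∀ j ∈ JJ 3 r, j ≤ r := fun j hj => by
    have := (Finset.mem_filter.1 hj).1
    rw [Finset.mem_range] at this
    omega
  have key : ∀ j ∈ JJ 3 r, j ≠ 0 → c j = 0 := by
    intro j hj hj0
    have h0 := aop_zero p reg j (by omega) f hu
    have h1 := congrArg (cf 0) h0
    rw [hc, map_sum, map_sum, map_zero, Finset.sum_eq_single j] at h1
    · rw [map_smul, (hA p r hr j (hJ j hj)).2.2.2.1 j (by have := hJ j hj; omega), map_smul,
        map_smul, hcf r hr _ (by omega)] at h1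
      simpa using h1
    · intro i hi hij
      rw [map_smul, (hA p r hr i (hJ i hi)).2.2.2.1 j (by have := hJ j hj; omega), map_smul,
        map_smul, hcf r hr _ (by have := hJ i hi; omega)]
      rcases lt_or_gt_of_ne hij with h | h
      · rw [Nat.choose_eq_zero_of_lt h]; simp
      · rw [if_neg (by omega)]; simp
    · intro h; exact absurd hj h
  by_cases h0 : 0 ∈ JJ 3 r
  · refine ⟨c 0, ?_⟩
    rw [hc, Finset.sum_eq_single 0]
    · intro i hi hi0; rw [key i hi hi0, zero_smul]
    · intro h; exact absurd h0 h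
  · refine ⟨0, ?_⟩
    rw [hc, zero_smul]
    exact Finset.sum_eq_zero fun i hi => by
      rw [key i hi (fun e => h0 (e ▸ hi)), zero_smul]

theorem top_le (hP : ParStmt) (hM : MonoStmt) (hA : MonaStmt) (p : Par) (r : ℕ) (hr : r < 81)
    (he : Even r) (e : ℕ) (e0 : 0 < e) (e1 : e < 40) (T : Submodule K (SL → K))
    (hT : T ≤ SP p r ⊓ Fx reg (UU F) ⊓ Wt reg p e) :
    finrank K T ≤ if r = 2 * e then 1 else 0 := by
  split_ifs with h
  · have : T ≤ K ∙ mono p r 0 := by
      intro f hf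
      obtain ⟨a, ha⟩ := fix_span hM hA p r hr f (hT hf).1.1 (hT hf).1.2
      rw [ha]
      exact Submodule.smul_mem _ _ (Submodule.mem_span_singleton_self _)
    refine (Submodule.finrank_mono this).trans ?_
    simpa using finrank_span_le_card (R := K) ({mono p r 0} : Set (SL → K))
  · have : T = ⊥ := by
      rw [eq_bot_iff]
      intro f hf
      obtain ⟨a, ha⟩ := fix_span hM hA p r hr f (hT hf).1.1 (hT hf).1.2
      have h1 : f ∈ Wt reg p ((r / 2 + 39 * 0) % 40) := by
        rw [ha]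
        exact Submodule.smul_mem _ _ ((hA p r hr 0 (Nat.zero_le _)).2.2.2.2 he)
      have h2 : f ∈ Wt reg p e := (hT hf).2
      rw [Wt, Module.End.mem_eigenspace_iff] at h1 h2
      rw [h1] at h2
      by_contra hf0
      have h3 := smul_left_injective K hf0 h2
      have hz : IsPrimitiveRoot ((zy p : Kˣ) : K) 40 :=
        IsPrimitiveRoot.coe_units_iff.2 (hP.2.2.2 p).2.2.2.2.2.2.1
      have h4 := hz.pow_inj (Nat.mod_lt _ (by norm_num)) e1 h3
      obtain ⟨k, hk⟩ := he
      omega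
    rw [this, finrank_bot]

theorem hw (hP : ParStmt) (hM : MonoStmt) (hA : MonaStmt) : HwStmt := by
  intro p W _ _ _ ρ _ U L hS e e0 e1
  induction hS with
  | nil => simp
  | @cons U U' L r hS hst ih =>
    obtain ⟨hr, he, hle, -, Φ, hΦ, hmap, hker⟩ := hst
    set S' : Submodule K W := U' ⊓ Fx ρ (UU F) ⊓ Wt ρ p e with hS'
    have h1 := LinearMap.finrank_range_add_finrank_ker (Φ.domRestrict S')
    have h2 : finrank K (LinearMap.range (Φ.domRestrict S')) ≤ if r = 2 * e then 1 else 0 := by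
      refine top_le hP hM hA p r hr he e e0 e1 _ ?_
      rintro _ ⟨⟨v, hv⟩, rfl⟩
      change Φ v ∈ _
      refine ⟨⟨?_, ?_⟩, ?_⟩
      · rw [← hmap]; exact Submodule.mem_map_of_mem hv.1.1
      · intro g hg
        rw [← hΦ g v hv.1.1, hv.1.2 g hg]
      · have := hv.2
        change v ∈ Wt ρ p e at this
        change Φ v ∈ Wt reg p e
        rw [Wt, Module.End.mem_eigenspace_iff] at this ⊢
        rw [← hΦ _ v hv.1.1, this, map_smul]
    have h3 : finrank K (LinearMap.ker (Φ.domRestrict S')) ≤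
        finrank K (U ⊓ Fx ρ (UU F) ⊓ Wt ρ p e : Submodule K W) := by
      rw [← Submodule.finrank_map_subtype_eq]
      refine Submodule.finrank_mono ?_
      rintro _ ⟨⟨v, hv⟩, h0, rfl⟩
      exact ⟨⟨(hker v hv.1.1).1 h0, hv.1.2⟩, hv.2⟩
    rw [List.count_cons]
    by_cases h : r = 2 * e
    · rw [if_pos h] at h2
      rw [if_pos (by simpa using h)]
      omega
    · rw [if_neg h] at h2
      omega

end Cfsg.Agent.H86.L81Hw
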