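import Mathlib
import Cfsg.Agent.H45.FiGrp2
import Cfsg.Agent.S1337
import Cfsg.Agent.S1452
import Cfsg.Agent.S1450
import Cfsg.Agent.H2.Hall
import Cfsg.Agent.H3.Cores

/-! Elements of order three with a four-group as commutator on a `2`-group. -/

set_option autoImplicit false

namespace Cfsg.Agent.H86.NG4

open Cfsg Subgroup

variable {G M : Type*} [Group G] [CommGroup M] [MulDistribMulAction G M]

variable (M) in
/-- the commutator `[M, g]` -/
def V (g : G) : Subgroup M := (MulDistribMulAction.toMonoidHom M g / MonoidHom.id M).range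

theorem mem_V {g : G} {v : M} : v ∈ V M g ↔ ∃ m, g • m / m = v := Iff.rfl

variable (G) in
/-- the stabilizer of a subgroup -/
def St (W : Subgroup M) : Subgroup G where
  carrier := {g | ∀ w, g • w ∈ W ↔ w ∈ W}
  mul_mem' ha hb w := by rw [mul_smul, ha, hb]
  one_mem' w := by rw [one_smul]
  inv_mem' ha w := by rw [← ha, smul_inv_smul]

theorem St_of_V {W : Subgroup M} {g : G} (h : V M g ≤ W) : g ∈ St G W := fun w => by
  rw [← div_mul_cancel (g • w) w, mul_mem_cancel_left (h (mem_V.2 ⟨w, rfl⟩))]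

theorem le_St {W : Subgroup M} {P : Subgroup G} (h : ∀ g ∈ P, ∀ w ∈ W, g • w ∈ W) : P ≤ St G W :=
  fun g hg w => ⟨fun h' => inv_smul_smul g w ▸ h _ (inv_mem hg) _ h', h g hg w⟩

instance (W : Subgroup M) : MulDistribMulAction (St G W) W where
  smul g w := ⟨g.1 • w.1, (g.2 w).2 w.2⟩
  one_smul _ := Subtype.ext (one_smul _ _)
  mul_smul _ _ _ := Subtype.ext (mul_smul _ _ _)
  smul_mul _ _ _ := Subtype.ext (smul_mul' _ _ _)
  smul_one _ := Subtype.ext (smul_one _)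

/-- restriction -/
def res (W : Subgroup M) : St G W →* MulAut W := MulDistribMulAction.toMulAut _ _

theorem res_eq {W : Subgroup M} {a b : St G W} :
    res W a = res W b ↔ ∀ w ∈ W, a.1 • w = b.1 • w :=
  ⟨fun h w hw => congrArg Subtype.val (DFunLike.congr_fun h ⟨w, hw⟩ :),
    fun h => MulEquiv.ext fun w => Subtype.ext (h w w.2)⟩

theorem smul_V {x : G} (g : G) {v : M} (h : v ∈ V M x) : g • v ∈ V M (g * x * g⁻¹) := by
  obtain ⟨m, rfl⟩ := h
  exact ⟨g • m, by simp [mul_smul, smul_div']⟩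

theorem V_conj (x g : G) : V M (g * x * g⁻¹) = (V M x).map (MulDistribMulAction.toMonoidHom M g) :=
  le_antisymm (fun v hv => ⟨g⁻¹ • v, by simpa [mul_assoc] using smul_V g⁻¹ hv, smul_inv_smul g v⟩)
    (map_le_iff_le_comap.2 fun _ h => smul_V g h)

theorem card_conj (x g : G) : Nat.card (V M (g * x * g⁻¹)) = Nat.card (V M x) := by
  rw [V_conj, card_map_of_injective (MulAction.injective g)]

theorem V_mul_inv (x y : G) : V M (y * x⁻¹) ≤ V M x ⊔ V M y := by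
  rintro _ ⟨m, rfl⟩
  have := div_mem (mem_sup_right (S := V M x) (mem_V.2 ⟨x⁻¹ • m, rfl⟩ : _ ∈ V M y))
    (mem_sup_left (mem_V.2 ⟨x⁻¹ • m, rfl⟩))
  rwa [div_div_div_cancel_right, smul_inv_smul, ← mul_smul] at this

theorem cnt [Finite M] {p : ℕ} [Fact p.Prime] {P : Subgroup G} (hP : IsPGroup p P)
    (W : Subgroup M) : ∃ C : Subgroup M, (∀ w, w ∈ C ↔ w ∈ W ∧ ∀ g ∈ P ⊓ St G W, g • w = w) ∧
      Nat.card W ≡ Nat.card C [MOD p] := by
  refine ⟨W ⊓ (FixedPoints.subgroup (P ⊓ St G W : Subgroup G) M), fun w =>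
    and_congr_right fun _ => ⟨fun h g hg => h ⟨g, hg⟩, fun h g => h g g.2⟩, ?_⟩
  convert (hP.comap_subtype (K := St G W)).card_modEq_card_fixedPoints W using 1
  exact Nat.card_congr ⟨fun w => ⟨⟨w, w.2.1⟩, fun g => Subtype.ext (w.2.2 ⟨g.1, g.2, g.1.2⟩)⟩,
    fun w => ⟨w.1, w.1.2, fun g => congrArg Subtype.val (w.2 ⟨⟨g, g.2.2⟩, g.2.1⟩)⟩,
    fun _ => rfl, fun _ => rfl⟩

theorem five (i : ℕ) : ¬ 5 ∣ 1 + i + i * i := fun h => by
  rw [← ZMod.natCast_eq_zero_iff] at h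
  push_cast at h
  exact (by decide : ∀ i : ZMod 5, 1 + i + i * i ≠ 0) _ h

variable [Finite G] [Finite M] (h2 : ∀ m : M, m ^ 2 = 1)
include h2

theorem fix0 {K : Subgroup G} (hK : Odd (Nat.card K)) {a b : G} (ha : a ∈ K) (hb : b ∈ K) {w : M}
    (hw : w ∈ V M a ⊔ V M b) (h : a • w = w) (h' : b • w = w) : w = 1 := by
  let L := K ⊓ MulAction.stabilizer G w
  have := Fintype.ofFinite L
  let τ : M →* M := ∏ k : L, MulDistribMulAction.toMonoidHom M k.1
  have hτ : ∀ m, τ m = ∏ k : L, k.1 • m := fun m => MonoidHom.finsetProd_apply _ _ _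
  have h1 : ∀ c : L, V M c.1 ≤ τ.ker := by
    rintro c _ ⟨m, rfl⟩
    change τ (c.1 • m / m) = 1
    rw [map_div, div_eq_one, hτ, hτ]
    exact Fintype.prod_equiv (Equiv.mulRight c) _ _ fun k => (mul_smul _ _ _).symm
  have h3 : τ w = 1 := sup_le (h1 ⟨a, ha, h⟩) (h1 ⟨b, hb, h'⟩) hw
  obtain ⟨k, hk⟩ := hK.of_dvd_nat (card_dvd_of_le (inf_le_left : L ≤ K))
  rwa [hτ, Finset.prod_congr rfl fun k _ => k.2.2, Finset.prod_const, Finset.card_univ,
    ← Nat.card_eq_fintype_card, hk, pow_succ, pow_mul, h2, one_pow, one_mul] at h3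

theorem cnt1 {p : ℕ} [Fact p.Prime] {P : Subgroup G} (hP : IsPGroup p P) (hp : p ≠ 2) {a b : G}
    (ha : a ∈ P) (hb : b ∈ P) : Nat.card (V M a ⊔ V M b : Subgroup M) ≡ 1 [MOD p] := by
  obtain ⟨C, h1, h3⟩ := cnt hP (V M a ⊔ V M b)
  rwa [(eq_bot_iff_forall C).2 fun w hw => fix0 h2 (H71.odd_card_of_ne_two hp hP) ha hb
    ((h1 w).1 hw).1 (((h1 w).1 hw).2 a ⟨ha, St_of_V le_sup_left⟩)
    (((h1 w).1 hw).2 b ⟨hb, St_of_V le_sup_right⟩), card_bot] at h3

theorem exists_V {x : G} (hx : Odd (orderOf x)) {v : M} (hv : v ∈ V M x) :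
    ∃ u ∈ V M x, x • u / u = v := by
  let f : V M x →* V M x := (((MulDistribMulAction.toMonoidHom M x / MonoidHom.id M).comp
    (V M x).subtype).codRestrict _ fun u => ⟨u, rfl⟩)
  obtain ⟨u, e⟩ := Finite.injective_iff_surjective.1 ((injective_iff_map_eq_one f).2 fun u hu =>
    have h := div_eq_one.1 (congrArg Subtype.val hu)
    Subtype.ext (fix0 h2 (Nat.card_zpowers x ▸ hx) (mem_zpowers x) (mem_zpowers x)
      (mem_sup_left u.2) h h)) ⟨v, hv⟩
  exact ⟨u, u.2, congrArg Subtype.val e⟩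

theorem V_le {x y : G} (hx : Odd (orderOf x)) (h : ∀ v ∈ V M x, y • v = x • v) :
    V M x ≤ V M y := fun v hv => by
  obtain ⟨u, hu, rfl⟩ := exists_V h2 hx hv
  exact ⟨u, by rw [← h u hu]; rfl⟩

theorem card_aut {W : Subgroup M} (h : Nat.card W = 16) : Nat.card (MulAut W) = 20160 :=
  (H45.card_mulAut_elem (p := 2) (n := 4) Nat.prime_two mul_comm (fun a => Subtype.ext (h2 a))
    h).trans (by decide)

omit h2 [Finite G] in
theorem card_sup {A B : Subgroup M} (hA : Nat.card A = 4) (hB : Nat.card B = 4) (h : A ≠ B) :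
    Nat.card (A ⊔ B : Subgroup M) = 8 ∨ (Nat.card (A ⊔ B : Subgroup M) = 16 ∧ A ⊓ B = ⊥) := by
  have h1 := H3.card_sup_mul_card_inf A B
  obtain ⟨k, hk, e⟩ := (Nat.dvd_prime_pow Nat.prime_two (m := 2)).1
    (hA ▸ card_dvd_of_le (inf_le_left : A ⊓ B ≤ A) :)
  rw [hA, hB, e] at h1
  interval_cases k
  · exact .inr ⟨by omega, card_eq_one.1 e⟩
  · omega
  · exact absurd ((eq_of_le_of_card_ge inf_le_left (by omega)).symm.trans
      (eq_of_le_of_card_ge inf_le_right (by omega))) h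

theorem three {T : Subgroup G} (hT : IsPGroup 3 T) {x y : G} (hx : x ∈ T) (hy : y ∈ T)
    (cx : Nat.card (V M x) = 4) (cy : Nat.card (V M y) = 4) (h : V M x ≠ V M y) :
    ∀ v ∈ V M x, y • v = v := by
  have := Fact.mk Nat.prime_three
  obtain ⟨h3, h4⟩ := (card_sup cx cy h).resolve_left fun e => by
    have := cnt1 h2 hT (by decide) hx hy
    rw [e] at this; exact absurd this (by decide)
  have p3 := (hT.comap_subtype (K := St G (V M x ⊔ V M y))).map (res _)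
  obtain ⟨k, hk⟩ := IsPGroup.iff_card.1 p3
  have h5 := H71.isMulCommutative_of_card_le_sq' p3 (by
    rw [hk]
    refine Nat.pow_le_pow_right (by decide) (not_lt.1 fun hl => ?_)
    have := (pow_dvd_pow 3 hl).trans (hk ▸ card_subgroup_dvd_card _)
    rw [card_aut h2 h3] at this
    exact absurd this (by decide))
  have h6 := res_eq.1 ((map_mul _ _ _).trans ((congrArg Subtype.val (h5.is_comm.comm
    ⟨_, ⟨x, St_of_V le_sup_left⟩, hx, rfl⟩ ⟨_, ⟨y, St_of_V le_sup_right⟩, hy, rfl⟩)).trans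
      (map_mul _ _ _).symm))
  intro v hv
  obtain ⟨u, hu, rfl⟩ := exists_V h2 ((H71.odd_card_of_ne_two (by decide) hT).of_dvd_nat
    (orderOf_dvd_natCard T hx)) hv
  refine div_eq_one.1 (mem_bot.1 (h4.le ⟨(V M x).div_mem ⟨y • u, ?_⟩ hv, ⟨_, rfl⟩⟩))
  change x • y • u / y • u = _
  rw [smul_div', ← mul_smul, ← mul_smul]
  exact congrArg (· / y • u) (h6 u (mem_sup_left hu))

omit h2 in
theorem fin {r : ℕ} (hr : r.Prime) {F : Subgroup G} (hF : IsElementaryAbelian r F)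
    (hF3 : Nat.card F = r ^ 3) {U : Subgroup M} (hU : F ≤ St G U)
    (hn : ¬ r ^ 2 ∣ (Nat.card U).factorial) {C : Subgroup G}
    (hC : ∀ g, (∀ u ∈ U, g • u = u) → g ∈ C) : ¬ IsCyclic ↥(F ⊓ C) := fun h => by
  let φ : F →* Equiv.Perm U := (MulAction.toPermHom (St G U) U).comp (inclusion hU)
  have h1 : Nat.card ↥(F ⊓ C) ∣ r := by
    rw [← IsCyclic.exponent_eq_card]
    exact Monoid.exponent_dvd_of_forall_pow_eq_one fun a => Subtype.ext (hF.2 a a.2.1)
  have h0 : φ.ker.map F.subtype ≤ F ⊓ C := map_le_iff_le_comap.2 fun g hg => ⟨g.2, hC g fun u hu =>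
    (congrArg Subtype.val (DFunLike.congr_fun (show φ g = 1 from hg) ⟨u, hu⟩) :)⟩
  have h3 : Nat.card φ.ker ∣ r := by
    rw [← card_map_of_injective F.subtype_injective]
    exact (card_dvd_of_le h0).trans h1
  refine hn (Nat.card_perm (α := U) ▸ Dvd.dvd.trans ?_ (card_subgroup_dvd_card φ.range))
  rw [← index_ker, ← Nat.mul_dvd_mul_iff_left hr.pos, ← pow_succ', ← hF3, ← φ.ker.card_mul_index]
  exact Nat.mul_dvd_mul_right h3 _

theorem case3 {T : Subgroup G} (hT : IsPGroup 3 T) (hr : ¬ PRankLE 3 2 T) {x : G} (hx : x ∈ T)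
    (cx : Nat.card (V M x) = 4) : ∃ F : Subgroup G, IsElementaryAbelian 3 F ∧
      Nat.card F = 3 ^ 3 ∧ F ≤ St G (V M x) := by
  have := Fact.mk Nat.prime_three
  obtain ⟨U, hU, u1, u2⟩ := S1337.exists_normal 3 hT hr
  obtain ⟨A, -, hA, a1, a2⟩ := S1452.result 3 (by decide) hT hr U u1 u2
  obtain ⟨B, b1, b2⟩ := H55.not_pRankLE_top_iff.1 a2
  obtain ⟨F, hFB, hF⟩ := Sylow.exists_subgroup_le_card_pow_prime_of_le_card (n := 3)
    Nat.prime_three (hT.to_subgroup A) b2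
  let f := T.subtype.comp A.subtype
  have inj : Function.Injective f := T.subtype_injective.comp A.subtype_injective
  have cA : ∀ a ∈ A, ∀ b ∈ A, a * b = b * a := fun a ha b hb => (a1.ge hb) a ha
  refine ⟨F.map f, ⟨⟨⟨fun a b => Subtype.ext ?_⟩⟩, ?_⟩, (card_map_of_injective inj).trans hF,
    le_St ?_⟩
  · obtain ⟨_, a, -, rfl⟩ := a
    obtain ⟨_, b, -, rfl⟩ := b
    exact (congrArg Subtype.val (cA _ a.2 _ b.2) :)
  · rintro _ ⟨a, ha, rfl⟩
    rw [← map_pow, b1.2 a (hFB ha), map_one]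
  rintro _ ⟨⟨⟨a, aT⟩, aA⟩, ha, rfl⟩ v hv
  have a3 : a ^ 3 = 1 := (congrArg (fun z : A => z.1.1) (b1.2 _ (hFB ha)) :)
  have cy := (card_conj (M := M) x a).trans cx
  by_cases e : V M x = V M (a * x * a⁻¹)
  · exact e ▸ smul_V a hv
  have yT : a * x * a⁻¹ ∈ T := mul_mem (mul_mem aT hx) (inv_mem aT)
  have h3 := three h2 hT hx yT cx cy e
  have h4 := three h2 hT hx (mul_mem (mul_mem aT yT) (inv_mem aT)) cx
    ((card_conj _ a).trans cy) fun e' => e (by
      rw [V_conj x a]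
      nth_rewrite 2 [e']
      rw [← V_conj]
      congr 1
      calc x = a ^ 3 * x * (a ^ 3)⁻¹ := by simp [a3]
        _ = _ := by rw [pow_three']; group)
  have h5 : a * (x * a⁻¹ * x⁻¹) = x * a⁻¹ * x⁻¹ * a := congrArg Subtype.val
    (cA ⟨a, aT⟩ aA _ (hA.conj_mem _ (inv_mem aA) ⟨x, hx⟩))
  have h6 : a * x * a⁻¹ * (a * (a * x * a⁻¹) * a⁻¹)⁻¹ * (a * x * a⁻¹) = x := by
    calc _ = a * (x * a⁻¹ * x⁻¹)⁻¹ * a⁻¹ * x * a⁻¹ := by group
      _ = _ := by rw [(Commute.inv_right h5).eq]; group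
  refine absurd (V_le h2 ((H71.odd_card_of_ne_two (by decide) hT).of_dvd_nat
    (orderOf_dvd_natCard T hx)) (y := a * x * a⁻¹) fun v hv => ?_) fun h =>
      e (eq_of_le_of_card_ge h (by omega))
  nth_rewrite 2 [← h6]
  rw [mul_smul _ (a * x * a⁻¹), mul_smul (a * x * a⁻¹), h3 v hv, inv_smul_eq_iff.2 (h4 v hv).symm,
    h3 v hv]

theorem step {p : ℕ} [hp : Fact p.Prime] (h5 : 5 ≤ p) {P H : Subgroup G} (hP : IsPGroup p P)
    (hH : Odd (Nat.card H)) (hn : ∀ h ∈ H, ∀ g ∈ P, h * g * h⁻¹ ∈ P) {x y : G} (hx : x ∈ H)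
    (hy : y ∈ H) (hs : y * x⁻¹ ∈ P) (x3 : ∀ m : M, x ^ 3 • m = m) (y3 : ∀ m : M, y ^ 3 • m = m)
    (cx : Nat.card (V M x) = 4) (cy : Nat.card (V M y) = 4) (h : V M x ≠ V M y) :
    V M (y * x⁻¹) = V M x ⊔ V M y ∧ Nat.card (V M x ⊔ V M y : Subgroup M) = 8 := by
  have nd : ∀ n, p ∣ n → 0 < n → 5 ≤ n := fun n h h' => h5.trans (Nat.le_of_dvd h' h)
  have s1 : ¬ ∀ v ∈ V M x, (y * x⁻¹) • v = v := fun h1 => h (eq_of_le_of_card_ge
    (V_le h2 (hH.of_dvd_nat (orderOf_dvd_natCard H hx)) fun v hv => by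
      rw [← h1 _ ((St_of_V le_rfl v).2 hv), ← mul_smul, inv_mul_cancel_right]) (by omega))
  have xW : x ∈ St G (V M x ⊔ V M y) := St_of_V le_sup_left
  have yW : y ∈ St G (V M x ⊔ V M y) := St_of_V le_sup_right
  have sW := mul_mem yW (inv_mem xW)
  rcases card_sup cx cy h with h3 | ⟨h3, -⟩
  · refine ⟨eq_of_le_of_card_ge (V_mul_inv x y) ?_, h3⟩
    have h4 := cnt1 h2 hP (by omega) hs hs
    obtain ⟨k, hk, e⟩ := (Nat.dvd_prime_pow Nat.prime_two (m := 3)).1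
      (h3 ▸ card_dvd_of_le (V_mul_inv (M := M) x y) :)
    rw [sup_idem, e] at h4
    have h6 := nd _ ((Nat.modEq_iff_dvd' (Nat.one_le_two_pow)).1 h4.symm)
    interval_cases k
    · exact absurd (fun v _ => div_eq_one.1 (mem_bot.1 ((card_eq_one.1 e).le ⟨v, rfl⟩))) s1
    all_goals omega
  exfalso
  obtain ⟨C, c1, c2⟩ := cnt hP (V M x ⊔ V M y)
  have CW : C ≤ V M x ⊔ V M y := fun w hw => ((c1 w).1 hw).1
  obtain ⟨k, hk, e⟩ := (Nat.dvd_prime_pow Nat.prime_two (m := 4)).1 (h3 ▸ card_dvd_of_le CW :)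
  rw [h3, e] at c2
  have h6 := (Nat.modEq_iff_dvd' (Nat.pow_le_pow_right two_pos hk)).1 c2.symm
  interval_cases k
  · obtain rfl : p = 5 := (Nat.prime_dvd_prime_iff_eq hp.out Nat.prime_five).1
      ((hp.out.dvd_mul (m := 3)).1 h6 |>.resolve_left fun h => by have := nd 3 h; omega)
    have p5 := (hP.comap_subtype (K := St G (V M x ⊔ V M y))).map (res _)
    obtain ⟨j, hj⟩ := IsPGroup.iff_card.1 p5
    have h7 : res _ ⟨_, sW⟩ ≠ 1 := fun h => s1 fun v hv =>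
      (res_eq.1 (h.trans (map_one _).symm) v (mem_sup_left hv)).trans (one_smul _ _)
    have j1 : j = 1 := le_antisymm (not_lt.1 fun hl => by
        have := (pow_dvd_pow 5 hl).trans (hj ▸ card_subgroup_dvd_card _)
        rw [card_aut h2 h3] at this
        exact absurd this (by decide))
      (Nat.pos_of_ne_zero fun h => h7 (mem_bot.1 ((card_eq_one.1 (hj.trans (by rw [h, pow_zero]))).le
        ⟨⟨_, sW⟩, hs, rfl⟩)))
    rw [j1, pow_one] at hj
    obtain ⟨i, hi⟩ := mem_powers_of_prime_card hj (g := ⟨_, ⟨_, sW⟩, hs, rfl⟩)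
      (g' := ⟨_, ⟨x, xW⟩ * ⟨_, sW⟩ * ⟨x, xW⟩⁻¹, hn x hx _ hs, rfl⟩)
      fun h => h7 (congrArg Subtype.val h)
    have h8 := orderOf_eq_prime (hj ▸ congrArg Subtype.val (pow_card_eq_one'
      (x := (⟨_, ⟨_, sW⟩, hs, rfl⟩ : (P.comap (St G _).subtype).map (res _)))) :) h7
    have h9 : res _ ⟨y, yW⟩ = res _ ⟨_, sW⟩ * res _ ⟨x, xW⟩ := by
      rw [← map_mul]; congr 1; exact Subtype.ext (inv_mul_cancel_right y x).symm
    have a3 : ∀ (z : G) hz, (∀ m : M, z ^ 3 • m = m) → res (V M x ⊔ V M y) ⟨z, hz⟩ ^ 3 = 1 :=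
      fun z hz h => by
        rw [← map_pow, ← map_one (res (G := G) _)]
        exact res_eq.2 fun w _ => (h w).trans (one_smul _ _).symm
    replace hi := congrArg Subtype.val hi
    have b3 := a3 y yW y3
    have b4 := a3 x xW x3
    simp only [SubmonoidClass.coe_pow, map_mul, map_inv] at hi h8
    rw [h9] at b3
    generalize res _ ⟨_, sW⟩ = t at hi h8 b3
    generalize res _ ⟨x, xW⟩ = u at hi b3 b4
    have b5 : t ^ (1 + i + i * i) = 1 := by
      rw [pow_add, pow_add, pow_one, pow_mul, hi, conj_pow, hi, ← b3, ← mul_one (_ * (u * _ * _)),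
        ← b4, pow_three', pow_three']
      group
    exact five i (h8 ▸ orderOf_dvd_of_pow_eq_one b5)
  · obtain ⟨⟨w, hw⟩, w1, w2⟩ := (Nat.card_eq_two_iff' (1 : C)).1 e
    have k : ∀ z ∈ H, z ∈ St G (V M x ⊔ V M y) → z • w = w := fun z hz hz' => congrArg Subtype.val
      (w2 ⟨z • w, (c1 _).2 ⟨(hz' w).2 (CW hw), fun g hg => by
        rw [← mul_smul, show g * z = z * (z⁻¹ * g * z⁻¹⁻¹) by group, mul_smul, ((c1 w).1 hw).2 _
          (mem_inf.2 ⟨hn _ (inv_mem hz) g hg.1, mul_mem (mul_mem (inv_mem hz') (mem_inf.1 hg).2)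
            (inv_mem (inv_mem hz'))⟩)]⟩⟩
        fun h => w1 (Subtype.ext ((smul_eq_iff_eq_inv_smul z).1 (congrArg Subtype.val h) |>.trans
          (smul_one _))))
    exact w1 (Subtype.ext (fix0 h2 hH hx hy (CW hw) (k x hx xW) (k y hy yW)))
  · rcases (hp.out.dvd_mul (m := 3) (n := 4)).1 h6 with h | h <;> have := nd _ h <;> omega
  · have := nd 2 (hp.out.dvd_of_dvd_pow (n := 3) h6); omega
  · exact s1 fun v hv => ((c1 v).1 ((eq_of_le_of_card_ge CW (by omega)).ge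
      (mem_sup_left hv))).2 _ ⟨hs, sW⟩

theorem casep {p : ℕ} [hp : Fact p.Prime] (h5 : 5 ≤ p) {P H : Subgroup G} (hP : IsPGroup p P)
    (hH : Odd (Nat.card H)) (hPH : P ≤ H) (hn : ∀ h ∈ H, ∀ g ∈ P, h * g * h⁻¹ ∈ P) {x : G}
    (hx : x ∈ H) (x3 : ∀ m : M, x ^ 3 • m = m) (cx : Nat.card (V M x) = 4) :
    ∃ U : Subgroup M, V M x ≤ U ∧ P ≤ St G U ∧ Nat.card U ≤ 8 := by
  have hs : ∀ g ∈ P, g * x * g⁻¹ * x⁻¹ ∈ P := fun g hg => by
    simpa [mul_assoc] using mul_mem hg (hn x hx _ (inv_mem hg))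
  have st := fun g hg => step h2 h5 hP hH hn hx (mul_mem (mul_mem (hPH hg) hx) (inv_mem (hPH hg)))
    (hs g hg) x3 (fun m => by rw [conj_pow, mul_smul, mul_smul, x3, smul_inv_smul]) cx
    ((card_conj x g).trans cx)
  refine ⟨⨆ g : P, V M (g * x * g⁻¹), le_iSup_of_le 1 (by simp), le_St fun g hg => ?_, ?_⟩
  · refine fun w hw => (iSup_le fun k v hv => ?_ : ⨆ g : P, V M (g * x * g⁻¹) ≤
      comap (MulDistribMulAction.toMonoidHom M g) (⨆ g : P, V M (g * x * g⁻¹))) hw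
    refine mem_iSup_of_mem (⟨g, hg⟩ * k) ?_
    simpa [mul_assoc] using smul_V g hv
  by_cases h : ∀ g ∈ P, V M x = V M (g * x * g⁻¹)
  · exact (card_le_of_le (iSup_le fun g : P => (h g g.2).ge)).trans (by omega)
  push Not at h
  obtain ⟨g, hg, h⟩ := h
  obtain ⟨a1, a2⟩ := st g hg h
  refine (card_le_of_le (iSup_le fun k => ?_)).trans a2.le
  by_cases h' : V M x = V M (k * x * (k : G)⁻¹)
  · exact h'.ge.trans le_sup_left
  obtain ⟨b1, b2⟩ := st k k.2 h'
  have c1 := cnt1 h2 hP (by omega) (hs g hg) (hs k k.2)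
  have c2 := cnt1 h2 hP (by omega) (hs g hg) (hs g hg)
  rw [a1, b1] at c1
  rw [sup_idem, a1, a2] at c2
  have c3 := H3.card_sup_mul_card_inf (V M x ⊔ V M (g * x * g⁻¹)) (V M x ⊔ V M (k * x * (k : G)⁻¹))
  obtain ⟨i, c4⟩ := cx ▸ card_dvd_of_le (le_inf le_sup_left le_sup_left : V M x ≤
    (V M x ⊔ V M (g * x * g⁻¹)) ⊓ (V M x ⊔ V M (k * x * (k : G)⁻¹)))
  obtain ⟨j, c5⟩ := a2 ▸ card_dvd_of_le (le_sup_left : V M x ⊔ V M (g * x * g⁻¹) ≤
    (V M x ⊔ V M (g * x * g⁻¹)) ⊔ (V M x ⊔ V M (k * x * (k : G)⁻¹)))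
  rw [a2, b2, c4, c5] at c3
  rcases (Nat.dvd_prime Nat.prime_two).1 (⟨i, by nlinarith⟩ : j ∣ 2) with rfl | rfl
  · exact (le_sup_right.trans le_sup_right).trans
      (eq_of_le_of_card_ge le_sup_left (c5.trans a2.symm).le).ge
  · rw [c5] at c1
    have := Nat.le_of_dvd two_pos (hp.out.dvd_of_dvd_pow (n := 3)
      ((Nat.modEq_iff_dvd' (by decide)).1 (c2.trans c1.symm)))
    omega

theorem main [Group.IsSolvable G] {p : ℕ} (hp : p.Prime) (hp2 : p ≠ 2) {E : Subgroup G}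
    (hE : IsElementaryAbelian p E) (hE3 : Nat.card E = p ^ 3) {x : G} (hx : IsPGroup 3 (zpowers x))
    (x3 : ∀ m : M, x ^ 3 • m = m) (cx : Nat.card (V M x) = 4) {C : Subgroup G}
    (hC : ∀ g, (∀ u ∈ V M x, g • u = u) → g ∈ C) : ∃ (r : ℕ) (F : Subgroup G), r.Prime ∧ r ≠ 2 ∧
      IsElementaryAbelian r F ∧ Nat.card F = r ^ 3 ∧ ¬ IsCyclic ↥(F ⊓ C) := by
  have := Fact.mk Nat.prime_three
  have := Fact.mk hp
  by_cases hr : PRankLE 3 2 G
  swap
  · obtain ⟨T, hT⟩ := hx.exists_le_sylow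
    obtain ⟨B, b1, b2⟩ := H55.not_pRankLE_top_iff.1 hr
    obtain ⟨T', hT'⟩ := IsPGroup.exists_le_sylow (show IsPGroup 3 B from fun b =>
      ⟨1, Subtype.ext (by simpa using b1.2 b b.2)⟩)
    obtain ⟨F, f1, f2, f3⟩ := case3 h2 T.isPGroup' (fun h => by
      let f := (T'.equiv T).toMonoidHom.comp (inclusion hT')
      have := h f.range ⟨⟨by
        rintro ⟨_, a, rfl⟩ ⟨_, b, rfl⟩
        exact Subtype.ext (by simp only [coe_mul, ← map_mul, b1.1.is_comm.comm a b])⟩⟩ (by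
        rintro _ ⟨a, rfl⟩
        rw [← map_pow, show a ^ 3 = 1 from Subtype.ext (b1.2 a a.2), map_one])
      rw [← Nat.card_congr (f.ofInjective ((T'.equiv T).injective.comp
        (inclusion_injective hT'))).toEquiv] at this
      omega) (hT (mem_zpowers x)) cx
    exact ⟨3, F, Nat.prime_three, by decide, f1, f2, fin Nat.prime_three f1 f2 f3
      (by rw [cx]; decide) hC⟩
  have p3 : p ≠ 3 := by
    rintro rfl
    have := hr E hE.1 hE.2
    omega
  have h5 := hp.five_le_of_ne_two_of_ne_three hp2 p3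
  have sep := H2.piSolvSeparable_of_isSolvable {3, p} G
  obtain ⟨H, hH, xH⟩ := sep.exists_isPiHall_ge
    (H2.isPiNum_card_of_isPGroup Nat.prime_three (by simp) hx)
  obtain ⟨g, hg⟩ := sep.le_conj hH (K := E) (hE3 ▸ H2.isPiNum_prime_pow hp (by simp) 3)
  have odd : Odd (Nat.card H) := Nat.not_even_iff_odd.1 fun h => by
    rcases hH.1 2 Nat.prime_two h.two_dvd with h | h <;> simp_all
  have x1 : 3 ∣ Nat.card H := by
    obtain ⟨k, hk⟩ := IsPGroup.iff_card.1 hx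
    refine (dvd_pow_self 3 ?_).trans (hk ▸ card_dvd_of_le xH)
    rintro rfl
    rw [pow_zero, card_eq_one, zpowers_eq_bot] at hk
    rw [(eq_bot_iff_forall (V M x)).2 (by rintro _ ⟨m, rfl⟩; simp [hk]), card_bot] at cx
    omega
  have npc := (S1450.result odd 3 x1 fun A h1 h3 => by
    rw [← card_map_of_injective H.subtype_injective]
    exact hr _ inferInstance (by
      rintro _ ⟨a, ha, rfl⟩; rw [← map_pow, h3 a ha, map_one])).2.1 (.inl rfl)
  have := H8.pResidual_normal (G := H) 3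
  obtain ⟨U, u1, u2, u3⟩ := casep h2 h5 (P := (pResidual 3 H).map H.subtype) (IsPGroup.map
    (IsPGroup.of_card (Nat.eq_prime_pow_of_unique_prime_dvd Nat.card_pos.ne'
      fun {q} hq h => (hH.1 q hq (h.trans (card_subgroup_dvd_card _))).resolve_left fun e =>
        H8.hasNormalPComplement_iff_not_dvd.1 npc (e.symm.dvd.trans h))) _) odd (map_subtype_le _)
    (by rintro h hh _ ⟨g, hg, rfl⟩; exact ⟨_, this.conj_mem g hg ⟨h, hh⟩, rfl⟩)
    (xH (mem_zpowers x)) x3 cx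
  · have f1 : IsElementaryAbelian p (E.map (MulAut.conj g⁻¹).toMonoidHom) := ⟨have := hE.1
      inferInstance, by rintro _ ⟨a, ha, rfl⟩; rw [← map_pow, hE.2 a ha, map_one]⟩
    have f2 := (card_map_of_injective (K := E) (f := (MulAut.conj g⁻¹).toMonoidHom)
      (MulAut.conj g⁻¹).injective).trans hE3
    refine ⟨p, _, hp, hp2, f1, f2, fin hp f1 f2 (fun a ha => u2 ⟨⟨a, ?_⟩,
      H8.mem_pResidual_of_coprime ?_, rfl⟩) (fun h => ?_) fun g h => hC g fun u hu => h u (u1 hu)⟩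
    · obtain ⟨a, ha, rfl⟩ := ha
      simpa using mem_pointwise_smul_iff_inv_smul_mem.1 (hg ha)
    · exact ((Nat.coprime_primes hp Nat.prime_three).2 p3).coprime_dvd_left
        (orderOf_dvd_of_pow_eq_one (Subtype.ext (f1.2 a ha)))
    · replace h := h.trans (Nat.factorial_dvd_factorial u3)
      have := (hp.dvd_factorial).1 ((dvd_pow_self p two_ne_zero).trans h)
      interval_cases p <;> simp_all (config := { decide := true })

end Cfsg.Agent.H86.NG4
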