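import Cfsg.Agent.H71.P3Defs

/-! Products of two transvections of different type. -/

set_option autoImplicit false

namespace Cfsg.Agent.H86.P3

open Cfsg Module Cfsg.Agent.H27 Cfsg.Agent.H71.P3

variable {F V : Type} [Field F] [AddCommGroup V] [Module F V]

theorem pow_eig {g : V ≃ₗ[F] V} {x : V} {c : F} (h : g x = c • x) (n : ℕ) :
    (g ^ n) x = c ^ n • x := by
  induction n with
  | zero => simp
  | succ n ih => rw [pow_succ', LinearEquiv.mul_apply, ih, map_smul, h, smul_smul, pow_succ]

theorem supp_tt (S : Sp F V) (v w : V) (e : F) :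
    S.Supp (Submodule.span F {v, w}) (S.t w e * S.t v 1) := fun x hx => by
  rw [LinearEquiv.mul_apply, altTv_apply_of_orth _ _ (hx v (Submodule.subset_span (by simp))),
    altTv_apply_of_orth _ _ (hx w (Submodule.subset_span (by simp)))]

theorem hyp_case [Finite F] (S : Sp F V) {K : Subgroup (V ≃ₗ[F] V)} (nj : S.NoJ K) (ni : S.NoI K)
    {v w : V} {e : F} (s : S.B v w = 1) (he : ¬ IsSquare e) : S.t w (-e) * S.t v 1 ∉ K := by
  intro hg
  have := Fintype.ofFinite F
  have sp := supp_tt S v w (-e)
  have s' : S.B w v = -1 := by rw [← S.alt.neg_eq, s]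
  have gv : (S.t w (-e) * S.t v 1) v = v - e • w := by
    simp only [LinearEquiv.mul_apply, altTv_apply, S.alt.self_eq_zero, mul_zero, zero_smul,
      add_zero, s]
    module
  have gw : (S.t w (-e) * S.t v 1) w = -v + (1 + e) • w := by
    simp only [LinearEquiv.mul_apply, altTv_apply, S.alt.self_eq_zero, map_add, map_smul, s, s']
    module
  generalize S.t w (-e) * S.t v 1 = g at hg sp gv gw
  have hl : S.Hyp (Submodule.span F {v, w}) := ⟨v, w, s, rfl⟩
  have J : ∀ n : ℕ, (g ^ n) v = -v → (g ^ n) w = -w → False := fun n h1 h2 =>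
    nj _ hl _ (pow_mem hg n) ⟨fun x hx => by
      simpa using pow_eig (g := g) (x := x) (c := 1) (by simpa using sp x hx) n,
      fun x hx => by
        obtain ⟨a, b, rfl⟩ := Submodule.mem_span_pair.1 hx
        rw [map_add, map_smul, map_smul, h1, h2]
        module⟩
  refine ni _ hl g hg ⟨sp, fun x hx x0 c hc => ?_⟩
  obtain ⟨a, b, rfl⟩ := Submodule.mem_span_pair.1 hx
  rw [map_add, map_smul, map_smul, gv, gw] at hc
  have e1 : a - b = c * a := by
    have := congrArg (fun y => S.B y w) hc
    simp only [map_add, map_smul, map_sub, map_neg, LinearMap.add_apply, LinearMap.smul_apply,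
      LinearMap.sub_apply, LinearMap.neg_apply, s, S.alt.self_eq_zero, smul_eq_mul] at this
    linear_combination this
  have e2 : -e * a + (1 + e) * b = c * b := by
    have := congrArg (fun y => S.B v y) hc
    simp only [map_add, map_smul, map_sub, map_neg, s, S.alt.self_eq_zero, smul_eq_mul] at this
    linear_combination this
  have a0 : a ≠ 0 := by
    rintro rfl
    have : b = 0 := by linear_combination -e1
    exact x0 (by simp [this])
  have q : (c - 1) ^ 2 = e * c := by
    refine mul_left_cancel₀ a0 ?_
    linear_combination e2 + (1 + e - c) * e1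
  have c0 : c ≠ 0 := by
    rintro rfl
    simp at q
  have eig : ∀ d : F, (d - 1) ^ 2 = e * d → g (v + (1 - d) • w) = d • (v + (1 - d) • w) :=
    fun d hd => by
      rw [map_add, map_smul, gv, gw]
      have : (1 - d) * (1 + e) - e = d * (1 - d) := by linear_combination hd
      calc v - e • w + (1 - d) • (-v + (1 + e) • w)
          = d • v + ((1 - d) * (1 + e) - e) • w := by module
        _ = _ := by rw [this]; module
  have h2 : ringChar F ≠ 2 := fun k => S.two_ne_zero (by
    have := ringChar.Nat.cast_ringChar (R := F)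
    rw [k] at this
    exact_mod_cast this)
  have ns : ¬ IsSquare c := by
    rintro ⟨m, rfl⟩
    have m0 : m ≠ 0 := fun k => c0 (by rw [k, mul_zero])
    exact he ⟨(m * m - 1) / m, by field_simp; linear_combination -q⟩
  by_cases hc1 : c = -1
  · subst hc1
    have e4 : e = -4 := by linear_combination q
    have gx := eig _ q
    have gw' : g w = -w - (v + (1 - -1 : F) • w) := by rw [gw, e4]; module
    generalize hy : v + (1 - -1 : F) • w = y at gx gw'
    have pw : ∀ n : ℕ, (g ^ n) w = (-1 : F) ^ n • (w + (n : F) • y) := fun n => by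
      induction n with
      | zero => simp
      | succ n ih =>
        rw [pow_succ', LinearEquiv.mul_apply, ih, map_smul, map_add, map_smul, gx, gw', pow_succ]
        push_cast
        module
    have od : Odd (Fintype.card F) := Nat.card_eq_fintype_card (α := F) ▸ S.odd
    have p1 := pw (Fintype.card F)
    have p2 := pow_eig gx (Fintype.card F)
    rw [od.neg_one_pow] at p1 p2
    rw [FiniteField.cast_card_eq_zero, zero_smul, add_zero, neg_one_smul] at p1
    refine J _ ?_ p1
    rw [show v = y - (1 - -1 : F) • w by rw [← hy]; module, map_sub, map_smul, p1, p2]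
    module
  · have m1 : c ^ (Fintype.card F / 2) = -1 :=
      (FiniteField.pow_dichotomy h2 c0).resolve_left fun k =>
        ns ((FiniteField.isSquare_iff h2 c0).2 k)
    have m2 : c⁻¹ ^ (Fintype.card F / 2) = -1 := by rw [inv_pow, m1, inv_neg, inv_one]
    have p1 := pow_eig (eig c q) (Fintype.card F / 2)
    have p2 := pow_eig (eig c⁻¹ (by field_simp; linear_combination q)) (Fintype.card F / 2)
    rw [m1] at p1
    rw [m2] at p2
    have d0 : c⁻¹ - c ≠ 0 := fun k => by
      have k1 : (c - 1) * (c + 1) = 0 := by
        have := mul_inv_cancel₀ c0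
        linear_combination this - c * k
      rcases mul_eq_zero.1 k1 with k2 | k2
      · exact ns ⟨1, by linear_combination k2⟩
      · exact hc1 (by linear_combination k2)
    have pw : (g ^ (Fintype.card F / 2)) w = -w := by
      refine smul_right_injective V d0 ?_
      have : (c⁻¹ - c) • w = (v + (1 - c) • w) - (v + (1 - c⁻¹) • w) := by module
      change (c⁻¹ - c) • _ = (c⁻¹ - c) • _
      rw [← map_smul, this, map_sub, p1, p2]
      module
    refine J _ ?_ pw
    rw [map_add, map_smul, pw] at p1
    rw [eq_sub_of_add_eq p1]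
    module

theorem k2 : K2Stmt := by
  intro F V _ _ _ _ _ S K _ nt nj ni na v w e v0 w0 he hg
  by_cases s : S.B v w = 0
  · by_cases d : ∃ c : F, v = c • w
    · obtain ⟨c, rfl⟩ := d
      rw [Sp.t, Sp.t, altTv_smul, altTv_mul] at hg
      exact nt w _ w0 (fun k => he ⟨c, by linear_combination -k⟩) hg
    · have s' : S.B w v = 0 := by rw [← S.alt.neg_eq, s, neg_zero]
      have li : LinearIndependent F ![w, v] :=
        (LinearIndependent.pair_iff' w0).2 fun c k => d ⟨c, k.symm⟩
      have gx : ∀ x, (S.t w (-e) * S.t v 1) x = x + S.B x v • v + (-e * S.B x w) • w := fun x => by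
        simp only [LinearEquiv.mul_apply, altTv_apply, map_add, map_smul, s]
        module
      refine na (Submodule.span F {v, w}) ⟨?_, fun x hx y hy => ?_⟩ _ hg
        ⟨supp_tt S v w _, fun x => ?_, fun x hx y hy => ?_⟩
      · have := finrank_span_eq_card li
        rwa [Matrix.range_cons, Matrix.range_cons, Matrix.range_empty, Set.union_empty,
          Set.singleton_union, Set.pair_comm] at this
      · obtain ⟨a, b, rfl⟩ := Submodule.mem_span_pair.1 hx
        obtain ⟨a', b', rfl⟩ := Submodule.mem_span_pair.1 hy
        simp [s, s', S.alt.self_eq_zero]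
      · exact Submodule.mem_span_pair.2 ⟨S.B x v, -e * S.B x w, by rw [gx]; module⟩
      · obtain ⟨a, b, rfl⟩ := Submodule.mem_span_pair.1 hy
        rw [gx] at hx
        simp only [map_add, map_smul, LinearMap.add_apply, LinearMap.smul_apply,
          S.alt.self_eq_zero, smul_eq_mul, ← S.alt.neg_eq x v, ← S.alt.neg_eq x w] at hx
        have b0 : S.B x w = 0 := by
          by_contra k
          exact he ⟨S.B x v / S.B x w, by field_simp; linear_combination hx⟩
        have a0 : S.B x v = 0 := by
          rw [b0] at hx
          exact mul_self_eq_zero.1 (by linear_combination -hx)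
        simp [a0, b0]
  · refine hyp_case S nj ni (v := v) (w := (S.B v w)⁻¹ • w) (e := e * S.B v w ^ 2)
      (by rw [map_smul, smul_eq_mul, inv_mul_cancel₀ s]) ?_ ?_
    · rintro ⟨m, k⟩
      exact he ⟨m / S.B v w, by field_simp; linear_combination k⟩
    · rwa [Sp.t, altTv_smul, show (S.B v w)⁻¹ ^ 2 * -(e * S.B v w ^ 2) = -e by field_simp]

end Cfsg.Agent.H86.P3
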