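import Cfsg.Agent.H86.Basic
import Cfsg.Agent.H4.CoprimeGen
import Cfsg.Agent.H8.Residual
import Cfsg.Agent.H82.SL2
import Cfsg.Agent.H31.SU3
import Cfsg.Agent.H31.HermSU

/-! Abstract split rank one data with a fixed-point-free torus element of order dividing `p - 1`. -/

namespace Cfsg.Agent.H86

open Subgroup
open scoped commutatorElement Pointwise

structure R1 (p : ℕ) {K : Type*} [Group K] (U : Subgroup K) (w g h : K) : Prop where
  pU : IsPGroup p U
  g_mem : g ∈ normalizer (U : Set K)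
  cyc : ∀ b ∈ normalizer (U : Set K), ∃ n : ℕ, ∃ u ∈ U, b = g ^ n * u
  g_ord : (orderOf g).Coprime p
  w_not : w ∉ normalizer (U : Set K)
  bruhat : ∀ k, k ∉ normalizer (U : Set K) → ∃ u ∈ U, ∃ b ∈ normalizer (U : Set K), k = u * w * b
  ti : ∀ u ∈ U, w⁻¹ * u * w ∈ normalizer (U : Set K) → u = 1
  h_mem : h ∈ normalizer (U : Set K)
  h_mem' : w⁻¹ * h * w ∈ normalizer (U : Set K)
  h_pow : h ^ (p - 1) = 1
  fpf : ∀ u ∈ U, h * u = u * h → u = 1
  gen : normalClosure (U : Set K) = ⊤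

theorem conj_fixed_of_small {Q : Type*} [Group Q] [Finite Q] {p : ℕ} [hp : Fact p.Prime] {s x : Q}
    {j : ℕ} (hs : s ^ p ^ j = 1) {A : Subgroup Q} (hA : ∀ y ∈ A, s * y * s⁻¹ ∈ A) (hx : x ∈ A)
    (hc : Nat.card A < p) : s * x * s⁻¹ = x := by
  classical
  have := Fintype.ofFinite A
  let φ : A → A := fun y => ⟨s * y * s⁻¹, hA y y.2⟩
  have hφ : ∀ n : ℕ, ∀ y : A, ((φ^[n] y : A) : Q) = s ^ n * y * (s ^ n)⁻¹ := by
    intro n
    induction n with
    | zero => intro y; simp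
    | succ n ih =>
      intro y
      rw [Function.iterate_succ_apply']
      show s * ((φ^[n] y : A) : Q) * s⁻¹ = _
      rw [ih, pow_succ']; group
  have h1 : Function.IsPeriodicPt φ (p ^ j) ⟨x, hx⟩ := Subtype.ext (by rw [hφ, hs]; simp)
  have h2 := h1.minimalPeriod_dvd
  have h3 : Function.minimalPeriod φ ⟨x, hx⟩ ≤ Fintype.card A := Function.minimalPeriod_le_card
  rw [← Nat.card_eq_fintype_card] at h3
  obtain ⟨i, -, hi⟩ := (Nat.dvd_prime_pow hp.out).mp h2
  have hi0 : i = 0 := by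
    by_contra h0
    have : p ≤ p ^ i := Nat.le_self_pow h0 p
    omega
  rw [hi0, pow_zero, Function.minimalPeriod_eq_one_iff_isFixedPt] at hi
  exact congrArg Subtype.val hi

theorem mem_normalizer_of_conj_mem {K : Type*} [Group K] [Finite K] {U : Subgroup K} {k : K}
    (h : ∀ u ∈ U, k * u * k⁻¹ ∈ U) : k ∈ normalizer (U : Set K) :=
  mem_normalizer_fintype (S := (U : Set K)) h

namespace R1
variable {p : ℕ} [hp : Fact p.Prime] {K : Type*} [Group K] [Finite K] {U : Subgroup K} {w g h : K}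

theorem pow_mem (r : R1 p U w g h) {b : K} (hb : b ∈ normalizer (U : Set K)) :
    b ^ orderOf g ∈ U := by
  obtain ⟨n, u, hu, rfl⟩ := r.cyc b hb
  have key : ∀ m : ℕ, (g ^ n) ^ m * (((g ^ n) * u) ^ m)⁻¹ ∈ U := by
    intro m
    induction m with
    | zero => simp
    | succ m ih =>
      have e : (g ^ n) ^ (m + 1) * ((g ^ n * u) ^ (m + 1))⁻¹ =
          g ^ n * ((g ^ n) ^ m * ((g ^ n * u) ^ m)⁻¹ * u⁻¹) * (g ^ n)⁻¹ := by
        rw [pow_succ', pow_succ']
        generalize (g ^ n * u) ^ m = y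
        generalize (g ^ n) ^ m = x
        generalize g ^ n = v
        group
      rw [e]
      exact H4.conj_mem_of_mem_normalizer (Subgroup.pow_mem _ r.g_mem n) (mul_mem ih (inv_mem hu))
  have := key (orderOf g)
  rw [← pow_mul, mul_comm, pow_mul, pow_orderOf_eq_one, one_pow, one_mul] at this
  exact inv_mem_iff.mp this

theorem mem_of_pow {X : Type*} [Group X] {V : Subgroup X} {x : X} {m j : ℕ} (hm : m.Coprime p)
    (h1 : x ^ m ∈ V) (h2 : x ^ p ^ j ∈ V) : x ∈ V := by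
  have hc : (m : ℤ).gcd ((p ^ j : ℕ) : ℤ) = 1 := by
    rw [Int.gcd_natCast_natCast]; exact hm.pow_right j
  have e := Int.gcd_eq_gcd_ab (m : ℤ) ((p ^ j : ℕ) : ℤ)
  rw [hc] at e
  have : x = (x ^ m) ^ Int.gcdA m ((p ^ j : ℕ) : ℤ) * (x ^ p ^ j) ^ Int.gcdB m ((p ^ j : ℕ) : ℤ) := by
    rw [← zpow_natCast, ← zpow_natCast, ← zpow_mul, ← zpow_mul, ← zpow_add, ← e]; simp
  rw [this]
  exact mul_mem (zpow_mem h1 _) (zpow_mem h2 _)

variable {X : Type*} [Group X] [Finite X] {f : K →* X}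

theorem map_mem_normalizer (r : R1 p U w g h) (hf : f.ker ≤ center K) {k : K} :
    f k ∈ normalizer ((U.map f : Subgroup X) : Set X) ↔ k ∈ normalizer (U : Set K) := by
  constructor
  · intro hk
    refine mem_normalizer_of_conj_mem fun u hu => ?_
    obtain ⟨u', hu', e⟩ := H4.conj_mem_of_mem_normalizer hk (mem_map_of_mem f hu)
    have hz : u'⁻¹ * (k * u * k⁻¹) ∈ center K := hf (by
      rw [MonoidHom.mem_ker, map_mul, map_inv, e, map_mul, map_mul, map_inv, inv_mul_cancel])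
    obtain ⟨i, hi⟩ := pow_eq_one_of_mem r.pU hu
    obtain ⟨j, hj⟩ := pow_eq_one_of_mem r.pU hu'
    generalize hzd : u'⁻¹ * (k * u * k⁻¹) = z at hz
    have e2 : k * u * k⁻¹ = u' * z := by rw [← hzd]; group
    have hc : Commute u' z := mem_center_iff.mp hz u'
    have e3 : (k * u * k⁻¹) ^ p ^ (i + j) = 1 := by
      rw [conj_pow, pow_add, pow_mul, hi]; simp
    rw [e2, hc.mul_pow, pow_add, mul_comm (p ^ i), pow_mul u', hj, one_pow, one_mul] at e3
    have hzN : z ∈ normalizer (U : Set K) := center_le_normalizer _ hz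
    rw [← pow_add] at e3
    have : z ∈ U := mem_of_pow r.g_ord (r.pow_mem hzN) (by rw [e3]; exact one_mem _)
    rw [e2]; exact mul_mem hu' this
  · intro hk
    exact le_normalizer_map f (mem_map_of_mem f hk)

theorem mem_map_of_pow (r : R1 p U w g h) (hf : f.ker ≤ center K) {k : K} {j : ℕ}
    (hk : f k ∈ normalizer ((U.map f : Subgroup X) : Set X)) (hj : f k ^ p ^ j = 1) :
    f k ∈ U.map f := by
  refine mem_of_pow r.g_ord ?_ (by rw [hj]; exact one_mem _)
  rw [← map_pow]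
  exact mem_map_of_mem f (r.pow_mem ((r.map_mem_normalizer hf).mp hk))

theorem inf_range (r : R1 p U w g h) (hf : f.ker ≤ center K) {S : Subgroup X} (hS : IsPGroup p S)
    (hUS : U.map f ≤ S) : S ⊓ f.range = U.map f := by
  by_contra hne
  have hle : U.map f ≤ S ⊓ f.range := le_inf hUS (map_le_range f U)
  have hlt : U.map f < S ⊓ f.range := lt_of_le_of_ne hle (Ne.symm hne)
  have hP : IsPGroup p (S ⊓ f.range : Subgroup X) := hS.to_le inf_le_left
  have := H4.lt_inf_normalizer_of_isNilpotent hP.isNilpotent hlt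
  obtain ⟨x, hx, hx'⟩ := SetLike.exists_of_lt this
  obtain ⟨k, rfl⟩ := hx.1.2
  obtain ⟨j, hj⟩ := pow_eq_one_of_mem hS hx.1.1
  exact hx' (r.mem_map_of_pow hf hx.2 hj)

theorem h_mem_normalizer (r : R1 p U w g h) (hf : f.ker ≤ center K) [f.range.Normal]
    {S : Subgroup X} (hS : IsPGroup p S) (hUS : U.map f ≤ S) :
    f h ∈ normalizer (S : Set X) := by
  have hinf := r.inf_range hf hS hUS
  have hSN : S ≤ normalizer ((U.map f : Subgroup X) : Set X) := by
    rw [← hinf]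
    exact H4.le_normalizer_inf le_normalizer (by rw [normalizer_eq_top]; exact le_top)
  let N : Subgroup X := normalizer ((U.map f : Subgroup X) : Set X)
  let π := QuotientGroup.mk' ((U.map f).subgroupOf N)
  have hgN : f g ∈ N := (r.map_mem_normalizer hf).mpr r.g_mem
  have hhN : f h ∈ N := (r.map_mem_normalizer hf).mpr r.h_mem
  have hcyc : ∀ (k : K) (hk : f k ∈ N), ∃ n : ℕ, π ⟨f k, hk⟩ = π ⟨f g, hgN⟩ ^ n := by
    intro k hk
    obtain ⟨n, u, hu, e⟩ := r.cyc k ((r.map_mem_normalizer hf).mp hk)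
    refine ⟨n, ?_⟩
    rw [← map_pow, QuotientGroup.mk'_apply, QuotientGroup.mk'_apply, eq_comm, QuotientGroup.eq,
      mem_subgroupOf]
    refine ⟨u, hu, ?_⟩
    simp [e]
  refine inv_mem_iff.mp (mem_normalizer_of_conj_mem fun s hs => ?_)
  obtain ⟨j, hj⟩ := pow_eq_one_of_mem hS hs
  have hsN : s ∈ N := hSN hs
  obtain ⟨k, hk⟩ := (inferInstance : f.range.Normal).conj_mem (f g) ⟨g, rfl⟩ s
  have hkN : f k ∈ N := by rw [hk]; exact mul_mem (mul_mem hsN hgN) (inv_mem hsN)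
  obtain ⟨a, ha⟩ := hcyc k hkN
  obtain ⟨b, hb⟩ := hcyc h hhN
  have e1 : π ⟨s, hsN⟩ * π ⟨f g, hgN⟩ * (π ⟨s, hsN⟩)⁻¹ = π ⟨f g, hgN⟩ ^ a := by
    rw [← ha, ← map_mul, ← map_inv, ← map_mul]
    congr 1
    exact Subtype.ext hk.symm
  have e2 : π ⟨s, hsN⟩ * π ⟨f h, hhN⟩ * (π ⟨s, hsN⟩)⁻¹ = π ⟨f h, hhN⟩ ^ a := by
    rw [hb, ← conj_pow, e1, ← pow_mul, ← pow_mul, mul_comm]
  have e3 : π ⟨f h, hhN⟩ ^ (p - 1) = 1 := by
    rw [← map_pow]
    have : (⟨f h, hhN⟩ : N) ^ (p - 1) = 1 := Subtype.ext (by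
      show f h ^ (p - 1) = 1
      rw [← map_pow, r.h_pow, map_one])
    rw [this, map_one]
  have e4 := conj_fixed_of_small (p := p) (s := π ⟨s, hsN⟩) (j := j) (by
      rw [← map_pow]
      have : (⟨s, hsN⟩ : N) ^ p ^ j = 1 := Subtype.ext hj
      rw [this, map_one]) (A := zpowers (π ⟨f h, hhN⟩)) (by
      rintro _ ⟨n, rfl⟩
      show _ * π ⟨f h, hhN⟩ ^ n * _ ∈ _
      rw [← conj_zpow, e2]
      exact zpow_mem (Subgroup.pow_mem _ (mem_zpowers _) _) _) (mem_zpowers _) (by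
      rw [Nat.card_zpowers]
      have h2 := hp.out.two_le
      have := Nat.le_of_dvd (by omega) (orderOf_dvd_of_pow_eq_one e3)
      omega)
  rw [← map_mul, ← map_inv, ← map_mul, QuotientGroup.mk'_apply, QuotientGroup.mk'_apply, eq_comm,
    QuotientGroup.eq, mem_subgroupOf] at e4
  have e5 : (f h)⁻¹ * (s * f h * s⁻¹) ∈ S := hUS e4
  have : (f h)⁻¹ * s * (f h)⁻¹⁻¹ = (f h)⁻¹ * (s * f h * s⁻¹) * s := by group
  rw [this]
  exact mul_mem e5 hs

/-- an element centralizing `U` and `h` centralizes the group -/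
theorem commute_of_commute (r : R1 p U w g h) (hf : f.ker ≤ center K) [f.range.Normal] {z : X}
    (hzU : ∀ u ∈ U, Commute z (f u)) (hzh : Commute z (f h)) (k : K) : Commute z (f k) := by
  let N : Subgroup X := normalizer ((U.map f : Subgroup X) : Set X)
  have hzN : z ∈ N := mem_normalizer_of_conj_mem (by
    rintro _ ⟨u, hu, rfl⟩
    rw [(hzU u hu).eq, mul_inv_cancel_right]
    exact mem_map_of_mem f hu)
  have nm : ∀ k, f k ∈ N ↔ k ∈ normalizer (U : Set K) := fun k => r.map_mem_normalizer hf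
  obtain ⟨k0, hk0⟩ := (inferInstance : f.range.Normal).conj_mem (f w) ⟨w, rfl⟩ z
  have hk0' : k0 ∉ normalizer (U : Set K) := by
    intro hc
    apply r.w_not
    rw [← nm] at hc ⊢
    have : f w = z⁻¹ * f k0 * z := by rw [hk0]; group
    rw [this]
    exact mul_mem (mul_mem (inv_mem hzN) hc) hzN
  obtain ⟨u, hu, b, hb, e⟩ := r.bruhat k0 hk0'
  have h1 : k0⁻¹ * h * k0 ∈ normalizer (U : Set K) := by
    rw [← nm, map_mul, map_mul, map_inv, hk0]
    have : (z * f w * z⁻¹)⁻¹ * f h * (z * f w * z⁻¹) = z * f (w⁻¹ * h * w) * z⁻¹ := by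
      rw [map_mul, map_mul, map_inv]
      calc (z * f w * z⁻¹)⁻¹ * f h * (z * f w * z⁻¹)
          = z * (f w)⁻¹ * (z⁻¹ * (f h * z)) * f w * z⁻¹ := by group
        _ = _ := by rw [← hzh.eq]; group
    rw [this]
    exact mul_mem (mul_mem hzN ((nm _).mpr r.h_mem')) (inv_mem hzN)
  have h2 : w⁻¹ * (u⁻¹ * (h * u * h⁻¹)) * w ∈ normalizer (U : Set K) := by
    have : w⁻¹ * (u⁻¹ * (h * u * h⁻¹)) * w = b * (k0⁻¹ * h * k0) * b⁻¹ * (w⁻¹ * h * w)⁻¹ := by
      rw [e]; group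
    rw [this]
    exact mul_mem (mul_mem (mul_mem hb h1) (inv_mem hb)) (inv_mem r.h_mem')
  have h3 := r.ti _ (mul_mem (inv_mem hu) (H4.conj_mem_of_mem_normalizer r.h_mem hu)) h2
  have hu1 : u = 1 := r.fpf u hu (by
    rw [inv_mul_eq_one] at h3
    calc h * u = (h * u * h⁻¹) * h := by group
      _ = u * h := by rw [← h3])
  rw [hu1, one_mul] at e
  have cor : ∀ k, (f k)⁻¹ * z * f k ∈ N := by
    intro k
    by_cases hk : k ∈ normalizer (U : Set K)
    · exact mul_mem (mul_mem (inv_mem ((nm k).mpr hk)) hzN) ((nm k).mpr hk)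
    · obtain ⟨u', hu', b', hb', rfl⟩ := r.bruhat k hk
      have : (f (u' * w * b'))⁻¹ * z * f (u' * w * b') = (f b')⁻¹ * (f b * z) * f b' := by
        have e' : z * f w * z⁻¹ = f w * f b := by rw [← hk0, e, map_mul]
        rw [map_mul, map_mul]
        calc (f u' * f w * f b')⁻¹ * z * (f u' * f w * f b')
            = (f b')⁻¹ * (f w)⁻¹ * ((f u')⁻¹ * (z * f u')) * f w * f b' := by group
          _ = (f b')⁻¹ * (f w)⁻¹ * (z * f w * z⁻¹) * z * f b' := by rw [(hzU u' hu').eq]; group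
          _ = _ := by rw [e']; group
      rw [this]
      exact mul_mem (mul_mem (inv_mem ((nm _).mpr hb')) (mul_mem ((nm _).mpr hb) hzN))
        ((nm _).mpr hb')
  have key : ∀ k, ∀ u ∈ U, Commute z (f (k * u * k⁻¹)) := by
    intro k u hu
    obtain ⟨u', hu', e'⟩ := H4.conj_mem_of_mem_normalizer (cor k) (mem_map_of_mem f hu)
    have h4 : w⁻¹ * (u' * u⁻¹) * w ∈ normalizer (U : Set K) := by
      rw [← nm]
      have : f (w⁻¹ * (u' * u⁻¹) * w) = ((f (k * w))⁻¹ * z * f (k * w)) *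
          ((f (k * u⁻¹ * w))⁻¹ * z * f (k * u⁻¹ * w))⁻¹ := by
        simp only [map_mul, map_inv, e']; group
      rw [this]
      exact mul_mem (cor _) (inv_mem (cor _))
    have h5 := r.ti _ (mul_mem hu' (inv_mem hu)) h4
    rw [mul_inv_eq_one] at h5
    rw [h5] at e'
    show z * f (k * u * k⁻¹) = f (k * u * k⁻¹) * z
    simp only [map_mul, map_inv]
    calc z * (f k * f u * (f k)⁻¹)
        = f k * ((f k)⁻¹ * z * f k * f u * ((f k)⁻¹ * z * f k)⁻¹) * (f k)⁻¹ * z := by group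
      _ = _ := by rw [← e']
  have : normalClosure (U : Set K) ≤ (centralizer ({z} : Set X)).comap f := by
    rw [normalClosure, closure_le]
    intro y hy
    obtain ⟨u, hu, hy⟩ := Group.mem_conjugatesOfSet_iff.mp hy
    obtain ⟨k, rfl⟩ := isConj_iff.mp hy
    exact mem_centralizer_singleton_iff.mpr (key k u hu).symm.eq
  exact (mem_centralizer_singleton_iff.mp (this (r.gen ▸ mem_top k))).symm

theorem eq_one (r : R1 p U w g h) (hf : f.ker ≤ center K) (hr : f.range = pResidual p X)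
    (hO : pCore p X = ⊥) (S : Sylow p X) {z : X} (hz : ∃ j : ℕ, z ^ p ^ j = 1)
    (hc : ∀ x ∈ normalizer ((S : Subgroup X) : Set X), Commute z x) : z = 1 := by
  have : f.range.Normal := hr ▸ inferInstance
  obtain ⟨T, hT⟩ := (r.pU.map f).exists_le_sylow
  obtain ⟨x, rfl⟩ := MulAction.exists_smul_eq X S T
  have hc' : ∀ y ∈ normalizer (((x • S : Sylow p X) : Subgroup X) : Set X),
      Commute (x * z * x⁻¹) y := by
    intro y hy
    have h1 : x⁻¹ * y * x ∈ normalizer ((S : Subgroup X) : Set X) := by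
      have hy' : y • x • S = x • S := Sylow.smul_eq_iff_mem_normalizer.mpr hy
      refine Sylow.smul_eq_iff_mem_normalizer.mp ?_
      rw [mul_smul, mul_smul, hy', inv_smul_smul]
    have := (hc _ h1).conj x
    simpa [mul_assoc] using this
  have h1 := r.commute_of_commute hf (z := x * z * x⁻¹)
    (fun u hu => hc' _ (le_normalizer (hT (mem_map_of_mem f hu))))
    (hc' _ (r.h_mem_normalizer hf (x • S).isPGroup' hT))
  have h2 : (⊤ : Subgroup X) ≤ centralizer ({x * z * x⁻¹} : Set X) := by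
    rw [← H8.sylow_sup_pResidual (x • S), ← hr]
    refine sup_le (fun y hy => ?_) ?_
    · exact mem_centralizer_singleton_iff.mpr (hc' y (le_normalizer hy)).symm.eq
    · rintro _ ⟨k, rfl⟩
      exact mem_centralizer_singleton_iff.mpr (h1 k).symm.eq
  have h3 : x * z * x⁻¹ ∈ center X :=
    mem_center_iff.mpr fun y => mem_centralizer_singleton_iff.mp (h2 (mem_top y))
  have h4 : zpowers (x * z * x⁻¹) ≤ pCore p X :=
    le_pCore ⟨fun n hn y => by
      rw [mem_center_iff.mp ((zpowers_le.mpr h3) hn) y, mul_inv_cancel_right]; exact hn⟩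
      (isPGroup_zpowers (conj_pow_eq_one hz))
  have := h4 (mem_zpowers _)
  rw [hO, mem_bot] at this
  simpa using this

end R1

theorem two_facts {F : Type*} [Field F] {p : ℕ} [hp : Fact p.Prime] [CharP F p] (h5 : 5 ≤ p) :
    (2 : F) ≠ 0 ∧ (3 : F) ≠ 0 ∧ (2 : F) ^ (p - 1) = 1 := by
  have h2 : (2 : F) ≠ 0 := by
    intro h
    have := (CharP.cast_eq_zero_iff F p 2).mp (by exact_mod_cast h)
    have := Nat.le_of_dvd (by norm_num) this
    omega
  have h3 : (3 : F) ≠ 0 := by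
    intro h
    have := (CharP.cast_eq_zero_iff F p 3).mp (by exact_mod_cast h)
    have := Nat.le_of_dvd (by norm_num) this
    omega
  refine ⟨h2, h3, ?_⟩
  have h : (2 : F) ^ p = 2 := by
    have := add_pow_char (1 : F) 1 p
    rw [one_pow, one_add_one_eq_two] at this
    exact this
  apply mul_right_cancel₀ h2
  rw [← pow_succ, Nat.sub_add_cancel (by omega), h, one_mul]

section SL2
open Matrix H82
open scoped MatrixGroups

theorem hh_pow {F : Type*} [Field F] {s : F} (hs : s ≠ 0) (n : ℕ) :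
    hh s hs ^ n = hh (s ^ n) (pow_ne_zero n hs) := by
  induction n with
  | zero => simp only [pow_zero]; exact hh_one.symm
  | succ n ih => rw [pow_succ, ih, hh_mul_hh]; simp only [pow_succ]

theorem hh_congr {F : Type*} [Field F] {s t : F} (hs : s ≠ 0) (ht : t ≠ 0) (e : s = t) :
    hh s hs = hh t ht := by subst e; rfl

theorem exists_R1_SL2 {F : Type*} [Field F] [Fintype F] {p n : ℕ} [hp : Fact p.Prime] (h5 : 5 ≤ p)
    (hF : Fintype.card F = p ^ n) : ∃ (U : Subgroup SL(2, F)) (w g h : SL(2, F)), R1 p U w g h := by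
  have := charP_of_card hF
  obtain ⟨h2, h3, h2p⟩ := two_facts (F := F) h5
  obtain ⟨γ, hγ⟩ := IsCyclic.exists_monoid_generator (α := Fˣ)
  refine ⟨UU F, mm 1 one_ne_zero, hh γ γ.ne_zero, hh 2 h2, isPGroup_UU hF, ?_, ?_, ?_, ?_, ?_, ?_,
    ?_, ?_, ?_, ?_, ?_⟩
  · rw [normalizer_UU, mem_BB]; rfl
  · intro b hb
    rw [normalizer_UU] at hb
    obtain ⟨m, hm⟩ := hγ (Units.mk0 _ (ne_zero_of_mem_BB hb))
    refine ⟨m, _, uu_mem ((b 0 0)⁻¹ * b 0 1), ?_⟩
    rw [hh_pow, hh_congr _ (ne_zero_of_mem_BB hb) (by simpa using congrArg Units.val hm)]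
    exact eq_hh_mul_uu hb
  · have : hh (γ : F) γ.ne_zero ^ (p ^ n - 1) = 1 := by
      rw [hh_pow, ← hh_one]
      refine hh_congr _ _ ?_
      rw [← hF]; exact FiniteField.pow_card_sub_one_eq_one _ γ.ne_zero
    refine Nat.Coprime.coprime_dvd_left (orderOf_dvd_of_pow_eq_one this) ?_
    have h0 := pos_of_card hF
    have h1 : 1 ≤ p ^ n := Nat.one_le_pow _ _ hp.out.pos
    refine Nat.Coprime.coprime_dvd_right (dvd_pow_self p h0.ne') ?_
    rw [← Nat.sub_add_cancel h1, Nat.add_sub_cancel]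
    exact Nat.coprime_self_add_right.mpr (Nat.coprime_one_right _)
  · rw [normalizer_UU]; exact mm_not_mem_BB _
  · intro k hk
    rw [normalizer_UU] at hk ⊢
    obtain ⟨a, s, b, hs, rfl⟩ := bruhat hk
    refine ⟨_, uu_mem a, hh s⁻¹ (inv_ne_zero hs) * uu b,
      mul_mem (mem_BB.mpr rfl) (UU_le_BB (uu_mem b)), ?_⟩
    rw [← mul_assoc, mul_assoc (uu a), mul_assoc (uu a), mul_assoc (uu a), mm_mul_hh]
    simp only [inv_inv, one_mul]
  · rintro _ ⟨t, rfl⟩ ht
    rw [normalizer_UU, mem_BB] at ht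
    simp only [ent] at ht
    rw [uu_eq_one_iff]
    simpa using ht
  · rw [normalizer_UU, mem_BB]; rfl
  · rw [normalizer_UU, mem_BB]
    simp [ent]
  · rw [hh_pow, ← hh_one]; exact hh_congr _ _ h2p
  · rintro _ ⟨t, rfl⟩ ht
    have e := hh_uu h2 t
    rw [ht, mul_inv_cancel_right] at e
    have := uu_injective e
    rw [uu_eq_one_iff]
    have : 3 * t = 0 := by linear_combination -this
    exact (mul_eq_zero.mp this).resolve_left h3
  · exact eq_top_of_normal_of_uu_mem one_ne_zero (subset_normalClosure (uu_mem 1))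

end SL2

section SU3
open H31

variable {F : Type*} [Field F] {σ : F →+* F}

/-- the stabilizer of the first basis vector -/
def stabE (σ : F →+* F) : Subgroup (sisom (hyp3 σ)) where
  carrier := {g | g.1 ![1, 0, 0] = ![1, 0, 0]}
  mul_mem' := fun {a b} ha hb => by
    show a.1 (b.1 _) = _
    rw [hb, ha]
  one_mem' := rfl
  inv_mem' := fun {a} ha => by
    show a.1.symm _ = _
    rw [LinearEquiv.symm_apply_eq]; exact ha.symm

theorem mem_stabE {g : sisom (hyp3 σ)} : g ∈ stabE σ ↔ g.1 ![1, 0, 0] = ![1, 0, 0] := Iff.rfl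

theorem uni3_mem_stabE (h : IsInvol σ) {x y : F} (hxy : y + σ y + x * σ x = 0) :
    (⟨uni3 σ x y, uni3_mem_sisom h hxy⟩ : sisom (hyp3 σ)) ∈ stabE σ := by
  rw [mem_stabE]
  show uni3 σ x y _ = _
  rw [uni3_vec]; simp

instance finite_sisom [Finite F] : Finite (sisom (hyp3 σ)) :=
  Finite.of_injective (fun g : sisom (hyp3 σ) => (g.1 : (Fin 3 → F) → (Fin 3 → F)))
    fun _ _ e => Subtype.ext (DFunLike.coe_injective e)

theorem mem_normalizer_stabE [Finite F] (h : IsInvol σ) {k : sisom (hyp3 σ)} :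
    k ∈ normalizer (stabE σ : Set (sisom (hyp3 σ))) ↔ ∃ c : F, k.1 ![1, 0, 0] = ![c, 0, 0] := by
  constructor
  · intro hk
    obtain ⟨y, hy⟩ := h.exists_trace_eq (a := -1) (by simp)
    have hxy : y + σ y + 1 * σ 1 = 0 := by rw [hy]; simp
    have h1 := H4.inv_conj_mem_of_mem_normalizer hk (uni3_mem_stabE h hxy)
    rw [mem_stabE] at h1
    have h2 : uni3 σ 1 y (k.1 ![1, 0, 0]) = k.1 ![1, 0, 0] := by
      have h3 : k.1.symm (uni3 σ 1 y (k.1 ![1, 0, 0])) = ![1, 0, 0] := h1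
      rwa [LinearEquiv.symm_apply_eq] at h3
    rw [vec3_eta (k.1 ![1, 0, 0]), uni3_vec, vec3_inj] at h2
    obtain ⟨e1, e2, -⟩ := h2
    have e3 : k.1 ![1, 0, 0] 2 = 0 := by linear_combination e2
    have e4 : k.1 ![1, 0, 0] 1 = 0 := by
      rw [e3, map_one] at e1
      linear_combination -e1
    exact ⟨_, by rw [vec3_eta (k.1 ![1, 0, 0]), e3, e4]⟩
  · rintro ⟨c, hc⟩
    refine inv_mem_iff.mp (mem_normalizer_of_conj_mem fun u hu => ?_)
    rw [mem_stabE] at hu ⊢
    show k.1.symm (u.1 (k.1 _)) = _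
    have e : (![c, 0, 0] : Fin 3 → F) = c • ![1, 0, 0] := by rw [smul_vec3]; simp
    rw [LinearEquiv.symm_apply_eq, hc, e, map_smul, hu]

theorem diag3_pow_vec {c : F} (hc : c ≠ 0) (n : ℕ) (a d : F) :
    (diag3 σ c hc ^ n) ![a, 0, d] = ![c ^ n * a, 0, (σ c)⁻¹ ^ n * d] := by
  induction n with
  | zero => simp
  | succ n ih =>
    rw [pow_succ', LinearEquiv.mul_apply, ih, diag3_vec, vec3_inj]
    refine ⟨by ring, by ring, by ring⟩

theorem diag3_pow_eq_one (h : IsInvol σ) {c : F} (hc : c ≠ 0) {n : ℕ} (hn : c ^ n = 1) :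
    (⟨diag3 σ c hc, diag3_mem_sisom h hc⟩ : sisom (hyp3 σ)) ^ n = 1 := by
  apply Subtype.ext
  show diag3 σ c hc ^ n = 1
  refine eq_one_of_fix3 h (Subgroup.pow_mem _ (diag3_mem_sisom h hc) n) ?_ ?_
  · rw [diag3_pow_vec, hn]; simp
  · rw [diag3_pow_vec, inv_pow, ← map_pow, hn]; simp

theorem exists_R1_SU3 {F : Type*} [Field F] [Fintype F] {p n : ℕ} [hp : Fact p.Prime] (h5 : 5 ≤ p)
    (hF : Fintype.card F = (p ^ n) ^ 2) :
    ∃ (U : Subgroup (sisom (hyp3 (frobQ hF)))) (w g h : sisom (hyp3 (frobQ hF))), R1 p U w g h := by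
  have hF' : Fintype.card F = p ^ (n * 2) := by rw [hF, pow_mul]
  have := H82.charP_of_card hF'
  obtain ⟨h2, h3, h2p⟩ := two_facts (F := F) h5
  obtain ⟨γ, hγ⟩ := IsCyclic.exists_monoid_generator (α := Fˣ)
  have h := isInvol_frobQ hF
  generalize hσ : frobQ hF = σ at h
  have hσ' : ∀ x, σ x = x ^ p ^ n := fun x => by rw [← hσ]; rfl
  have s2 : σ 2 = 2 := map_ofNat σ 2
  have hw : (weyl3 F).symm ![0, 0, 1] = ![1, 0, 0] := by
    rw [LinearEquiv.symm_apply_eq, weyl3_vec]; simp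
  have hw' : weyl3 F ![1, 0, 0] = ![0, 0, 1] := by rw [weyl3_vec]; simp
  have ti : ∀ u ∈ stabE σ, (⟨weyl3 F, weyl3_mem_sisom⟩ : sisom (hyp3 σ))⁻¹ * u *
      ⟨weyl3 F, weyl3_mem_sisom⟩ ∈ normalizer (stabE σ : Set (sisom (hyp3 σ))) → u = 1 := by
    intro u hu ht
    obtain ⟨c, hc⟩ := (mem_normalizer_stabE h).mp ht
    obtain ⟨x, y, hxy, e⟩ := exists_uni3_of_fix h u.2 hu
    have hc' : (weyl3 F).symm (u.1 (weyl3 F ![1, 0, 0])) = ![c, 0, 0] := hc
    rw [LinearEquiv.symm_apply_eq, hw', e, uni3_vec, weyl3_vec, vec3_inj] at hc'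
    apply Subtype.ext
    have e1 : y = 0 := by simpa using hc'.1
    have e2 : x = 0 := by simpa using hc'.2.1
    rw [e, e1, e2, uni3_zero]; rfl
  refine ⟨stabE σ, ⟨weyl3 F, weyl3_mem_sisom⟩, ⟨diag3 σ γ γ.ne_zero, diag3_mem_sisom h _⟩,
    ⟨diag3 σ 2 h2, diag3_mem_sisom h _⟩, ?_, ?_, ?_, ?_, ?_, ?_, ti, ?_, ?_, ?_, ?_, ?_⟩
  · have hP : IsPGroup p (Heis h) :=
      IsPGroup.of_card (n := n * 3) (by rw [Heis.card hF hσ', pow_mul])
    refine (hP.of_surjective _ (Heis.toSisom h).rangeRestrict_surjective).to_le ?_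
    intro u hu
    obtain ⟨x, y, hxy, e⟩ := exists_uni3_of_fix h u.2 hu
    exact ⟨⟨x, y, hxy⟩, Subtype.ext e.symm⟩
  · rw [mem_normalizer_stabE h]
    exact ⟨γ, by show diag3 σ γ γ.ne_zero _ = _; rw [diag3_vec]; simp⟩
  · intro b hb
    obtain ⟨c, hc⟩ := (mem_normalizer_stabE h).mp hb
    have hc0 : c ≠ 0 := by
      rintro rfl
      have : b.1 ![1, 0, 0] = 0 := by rw [hc]; ext i; fin_cases i <;> rfl
      have := congrFun (b.1.map_eq_zero_iff.mp this) 0
      simp at this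
    obtain ⟨m, hm⟩ := hγ (Units.mk0 _ hc0)
    have hm' : (γ : F) ^ m = c := by simpa using congrArg Units.val hm
    refine ⟨m, (⟨diag3 σ γ γ.ne_zero, diag3_mem_sisom h _⟩ ^ m)⁻¹ * b, ?_, by group⟩
    rw [mem_stabE]
    show (diag3 σ γ γ.ne_zero ^ m).symm (b.1 _) = _
    rw [LinearEquiv.symm_apply_eq, hc, diag3_pow_vec, hm']; simp
  · have := diag3_pow_eq_one h γ.ne_zero (n := p ^ (n * 2) - 1) (by
      rw [← hF']; exact FiniteField.pow_card_sub_one_eq_one _ γ.ne_zero)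
    refine Nat.Coprime.coprime_dvd_left (orderOf_dvd_of_pow_eq_one this) ?_
    have h0 := H82.pos_of_card hF'
    have h1 : 1 ≤ p ^ (n * 2) := Nat.one_le_pow _ _ hp.out.pos
    refine Nat.Coprime.coprime_dvd_right (dvd_pow_self p h0.ne') ?_
    rw [← Nat.sub_add_cancel h1, Nat.add_sub_cancel]
    exact Nat.coprime_self_add_right.mpr (Nat.coprime_one_right _)
  · rw [mem_normalizer_stabE h]
    rintro ⟨c, hc⟩
    have hc' : weyl3 F ![1, 0, 0] = ![c, 0, 0] := hc
    rw [hw', vec3_inj] at hc'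
    exact one_ne_zero hc'.2.2
  · intro k hk
    rw [mem_normalizer_stabE h] at hk
    have hv : hyp3 σ (k.1 ![1, 0, 0]) (k.1 ![1, 0, 0]) = 0 := by
      rw [k.2.1, hyp3_vec]; simp
    rcases isotropic3_cases hv with hc | ⟨c, x, y, hc, hxy, e⟩
    · exact absurd hc hk
    refine ⟨_, uni3_mem_stabE h hxy, (⟨uni3 σ x y, uni3_mem_sisom h hxy⟩ *
      ⟨weyl3 F, weyl3_mem_sisom⟩)⁻¹ * k, ?_, by group⟩
    rw [mem_normalizer_stabE h]
    refine ⟨c, ?_⟩
    show (uni3 σ x y * weyl3 F).symm (k.1 _) = _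
    rw [LinearEquiv.symm_apply_eq, e, LinearEquiv.mul_apply, weyl3_vec, uni3_vec, smul_vec3,
      vec3_inj]
    refine ⟨by simp [mul_comm], by simp [mul_comm], by simp⟩
  · rw [mem_normalizer_stabE h]
    exact ⟨2, by show diag3 σ 2 h2 _ = _; rw [diag3_vec]; simp⟩
  · rw [mem_normalizer_stabE h]
    refine ⟨(σ 2)⁻¹, ?_⟩
    show (weyl3 F).symm (diag3 σ 2 h2 (weyl3 F _)) = _
    rw [LinearEquiv.symm_apply_eq, hw', diag3_vec, weyl3_vec]; simp
  · exact diag3_pow_eq_one h h2 h2p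
  · intro u hu ht
    obtain ⟨x, y, hxy, e⟩ := exists_uni3_of_fix h u.2 hu
    have ht' : diag3 σ 2 h2 (u.1 ![0, 0, 1]) = u.1 (diag3 σ 2 h2 ![0, 0, 1]) :=
      congrArg (fun g : sisom (hyp3 σ) => g.1 ![0, 0, 1]) ht
    rw [e, uni3_vec, diag3_vec, diag3_vec, uni3_vec, vec3_inj, s2] at ht'
    obtain ⟨e1, e2, -⟩ := ht'
    field_simp at e1 e2
    have e3 : 3 * y = 0 := by linear_combination e1
    have e4 : x = 0 := by linear_combination e2
    apply Subtype.ext
    rw [e, e4, (mul_eq_zero.mp e3).resolve_left h3, uni3_zero]; rfl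
  · have h21 : (2 : F) ≠ 1 := fun e => one_ne_zero (α := F) (by linear_combination e)
    rcases (isHerm_hyp3 h).normal_le_center_or_eq_top
      (Or.inr ⟨by simp, 2, s2, h2, h21⟩) (normalClosure (stabE σ : Set _)) inferInstance with hc | hc
    · exfalso
      obtain ⟨y, hy⟩ := h.exists_trace_eq (a := -1) (by simp)
      have hxy : y + σ y + 1 * σ 1 = 0 := by rw [hy]; simp
      have hu := uni3_mem_stabE h hxy
      have h1 := ti _ hu (by
        rw [mul_assoc, ← mem_center_iff.mp (hc (subset_normalClosure hu)), inv_mul_cancel_left]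
        exact le_normalizer hu)
      have h4 : uni3 σ 1 y ![0, 0, 1] = ![0, 0, 1] := by
        rw [show uni3 σ 1 y = 1 from congrArg Subtype.val h1]; rfl
      rw [uni3_vec, vec3_inj] at h4
      simpa using h4.2.1
    · exact hc

end SU3

end Cfsg.Agent.H86
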