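import Mathlib
import Cfsg.Agent.H58.SWDefs

/-! Project SW, piece UNIQU. -/

set_option autoImplicit false
set_option linter.unusedVariables false
open Matrix Cfsg
open scoped commutatorElement

namespace Cfsg.Agent.H86.SwUniqU
open Cfsg.Agent.H58.SW

theorem fixS {F : Type} [Field F] [Fintype F] [DecidableEq F] {n : ℕ} (c : Cl F n) (ka : KA c)
    (ki : KI c) (ψ : Au n F) (h : ∀ s ∈ c.S, ψ s * s⁻¹ ∈ c.Z) : ∀ s ∈ c.S, ψ s = s := by
  have hle : ⁅c.S, c.S⁆ ≤ (ψ.toMonoidHom).eqLocus (MonoidHom.id _) := by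
    rw [Subgroup.commutator_le]
    intro a ha b hb
    change ψ ⁅a, b⁆ = ⁅a, b⁆
    have hza := ka.zcomm _ (h a ha)
    have hzb := ka.zcomm _ (h b hb)
    set za := ψ a * a⁻¹ with hzad
    set zb := ψ b * b⁻¹ with hzbd
    have ea : ψ a = za * a := by rw [hzad]; group
    have eb : ψ b = zb * b := by rw [hzbd]; group
    rw [map_commutatorElement, ea, eb, commutatorElement_def, commutatorElement_def]
    have e1 : za * a * (zb * b) = a * b * (zb * za) := by
      calc za * a * (zb * b) = za * (a * (zb * b)) := by group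
        _ = (a * (zb * b)) * za := (hza _).eq
        _ = a * (b * zb) * za := by rw [(hzb b).eq]
        _ = a * b * (zb * za) := by group
    have e2 : zb * b * (za * a) = (zb * za) * (b * a) := by
      calc zb * b * (za * a) = zb * (b * za) * a := by group
        _ = zb * (za * b) * a := by rw [(hza b).eq]
        _ = (zb * za) * (b * a) := by group
    calc za * a * (zb * b) * (za * a)⁻¹ * (zb * b)⁻¹
        = za * a * (zb * b) * (zb * b * (za * a))⁻¹ := by group
      _ = a * b * (zb * za) * ((zb * za) * (b * a))⁻¹ := by rw [e1, e2]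
      _ = a * b * ((zb * za) * (b * a)⁻¹) * (zb * za)⁻¹ := by group
      _ = a * b * ((b * a)⁻¹ * (zb * za)) * (zb * za)⁻¹ := by
          rw [((hzb _).mul_left (hza _)).eq]
      _ = a * b * a⁻¹ * b⁻¹ := by group
  intro s hs
  exact hle (ki.perf hs)

theorem ex_vw {F : Type} [Field F] [Fintype F] [DecidableEq F] {n : ℕ} (c : Cl F n) (ka : KA c)
    (hu : c.u = true) (y : Vc n F) (hy : y ≠ 0) :
    ∃ v w : Vc n F, c.hf v y = 0 ∧ c.hf y w = 0 ∧ c.hf v w ≠ 0 := by
  have hn : 3 ≤ n := by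
    have h1 := c.hn
    by_contra h
    have h2 : n = 2 := by omega
    have := (c.hn2 h2).1
    rw [hu] at this
    exact absurd this (by decide)
  have hq : c.q ≠ 0 := by have := ka.two_le; omega
  obtain ⟨x, hx⟩ : ∃ x, c.hf x y ≠ 0 := by
    by_contra h
    push Not at h
    exact hy (ka.hf_nd y h)
  let f : Vc n F →ₗ[F] F × F :=
    { toFun := fun v => (c.hf v y, c.hf v x)
      map_add' := by intro v v'; simp [ka.hf_add]
      map_smul' := by intro a v; simp [ka.hf_smul] }
  have hk : LinearMap.ker f ≠ ⊥ := by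
    apply LinearMap.ker_ne_bot_of_finrank_lt
    simp
    omega
  obtain ⟨w, hw, hw0⟩ := Submodule.exists_mem_ne_zero_of_ne_bot hk
  have hw' : (c.hf w y, c.hf w x) = (0, 0) := hw
  have hwy : c.hf w y = 0 := (Prod.mk.inj hw').1
  have hwx : c.hf w x = 0 := (Prod.mk.inj hw').2
  obtain ⟨u0, hu0⟩ : ∃ u0, c.hf u0 w ≠ 0 := by
    by_contra h
    push Not at h
    exact hw0 (ka.hf_nd w h)
  refine ⟨u0 + (-(c.hf u0 y / c.hf x y)) • x, w, ?_, ?_, ?_⟩
  · rw [ka.hf_add, ka.hf_smul]
    field_simp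
    ring
  · rw [ka.hf_symm hu, hwy, zero_pow hq]
  · rw [ka.hf_add, ka.hf_smul, ka.hf_symm hu w x, hwx, zero_pow hq, mul_zero, add_zero]
    exact hu0

theorem uniqU (hKA : KAStmt) (hKT : KTStmt) (hKV : KVStmt) (hKW : KWStmt) (hI : IrrStmt) :
    UniqUStmt := by
  intro F _ _ _ n c hu t ψ hind h
  have ka := hKA F n c
  have kt := hKT F n c
  have kv := hKV F n c
  have kw := hKW F n c
  have ki := hI F n c
  have hq : c.q ≠ 0 := by have := ka.two_le; omega
  have hneg : t.neg = false := by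
    cases hb : t.neg
    · rfl
    · have := (hind.2.1 hb).1
      rw [hu] at this
      exact absurd this (by decide)
  have hfix := fixS c ka ki ψ h
  have hap : ∀ s ∈ c.S, t.ap (s : Mt n F) = (s : Mt n F) := by
    intro s hs
    have := hind.2.2 s
    rw [hfix s hs, hneg] at this
    simpa using this.symm
  -- an isotropic vector
  obtain ⟨y, hy0, -, hyy⟩ := kw.iso hu 1 ka.st_one (by simp) (by rw [Matrix.rank_one]; simpa using c.hn)
  obtain ⟨a, ha, ha0⟩ : ∃ a : F, a ^ c.q = -a ∧ a ≠ 0 := by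
    by_contra hc
    push Not at hc
    have h1 := ka.tz hu
    have h2 := ka.two_le
    have : Subsingleton {a : F // a ^ c.q = -a} :=
      ⟨fun a b => Subtype.ext ((hc _ a.2).trans (hc _ b.2).symm)⟩
    have h3 := Finite.card_le_one_iff_subsingleton.2 this
    omega
  obtain ⟨k, hk⟩ : ∃ k : F, t.av y = k • y := by
    obtain ⟨g, hg, -, hge⟩ := kv.tvU hu y a hyy ha
    have h1 := hap g hg
    rw [hge, kt.add, kt.one, kt.smul, kt.stv t ψ hind hu] at h1
    have h2 := add_left_cancel h1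
    obtain ⟨x, hx⟩ : ∃ x, c.hf x y ≠ 0 := by
      by_contra h
      push Not at h
      exact hy0 (ka.hf_nd y h)
    have h3 := congrArg (fun m : Mt n F => m *ᵥ x) h2
    simp only [Matrix.smul_mulVec, ka.vec_ap, smul_smul] at h3
    have h4 : t.σ a * c.hf x (t.av y) ≠ 0 := by
      intro h0
      rw [h0, zero_smul] at h3
      rcases smul_eq_zero.1 h3.symm with h5 | h5
      · exact (mul_ne_zero ha0 hx) h5
      · exact hy0 h5
    refine ⟨(t.σ a * c.hf x (t.av y))⁻¹ * (a * c.hf x y), ?_⟩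
    rw [← smul_smul, ← h3, smul_smul, inv_mul_cancel₀ h4, one_smul]
  obtain ⟨v, w, hvy, hyw, hvw⟩ := ex_vw c ka hu y hy0
  obtain ⟨θ0, hθ0⟩ := ka.th hu
  have key : ∀ l : F, t.σ l ^ c.q * (c.hf v (t.av w) * k) = l ^ c.q * c.hf v w := by
    intro l
    have hh : c.hf (l • w) (l • w) ^ c.q = c.hf (l • w) (l • w) := (ka.hf_symm hu _ _).symm
    obtain ⟨g, hg, -, hge⟩ := kv.eich hu y (l • w) (θ0 * c.hf (l • w) (l • w)) hyy
      (by rw [ka.hf_smul', hyw, mul_zero])
      (by rw [mul_pow, hh, ← add_mul, hθ0, one_mul])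
    have h1 := hap g hg
    rw [hge, kt.sub, kt.sub, kt.add, kt.one, kt.smul, kt.stv t ψ hind hu, kt.stv t ψ hind hu,
      kt.stv t ψ hind hu] at h1
    have h3 := congrArg (fun m : Mt n F => m *ᵥ v) h1
    have hvk : c.hf v (t.av y) = 0 := by rw [hk, ka.hf_smul', hvy, mul_zero]
    simp only [Matrix.sub_mulVec, Matrix.add_mulVec, Matrix.smul_mulVec, ka.vec_ap, hvk, hvy,
      zero_smul, smul_zero, sub_zero, add_right_inj] at h3
    rw [kt.av_smul, ka.hf_smul', ka.hf_smul', hk, smul_smul] at h3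
    have h4 := smul_left_injective F hy0 h3
    rw [← h4]
    ring
  have hσ : t.σ = 1 := by
    have h1 := key 1
    rw [map_one, one_pow, one_mul, one_mul] at h1
    ext l
    have h2 := key l
    rw [h1] at h2
    have h3 := mul_right_cancel₀ hvw h2
    have h4 := congrArg (fun z : F => z ^ c.q) h3
    simp only [ka.fr_fr hu] at h4
    simpa using h4
  refine ⟨?_, hneg, hσ⟩
  have hψ := kt.inner t ψ hind hneg hσ
  obtain ⟨b, hb⟩ := ki.cs (t.A : Mt n F) (by
    intro s hs
    have h1 := hfix s hs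
    rw [hψ, MulAut.conj_apply] at h1
    have h2 : t.A * s = s * t.A := by rw [← mul_inv_eq_iff_eq_mul]; exact h1
    have h3 := congrArg (fun g : Gl n F => (g : Mt n F)) h2
    simp only [Units.val_mul] at h3
    exact h3)
  rw [hψ]
  ext1 x
  rw [MulAut.conj_apply, MulAut.one_apply, mul_inv_eq_iff_eq_mul]
  apply Units.ext
  simp [hb]

end Cfsg.Agent.H86.SwUniqU
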