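import Cfsg.Agent.H6.TIDefs

/-! The cliques are lines when `q = 2 < h`. -/

set_option autoImplicit false

namespace Cfsg.Agent.H86.TG

open Cfsg Subgroup Cfsg.Agent.H6.TI
open Cfsg.Agent.H83 (cj cj_mul cj_one cj_eq_self cj_eq_self_iff)
open scoped Cfsg.Agent.H63 commutatorElement Pointwise

universe u

theorem six {V : Type*} [CommGroup V] (two : ∀ v : V, v * v = 1) (f g : V →* V)
    (ff : ∀ v, f (f v) = 1) (gg : ∀ v, g (g v) = 1) (fg : ∀ v, f (g v) * g (f v) = v)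
    (four : ∀ x u w : V, f x = 1 → f u = 1 → f w = 1 → x ≠ 1 → u ≠ 1 → x ≠ u →
      w = 1 ∨ w = x ∨ w = u ∨ w = x * u) {z v : V}
    (h : ∀ t, t = z ∨ t = v ∨ t = v * z → f t ≠ 1 ∧ g t ≠ 1 ∧ g (f t * t) ≠ 1) :
    (v = f (g z * z) * (g z * z) ∧ v * z = g (f z * z) * (f z * z)) ∨
      (v = g (f z * z) * (f z * z) ∧ v * z = f (g z * z) * (g z * z)) := by
  have two' : ∀ v w : V, v * (v * w) = w := fun v w => by rw [← mul_assoc, two, one_mul]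
  have gf : ∀ t, g (f (g t)) = g t := fun t => by simpa [gg] using fg (g t)
  have k : ∀ t, t = z ∨ t = v ∨ t = v * z → f t ≠ 1 ∧ f (g t) ≠ 1 ∧ f (g t) ≠ f t := fun t ht =>
    ⟨(h t ht).1, fun e => (h t ht).2.1 (by rw [← gf, e, map_one]),
      fun e => (h t ht).2.2 (by rw [map_mul, ← e, gf, two])⟩
  obtain ⟨a1, a2, a3⟩ := k z (Or.inl rfl)
  obtain ⟨b1, b2, b3⟩ := k v (Or.inr (Or.inl rfl))
  obtain ⟨c1, c2, c3⟩ := k _ (Or.inr (Or.inr rfl))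
  simp only [map_mul] at c1 c2 c3
  have e1 : f (g z * z) * (g z * z) = f z * g (f (g z) * f z) := by
    nth_rewrite 4 [← fg z]
    simp [gf, mul_comm, mul_left_comm, two']
  have e2 : g (f z * z) * (f z * z) = f (g z) * f z * g (f (g z)) := by
    nth_rewrite 4 [← fg z]
    simp [gf, mul_comm, mul_left_comm, two]
  have e3 : f (g z * z) * (g z * z) * z = g (f z * z) * (f z * z) := by
    rw [e1, e2]
    nth_rewrite 4 [← fg z]
    simp [gf, mul_comm, mul_left_comm, two]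
  rcases four _ _ _ (ff _) (ff _) (ff (g v)) a2 a1 a3 with e | e | e | e
  · exact absurd e b2
  · exact absurd (e ▸ two _) c2
  · rcases four _ _ _ (ff _) (ff _) (ff v) a2 a1 a3 with e' | e' | e' | e'
    · exact absurd e' b1
    · exact absurd (by rw [e, e', mul_comm]) c3
    · exact absurd (e' ▸ two _) c1
    · have : v = f (g z * z) * (g z * z) := by rw [e1, ← e', ← e, fg]
      exact Or.inl ⟨this, this ▸ e3⟩
  · rcases four _ _ _ (ff _) (ff _) (ff v) a2 a1 a3 with e' | e' | e' | e'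
    · exact absurd e' b1
    · have : v = g (f z * z) * (f z * z) := by rw [e2, ← e, ← e', fg]
      exact Or.inr ⟨this, by rw [this, ← e3, mul_assoc, two, mul_one]⟩
    · exact absurd (e' ▸ two _) c1
    · exact absurd (e.trans e'.symm) b3

variable {G : Type u} [Group G] [Finite G] {Ω : Set (Subgroup G)}

theorem four_grp {K : Subgroup G} (h4 : Nat.card K = 4) (sq : ∀ x ∈ K, x * x = 1) {x u w : G}
    (hx : x ∈ K) (hu : u ∈ K) (hw : w ∈ K) (x1 : x ≠ 1) (u1 : u ≠ 1) (ne : x ≠ u) :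
    w = 1 ∨ w = x ∨ w = u ∨ w = x * u := by
  have : ({1, x, u, x * u} : Set G) = K := Set.eq_of_subset_of_ncard_le (by
    rintro _ (rfl | rfl | rfl | rfl)
    exacts [one_mem _, hx, hu, mul_mem hx hu]) (by
      rw [← Nat.card_coe_set_eq, SetLike.coe_sort_coe, h4]
      refine (Set.ncard_eq_four.2 ⟨_, _, _, _, x1.symm, u1.symm, fun e => ne ?_, ne, ?_, ?_, rfl⟩).ge
      · rw [eq_inv_of_mul_eq_one_left e.symm, inv_eq_of_mul_eq_one_right (sq u hu)]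
      · simpa using u1
      · simpa using x1)
  exact this.ge hw

theorem six_ed (h : C0 Ω) {A B : Subgroup G} (e : Ed Ω A B) {a b z v : G} (ha : a ∈ A)
    (ha' : a ∉ ax A B) (hb : b ∈ B) (h3 : cj b A = cj a B) (h4 : hh A B = 4) (hz : z ∈ vv A B)
    (hv : v ∈ vv A B) (k : ∀ t, t = z ∨ t = v ∨ t = v * z →
      ¬ Commute a t ∧ ¬ Commute b t ∧ ¬ Commute b (a * t * a⁻¹)) :
    (v = a * b * z * (a * b)⁻¹ ∧ v * z = (a * b)⁻¹ * z * (a * b)) ∨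
      (v = (a * b)⁻¹ * z * (a * b) ∧ v * z = a * b * z * (a * b)⁻¹) := by
  have e' := h.ba.symm e
  let _ : CommGroup (vv A B) :=
    { (inferInstance : Group _) with mul_comm := fun x y => Subtype.ext (h.ba.vcomm e _ x.2 _ y.2) }
  let f : vv A B →* vv A B := MonoidHom.mk' (fun v => ⟨⁅a, v.1⁆, mem_sup_left (h.ba.brk e a ha _ v.2)⟩)
    fun v w => Subtype.ext (h.ba.phi_mul e a ha _ v.2 _ w.2)
  let g : vv A B →* vv A B := MonoidHom.mk'
    (fun v => ⟨⁅b, v.1⁆, mem_sup_right (h.ba.brk e' b hb _ (vv_comm A B ▸ v.2))⟩)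
    fun v w => Subtype.ext (h.ba.phi_mul e' b hb _ (vv_comm A B ▸ v.2) _ (vv_comm A B ▸ w.2))
  have f1 : ∀ v : vv A B, f v = 1 ↔ Commute a v := fun v =>
    Subtype.ext_iff.trans commutatorElement_eq_one_iff_commute
  have g1 : ∀ v : vv A B, g v = 1 ↔ Commute b v := fun v =>
    Subtype.ext_iff.trans commutatorElement_eq_one_iff_commute
  have fc : ∀ v : vv A B, (f v * v).1 = a * v * a⁻¹ := fun v => inv_mul_cancel_right _ _
  have gc : ∀ v : vv A B, (g v * v).1 = b * v * b⁻¹ := fun v => inv_mul_cancel_right _ _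
  have t3 := fun j hj => ((h.bb.three e a ha ha' b hb h3).2 j hj).1
  have mA : ∀ x : vv A B, f x = 1 → x.1 ∈ ax A B := fun x hx => h.ba.vinf e ▸ mem_inf.2 ⟨x.2, by
    by_contra n
    exact ha' ((h.ba.cA e a ha _ x.2 n).1 ((f1 x).1 hx))⟩
  have := six (fun v => Subtype.ext (h.ba.vsq e _ v.2)) f g
    (fun v => (f1 _).2 (h.ba.mul_comm A e.l a ha _ (h.ba.brk e a ha _ v.2).1))
    (fun v => (g1 _).2 (h.ba.mul_comm B e.r b hb _ (h.ba.brk e' b hb _ (vv_comm A B ▸ v.2)).1))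
    (fun v => by
      obtain ⟨i, hi, j, hj, e1⟩ := (h.ba.vmem e _).1 v.2
      obtain ⟨j0, ⟨hj0, rfl⟩, -⟩ := h.ba.phi e a ha ha' i hi
      have m1 : ⁅a, j0⁆ ∈ vv A B := mem_sup_left hi
      have m2 : j ∈ vv A B := mem_sup_right hj
      obtain rfl : v = ⟨_, m1⟩ * ⟨j, m2⟩ := Subtype.ext e1
      rw [map_mul g, map_mul f ⟨_, m1⟩, (g1 ⟨j, m2⟩).2 (h.ba.mul_comm B e.r b hb j hj.1),
        (f1 ⟨_, m1⟩).2 (h.ba.mul_comm A e.l a ha _ hi.1), mul_one, one_mul]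
      exact Subtype.ext (congrArg₂ (· * ·) (congrArg (⁅a, ·⁆) (t3 j0 hj0)) (t3 j hj)))
    (fun x u w hx hu hw x1 u1 ne => by
      simpa only [Subtype.ext_iff, coe_mul, coe_one] using four_grp h4
        (fun x hx => h.sq A e.l x hx.1) (mA x hx) (mA u hu) (mA w hw) (fun c => x1 (Subtype.ext c))
        (fun c => u1 (Subtype.ext c)) fun c => ne (Subtype.ext c))
    (z := ⟨z, hz⟩) (v := ⟨v, hv⟩) fun t ht => by
      rw [Ne, Ne, Ne, f1, g1, g1, fc]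
      exact k t (by simpa only [Subtype.ext_iff, coe_mul] using ht)
  simp only [Subtype.ext_iff, fc, gc] at this
  have ai := inv_eq_of_mul_eq_one_right (h.sq A e.l a ha)
  have bi := inv_eq_of_mul_eq_one_right (h.sq B e.r b hb)
  simpa only [mul_inv_rev, ai, bi, mul_assoc, coe_mul] using this

omit [Finite G] in
theorem comm_of_br {a x y : G} (e : ⁅a, y⁆ = ⁅a, x⁆) (c : Commute ⁅a, x⁆ x)
    (s : ⁅a, x⁆ * ⁅a, x⁆ = 1) : Commute a (x * y) := mul_inv_eq_iff_eq_mul.1 <|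
  calc a * (x * y) * a⁻¹ = ⁅a, x⁆ * x * ⁅a, y⁆ * y := by simp [commutatorElement_def, mul_assoc]
    _ = _ := by rw [e, c.eq, mul_assoc x, s, mul_one]

omit [Finite G] in
theorem dec (h : C0 Ω) {A P Q : Subgroup G} (e1 : Ed Ω A P) (e2 : Ed Ω A Q) (e3 : Ed Ω P Q)
    (a1 : ax A Q = ax A P) (a2 : ax P Q = ax P A) (a3 : ax Q P = ax Q A) {a p j : G} (ha : a ∈ A)
    (ha' : a ∉ ax A P) (hp : p ∈ P) (hp' : p ∉ ax P A) (hj : j ∈ ax Q A) :
    ∃ v ∈ vv A P, Commute a (j * v) ∧ Commute p (j * v) := by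
  have b1 := h.ba.brk e2 a ha j (mem_sup_right hj)
  obtain ⟨j1, ⟨h1, h2⟩, -⟩ := h.ba.phi e1 a ha ha' _ (a1 ▸ b1)
  have m : j * j1 ∈ vv P Q := mul_mem (mem_sup_right (a3 ▸ hj)) (mem_sup_left (a2 ▸ h1))
  have b2 := h.ba.brk e3 p hp _ m
  obtain ⟨i, ⟨h3, h4⟩, -⟩ := h.ba.phi (h.ba.symm e1) p hp hp' _ (a2 ▸ b2)
  refine ⟨j1 * i, mul_mem (mem_sup_right h1) (mem_sup_left h3), ?_⟩
  rw [← mul_assoc]
  exact ⟨(comm_of_br h2 (h.ba.comm A e2.l Q e2.r e2.ne _ b1 j hj)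
    (h.sq A e1.l _ b1.1)).mul_right (h.ba.mul_comm A e1.l a ha i h3.1),
    comm_of_br h4 (h.ba.vcomm e3 _ (mem_sup_left b2) _ m) (h.sq P e1.r _ b2.1)⟩

omit [Finite G] in
theorem cos2 {A B : Subgroup G} (q : qq A B = 2) {a x : G} (ha : a ∈ A) (ha' : a ∉ ax A B)
    (hx : x ∈ A) : x ∈ ax A B ∨ x * a ∈ ax A B :=
  or_iff_not_imp_left.2 fun n => (mul_mem_iff_of_index_two q (a := ⟨x, hx⟩) (b := ⟨a, ha⟩)).2
    (iff_of_false n ha')

omit [Finite G] in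
theorem cen2 {A B : Subgroup G} (q : qq A B = 2) {a w : G} (ha : a ∈ A) (ha' : a ∉ ax A B)
    (h1 : ∀ x ∈ ax A B, Commute x w) (h2 : Commute a w) : w ∈ C[A] := fun x hx =>
  (cos2 q ha ha' hx).elim (h1 x) fun c => by
    simpa only [mul_inv_cancel_right] using ((h1 _ c).mul_left h2.inv_left).eq

omit [Finite G] in
theorem orb2 (h : C0 Ω) {A P Q : Subgroup G} (hA : A ∈ Ω) (q : qq A P = 2) {a : G} (ha : a ∈ A)
    (ha' : a ∉ ax A P) (o : Orb A P Q) : Q = P ∨ Q = cj a P := by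
  obtain ⟨x, hx, rfl⟩ := o
  refine (cos2 q ha ha' hx).imp (fun c => cj_eq_self c.2) fun c => ?_
  nth_rewrite 2 [← cj_eq_self c.2]
  rw [← cj_mul, h.ba.mul_comm A hA x hx a ha, ← mul_assoc, h.sq A hA a ha, one_mul]

theorem ex_out (h : C0 Ω) {A B : Subgroup G} (e : Ed Ω A B) : ∃ a ∈ A, a ∉ ax A B :=
  SetLike.not_le_iff_exists.1 fun c => e.ne (h.wc A e.l B e.r (c.trans ax_le_norm))

omit [Finite G] in
theorem vv_norm {A B : Subgroup G} {g v : G} (h1 : g ∈ N[A]) (h2 : g ∈ N[B]) (hv : v ∈ vv A B) :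
    g * v * g⁻¹ ∈ vv A B := by
  have := H83.conj_mem_cj (g := g) hv
  rwa [← vv_cj, cj_eq_self h1, cj_eq_self h2] at this

omit [Finite G] in
theorem ax_norm {A B : Subgroup G} {g : G} (h1 : g ∈ N[A]) (h2 : g ∈ N[B]) : g ∈ N[ax A B] := by
  rw [← cj_eq_self_iff, ← ax_cj, cj_eq_self h1, cj_eq_self h2]

omit [Finite G] in
theorem vv_vv (h : C0 Ω) {A P Q : Subgroup G} (e1 : Ed Ω A P) (e2 : Ed Ω A Q) (e3 : Ed Ω P Q)
    (a1 : ax A Q = ax A P) (a2 : ax P Q = ax P A) (a3 : ax Q P = ax Q A) {v w : G}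
    (hv : v ∈ vv A P) (hw : w ∈ vv A Q) : Commute v w := by
  obtain ⟨i, hi, j, hj, rfl⟩ := (h.ba.vmem e1 _).1 hv
  refine Commute.mul_left (h.ba.vcomm e2 _ (mem_sup_left (a1 ▸ hi)) _ hw) ?_
  obtain ⟨i', hi', j', hj', rfl⟩ := (h.ba.vmem e2 _).1 hw
  exact Commute.mul_right (h.ba.comm A e1.l P e1.r e1.ne _ (a1 ▸ hi') _ hj).symm
    (h.ba.comm P e3.l Q e3.r e3.ne _ (a2 ▸ hj) _ (a3 ▸ hj'))

omit [Finite G] in
theorem br_mul {u v y : G} (c : Commute u ⁅v, y⁆) : ⁅u * v, y⁆ = ⁅v, y⁆ * ⁅u, y⁆ :=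
  calc _ = u * ⁅v, y⁆ * (u⁻¹ * ⁅u, y⁆) := by simp [commutatorElement_def, mul_assoc]
    _ = _ := by rw [c.eq, mul_assoc, mul_inv_cancel_left]

omit [Finite G] in
theorem br_mem {H : Subgroup G} {x y : G} (hx : x ∈ H) (h : y * x⁻¹ * y⁻¹ ∈ H) : ⁅x, y⁆ ∈ H := by
  simpa only [commutatorElement_def, mul_assoc] using mul_mem hx h

theorem stepA (h : C0 Ω) {A P Q B : Subgroup G} (m1 : Mn Ω A P) (m2 : Mn Ω A Q)
    (ea : ax A P = ax A Q) (e3 : Ed Ω P Q) (m' : Mn Ω A B) (q : qq A P = 2) (lt : 2 < hh A P)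
    {a y : G} (ha : a ∈ A) (ha' : a ∉ ax A P) (hy : y ∈ ax B A) (yP : y ∈ N[P])
    (yQ : y * a ∈ N[Q]) (b1 : ∀ x ∈ A, ⁅x, y⁆ ∈ ax A P) (i1 : C1[y].relIndex (ax A P) = 2) :
    hh A P = 4 ∧ ∃ z ∈ ax P A, z ≠ 1 ∧ z ∈ vv A Q := by
  have e1 := m1.toEd
  have e2 := m2.toEd
  have e1' := h.ba.symm e1
  have a2 := (h.l6.pp m1 m2 ea e3).1
  have a3 := (h.l6.pp m2 m1 ea.symm (h.ba.symm e3)).1
  have cc := fun v w => vv_vv h e1 e2 e3 ea.symm a2 a3 (v := v) (w := w)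
  obtain ⟨p, hp, hp'⟩ := ex_out h e1'
  have yA : y ∈ N[A] := hy.2
  have ci : ∀ x ∈ ax A P, ∀ y ∈ ax A P, x * y = y * x := fun x hx y hy =>
    h.ba.mul_comm A e1.l x hx.1 y hy.1
  have cj' : ∀ x ∈ ax P A, ∀ y ∈ ax P A, x * y = y * x := fun x hx y hy =>
    h.ba.mul_comm P e1.r x hx.1 y hy.1
  have k1 : Nat.card (br (ax A P) y) = 2 := (h.ba.card_br _ y ci (ax_norm yA yP)).trans i1
  have k2 : Nat.card (br (ax P A) y) = 2 := (h.bb.eqv e1 y yA yP b1).2.2.trans k1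
  have n2 : ∀ j ∈ vv A Q, y * j * y⁻¹ ∈ vv A Q := fun j hj => by
    have := vv_norm (mul_mem yA (le_normalizer ha)) yQ
      (H83.conj_mem' (h.ba.vnorm e2) (mem_sup_left ha) hj)
    simpa [mul_assoc] using this
  have sub : (fun j => ⁅j, y⁆) '' (ax Q A : Set G) ⊆
      (br (ax P A) y : Set G) * (br (ax A P) y : Set G) := by
    rintro _ ⟨j, hj, rfl⟩
    have hj' : j ∈ vv A Q := mem_sup_right hj
    obtain ⟨v, hv, c1, c2⟩ := dec h e1 e2 e3 ea.symm a2 a3 ha ha' hp hp' hj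
    have cw : ∀ x ∈ vv A P, Commute x (j * v) := fun x hx =>
      (cc _ _ hx hj').mul_right (h.ba.vcomm e1 _ hx _ hv)
    have cw' : ∀ x ∈ vv A Q, Commute x (j * v) := fun x hx =>
      Commute.mul_right (h.ba.vcomm e2 _ hx _ hj') (cc _ _ hv hx).symm
    have wA := cen2 q ha ha' (fun x hx => cw x (mem_sup_left hx)) c1
    have wP := cen2 ((h.ba.card e1).2 ▸ q) hp hp' (fun x hx => cw x (mem_sup_right hx)) c2
    have w2 : j * v * (j * v) = 1 := by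
      rw [← (cc _ _ hv hj').eq, mul_assoc, (cc _ _ hv hj').eq, ← mul_assoc j, h.ba.vsq e2 j hj',
        one_mul, h.ba.vsq e1 v hv]
    have sp : y * (j * v) * y⁻¹ = y * j * y⁻¹ * (y * v * y⁻¹) := by simp [mul_assoc]
    have k := h.l6.cw m' y hy _ wA w2 (by
      rw [sp]
      exact ((cw' _ (n2 j hj')).mul_left (cw _ (vv_norm yA yP hv))).symm)
    have k0 : ⁅j * v, y⁆ = 1 := by
      by_contra n
      exact hp' ⟨hp, h.ba.cent A e1.l _ k.1 n p (mem_centralizer_iff.1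
        (br_mem wP (H83.conj_mem (H83.le_norm_cent le_rfl) yP (inv_mem wP))) p hp)⟩
    have bv : ∀ x ∈ vv A P, ⁅x, y⁆ ∈ vv A P := fun x hx => br_mem hx (vv_norm yA yP (inv_mem hx))
    rw [br_mul (cc _ _ (bv v hv) hj').symm, mul_eq_one_iff_inv_eq,
      inv_eq_of_mul_eq_one_right (h.ba.vsq e1 _ (bv v hv))] at k0
    obtain ⟨i, hi, j1, hj1, rfl⟩ := (h.ba.vmem e1 _).1 hv
    exact ⟨_, (h.ba.mem_br _ y _ cj' (ax_norm yP yA)).2 ⟨j1, hj1, rfl⟩, _,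
      (h.ba.mem_br _ y _ ci (ax_norm yA yP)).2 ⟨i, hi, rfl⟩, (br_mul
        (h.ba.vcomm e1 _ (mem_sup_left hi) _ (bv _ (mem_sup_right hj1)))).symm.trans k0⟩
  have inj : Set.InjOn (fun j => ⁅j, y⁆) (ax Q A : Set G) := fun j hj j' hj' e => by
    by_contra n
    refine ha' (ea ▸ ⟨ha, ?_⟩)
    have := h.ba.cent Q e2.r _ (mul_mem (inv_mem hj'.1) hj.1) (fun c => n (inv_mul_eq_one.1 c).symm)
      y (by
        have e : j * y * j⁻¹ = j' * y * j'⁻¹ := mul_right_cancel e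
        calc y * (j'⁻¹ * j) = j'⁻¹ * (j' * y * j'⁻¹) * j := by simp [mul_assoc]
          _ = _ := by rw [← e]; simp [mul_assoc])
    simpa using mul_mem (inv_mem this) yQ
  have c1 : ((fun j => ⁅j, y⁆) '' (ax Q A : Set G)).ncard = hh A P := by
    rw [inj.ncard_image, hh, ea]
    exact (h.ba.card e2).1.symm
  have c2 : ((br (ax P A) y : Set G) * (br (ax A P) y : Set G)).ncard ≤ 4 :=
    Set.natCard_mul_le.trans (by simp only [SetLike.coe_sort_coe, k1, k2, le_refl])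
  have h4 : hh A P = 4 := by
    have := (c1 ▸ Set.ncard_le_ncard sub).trans c2
    obtain ⟨k, hk⟩ := (h.ba.hq e1).2.2.2.1
    have : hh A P ≠ 3 := fun c => by
      rcases k with _ | k <;> omega
    omega
  obtain ⟨⟨z, hz⟩, z1⟩ := ne_bot_iff_exists_ne_one.1
    ((one_lt_card_iff_ne_bot _).1 (k2 ▸ one_lt_two : 1 < Nat.card (br (ax P A) y)))
  obtain ⟨j, hj, e⟩ := (Set.eq_of_subset_of_ncard_le sub (by omega)).ge
    ⟨z, hz, 1, one_mem _, mul_one z⟩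
  obtain ⟨j1, hj1, e'⟩ := (h.ba.mem_br _ y _ cj' (ax_norm yP yA)).1 hz
  exact ⟨h4, z, e' ▸ br_mem hj1 (H83.conj_mem le_rfl (ax_norm yP yA) (inv_mem hj1)),
    fun c => z1 (Subtype.ext c), e ▸ br_mem (mem_sup_right hj) (n2 _ (mem_sup_right (inv_mem hj)))⟩

theorem stepB (h : C0 Ω) {A P Q : Subgroup G} (m1 : Mn Ω A P) (m2 : Mn Ω A Q)
    (ea : ax A P = ax A Q) (e3 : Ed Ω P Q) {a z : G} (ha : a ∈ A) (ha' : a ∉ ax A P)
    (l1 : ∀ R, OnL A P R → R = A ∨ R = P ∨ R = cj a P)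
    (l2 : ∀ R, OnL A Q R → R = A ∨ R = Q ∨ R = cj a Q) (h4 : hh A P = 4) (hz : z ∈ ax P A)
    (z1 : z ≠ 1) (zv : z ∈ vv A Q) : Q = cj a P := by
  by_contra ne
  have e1 := m1.toEd
  have e2 := m2.toEd
  have aA : a ∈ N[A] := le_normalizer ha
  have aa := h.sq A e1.l a ha
  have ai := inv_eq_of_mul_eq_one_right aa
  have a2 := (h.l6.pp m1 m2 ea e3).1
  have a3 := (h.l6.pp m2 m1 ea.symm (h.ba.symm e3)).1
  obtain ⟨b, hb, hb'⟩ := ex_out h (h.ba.symm e2)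
  have n0 : b ∉ N[A] := fun c => hb' ⟨hb, c⟩
  have n1 : b ∉ N[P] := fun c => hb' (a3 ▸ ⟨hb, c⟩)
  have n2 : b ∉ N[cj a P] := fun c => by
    have m3 := m1.cjN h.toTI aA
    have c' : b ∈ ax Q (cj a P) := ⟨hb, c⟩
    refine hb' ((h.l6.pp m2 m3 ?_ ⟨e2.r, m3.r, ne, fun e => ?_⟩).1 ▸ c')
    · rw [(ax_cjN aA P).1, ← ea, cj_eq_self]
      exact H83.le_norm_of_le_cent (H := A) (A := ax A P)
        (fun x hx y hy => h.ba.mul_comm A e1.l y hy.1 x hx) ha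
    · exact n0 ((e ▸ c' : b ∈ ⊥) ▸ one_mem _)
  have n3 : a ∉ N[P] := fun c => ha' ⟨ha, c⟩
  obtain ⟨j, hj, j1, jz⟩ : ∃ j ∈ ax P A, j ≠ 1 ∧ j ≠ z := by
    by_contra! c
    have : (ax P A : Set G) ⊆ {1, z} := fun j hj => or_iff_not_imp_left.2 (c j hj)
    have := (Set.ncard_le_ncard this).trans (Set.ncard_pair z1.symm).le
    have e : (ax P A : Set G).ncard = 4 := (h.ba.card e1).1.symm.trans h4
    omega
  have jz1 : j * z ≠ 1 := fun c => jz (by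
    rw [eq_inv_of_mul_eq_one_left c, inv_eq_of_mul_eq_one_right (h.sq P e1.r z hz.1)])
  obtain ⟨v, hv, c1, c2⟩ := dec h e2 e1 (h.ba.symm e3) ea a3 a2 ha (ea ▸ ha') hb hb' hj
  have jv : j = j * v * v := by rw [mul_assoc, h.ba.vsq e2 v hv, mul_one]
  generalize j * v = w at c1 c2 jv
  have h3 : cj b A = cj a Q := by
    rcases l2 _ ((onL_left A Q).cj (mem_sup_right hb)) with c | c | c
    · exact absurd (cj_eq_self_iff.1 c) n0
    · exact absurd (H83.cj_inj.1 (c.trans (cj_eq_self (le_normalizer hb)).symm)) e2.ne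
    · exact c
  have key : ∀ s ∈ P, s ≠ 1 → ∀ u t, Commute a u → Commute b u → s = u * t →
      ¬ Commute a t ∧ ¬ Commute b t ∧ ¬ Commute b (a * t * a⁻¹) := by
    rintro _ hs s1 u t ca cb rfl
    refine ⟨fun c => n3 (h.ba.cent P e1.r _ hs s1 a (ca.mul_right c)),
      fun c => n1 (h.ba.cent P e1.r _ hs s1 b (cb.mul_right c)), fun c => n2 (h.ba.cent _
        (h.conj P e1.r a) _ (H83.conj_mem_cj hs) (by simpa using s1) b ?_)⟩
    have := cb.mul_right c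
    rwa [← mul_assoc, ← mul_assoc, ← ca.eq, mul_assoc a] at this
  have cw : Commute (a * b) w := c1.mul_left c2
  have r2 : a * b * (a * b) ∈ N[P] := by
    rcases six_ed h e2 ha (ea ▸ ha') hb h3 (by rw [hh, ← ea]; exact h4) zv hv (by
      rintro t (rfl | rfl | rfl)
      · exact key _ hz.1 z1 1 _ (.one_right a) (.one_right b) (one_mul _).symm
      · exact key j hj.1 j1 w _ c1 c2 jv
      · exact key _ (mul_mem hj.1 hz.1) jz1 w _ c1 c2 (by rw [jv, mul_assoc])) with c | c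
    all_goals generalize a * b = r at cw c
    · refine h.ba.norm P e1.r _ (mul_mem hj.1 hz.1) jz1 _ ?_
      convert hj.1 using 1
      rw [jv, mul_assoc w, c.2, ← mul_assoc (r * r), (cw.mul_left cw).eq, c.1]
      simp [mul_assoc]
    · refine h.ba.norm P e1.r _ hj.1 j1 _ ?_
      convert mul_mem hj.1 hz.1 using 1
      rw [jv, mul_assoc w, c.2, ← mul_assoc (r * r), (cw.mul_left cw).eq, c.1]
      simp [mul_assoc]
  have r1 : a * b ∈ N[P] := H83.mem_of_pow_mem_of_coprime (n := 2) (sq (a * b) ▸ r2)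
    (Nat.coprime_two_right.2 (h.bb.odd e2 a ha (ea ▸ ha') b hb hb').1)
  have e4 : cj b P = cj a P := by
    nth_rewrite 2 [← cj_eq_self r1]
    rw [← cj_mul, ← mul_assoc, aa, one_mul]
  have o := (h.bb.onB e1).cj (mem_sup_left ha)
  obtain ⟨-, R, ⟨g, hg, rfl⟩, -, -, -, k, -⟩ := h.bb.sw2 P e1.r b (h.sq Q e2.r b hb)
    (e4 ▸ (h.bb.lin e1 (h.bb.onB e1) o fun c => n3 (cj_eq_self_iff.1 c.symm)).1)
  rcases l1 _ ((h.bb.onB e1).cj (sup_le (c := A ⊔ P) le_sup_right (e4 ▸ o.le) hg)) with c | c | c <;>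
    rw [c] at k <;> contradiction

theorem g2 : G2Stmt.{u} := by
  intro G _ _ Ω h two sp hq A B B'' m m'' ea e
  by_contra no
  have cA := h.ba.mul_comm A m.l
  have hv : vv B B'' = ax B A ⊔ ax B'' A := by
    rw [vv, (h.l6.pp m m'' ea e).1, (h.l6.pp m'' m ea.symm (h.ba.symm e)).1]
  have vA : vv B B'' ≤ N[A] := hv ▸ sup_le ax_le_norm ax_le_norm
  have p0 : IsPGroup 2 ↥(vv B B'' ⊔ A) := H83.isPGroup_sup
    (H83.isPGroup_iff.2 fun x hx => ⟨1, by simpa [sq] using h.ba.vsq e x hx⟩) (h.ba.two A m.l) vA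
  have n0 : vv B B'' ⊔ A ≤ N[A] := sup_le vA le_normalizer
  have j1 : ax B A ≤ vv B B'' ⊔ A := hv ▸ le_sup_left.trans le_sup_left
  have j2 : ax B'' A ≤ vv B B'' ⊔ A := hv ▸ le_sup_right.trans le_sup_left
  obtain ⟨B0, m0, ne0⟩ := two A B m
  obtain ⟨n, nA, nI, T, pT, nT, lT, yT⟩ :=
    h.yy.ex two m _ p0 n0 (h.ba.l4n m.toEd _ p0 n0 j1) B0 m0 ne0
  have m' := m0.cjN h.toTI nA
  have ne : ax A B ≠ ax A (cj n B0) := fun c => ne0 (H83.cj_inj.1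
    (((ax_cjN nA B0).1.symm.trans c.symm).trans (cj_eq_self nI).symm))
  generalize cj n B0 = B' at m' ne yT
  obtain ⟨Γ, cl, AΓ, mn, axΓ, nor, inΓ, lin⟩ := h.l6.clq m T pT nT (j1.trans lT)
  have q := (hq A B m).1
  obtain ⟨⟨y, hy, yI⟩, y1⟩ := ne_bot_iff_exists_ne_one.1 ((one_lt_card_iff_ne_bot _).1
    ((q ▸ one_lt_two : 1 < qq A B).trans_le ((h.yy.ycard sp m m' ne).2.2 (q ▸ (hq A B m).2))))
  replace y1 : y ≠ 1 := fun c => y1 (Subtype.ext c)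
  obtain ⟨a, ha, ha'⟩ : ∃ a ∈ ax A B', a ∉ ax A B := SetLike.not_le_iff_exists.1 fun c => by
    obtain ⟨x, hx, hx'⟩ := ex_out h m.toEd
    exact hx' (((sp A B B' m m' ne).ge.trans (sup_le le_rfl c)) hx)
  have ay := h.ba.comm A m.l B' m'.r m'.ne a ha y hy
  have aa := h.sq A m.l a ha.1
  have yy := h.sq B' m'.r y hy.1
  let OK : G → Prop := fun g => g ∈ N[A] ∧ g * g = 1 ∧ (∀ x ∈ A, ⁅x, g⁆ ∈ ax A B) ∧
    C1[g].relIndex (ax A B) = 2 ∧ Nor Γ g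
  have is2 : ∀ g, OK g → Is2 g := fun g o => ⟨1, by simpa [sq] using o.2.1⟩
  have b1 := (h.yy.yc sp m m' ne y hy).1 yI
  have ok1 : OK y := ⟨hy.2, yy, b1,
    by simpa [q] using h.yy.yidx sp m m' ne y hy y1 1 (one_mem _), nor y (yT ⟨hy, yI⟩)⟩
  have ok2 : OK (y * a) := ⟨mul_mem hy.2 (le_normalizer ha.1),
    by rw [mul_assoc, ← mul_assoc a, ay, mul_assoc, aa, mul_one, yy], fun x hx => by
      rw [commutatorElement_def, ← mul_assoc, mul_assoc _ a, cA a ha.1 _ (inv_mem hx)]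
      simpa [commutatorElement_def, mul_assoc] using b1 x hx,
    q ▸ h.yy.yidx sp m m' ne y hy y1 a ha.1,
    nor _ (mul_mem (yT ⟨hy, yI⟩) (lT (mem_sup_right ha.1)))⟩
  have qP : ∀ P ∈ Γ, P ≠ A → qq A P = 2 := fun P hP n => (hq A P (mn A AΓ P hP n.symm)).1
  have fx : ∀ g, OK g → OK (g * a) → ∃ P ∈ Γ, P ≠ A ∧ g ∈ N[P] := fun g o o' => by
    by_contra! c
    have : ∀ Q ∈ Γ, Q ≠ A → g * a ∈ N[Q] := fun Q hQ n => by
      obtain ⟨p, R, l, hp, -, k1, k2, -, k3⟩ := h.bb.sw2 Q (cl.sub hQ) g o.2.1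
        (mn Q hQ _ (o.2.2.2.2 Q hQ) fun e => c Q hQ n (cj_eq_self_iff.1 e.symm)).toEd
      obtain rfl : R = A := by_contra fun n => c R (lin Q hQ _ (o.2.2.2.2 Q hQ) R l) n k2
      have := mul_mem k3 ((cos2 (qP Q hQ n) ha.1 (axΓ Q hQ n ▸ ha') hp).resolve_left
        fun c => k1 c.2).2
      rwa [mul_assoc, ← mul_assoc p, h.sq R m.l p hp, one_mul] at this
    exact no (h.l6.fix m m'' ea e _ o'.1 (this B (inΓ B m (j1.trans lT)) m.ne.symm)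
      (this B'' (inΓ B'' m'' (j2.trans lT)) m''.ne.symm) (is2 _ o') o'.2.2.1 (q ▸ o'.2.2.2.1))
  obtain ⟨P, hP, nP, yP⟩ := fx y ok1 ok2
  obtain ⟨Q, hQ, nQ, yQ⟩ := fx _ ok2 (by rwa [mul_assoc, aa, mul_one])
  have li : ∀ g, OK g → ∀ P ∈ Γ, P ≠ A → g ∈ N[P] →
      ∀ R, OnL A P R → R = A ∨ R = P ∨ R = cj a P := fun g o P hP n k R l =>
    (h.bb.fix0 (mn A AΓ P hP n.symm).toEd g o.1 k (is2 g o) (axΓ P hP n ▸ o.2.2.1)
      (by rw [axΓ P hP n, qP P hP n, o.2.2.2.1]) R l).imp_right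
      (orb2 h m.l (qP P hP n) ha.1 (axΓ P hP n ▸ ha'))
  have nQ' : y ∉ N[Q] := fun c => ha' (axΓ Q hQ nQ ▸ ⟨ha.1, by
    simpa using mul_mem (inv_mem c) yQ⟩)
  have m1 := mn A AΓ P hP nP.symm
  have m2 := mn A AΓ Q hQ nQ.symm
  have e1 := axΓ P hP nP
  have e2 := e1.trans (axΓ Q hQ nQ).symm
  have e3 := (mn P hP Q hQ fun c => nQ' (c ▸ yP)).toEd
  obtain ⟨h4, z, hz, z1, zv⟩ := stepA h m1 m2 e2 e3 m' (qP P hP nP) (hq A P m1).2 ha.1 (e1 ▸ ha')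
    hy yP yQ (e1 ▸ b1) (e1 ▸ ok1.2.2.2.1)
  refine nQ' (cj_eq_self_iff.1 ?_)
  rw [stepB h m1 m2 e2 e3 ha.1 (e1 ▸ ha') (li y ok1 P hP nP yP) (li _ ok2 Q hQ nQ yQ) h4 hz z1 zv,
    ← cj_mul, ← ay, cj_mul, cj_eq_self yP]

end Cfsg.Agent.H86.TG
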