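import Cfsg.Agent.H86.X40A

/-!
# CO1F-X40: the conjugates of the centre of `U` under the normaliser of a regular element
-/

set_option autoImplicit false

namespace Cfsg.Agent.H86.X40

open Cfsg.Agent.H99.C1 Matrix

/-- matrices -/
abbrev Mat : Type := Matrix (Fin 6) (Fin 6) K

theorem cast_mod (n : ℕ) : ((Nat.mod n 3 : ℕ) : K) = n := ZMod.natCast_mod n 3

theorem toV_comb (r : R6) (B : M6) : toV (comb r B) = toV r ᵥ* toM B := by
  ext j
  fin_cases j <;>
    simp [toV, toM, comb, cast_mod, vecMul, dotProduct, Fin.sum_univ_six]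

theorem toM_mul (A B : M6) : toM (mul A B) = toM A * toM B := by
  ext i j
  rw [Matrix.mul_apply_eq_vecMul]
  fin_cases i <;> exact congrFun (toV_comb _ B) j

theorem eq3_iff (x y : ℕ) : eq3 x y = true ↔ (x : K) = y := by
  rw [eq3, Nat.beq_eq, ZMod.natCast_eq_natCast_iff']; rfl

theorem eqR_iff (r s : R6) : eqR r s = true ↔ toV r = toV s := by
  simp [eqR, eq3_iff, toV]

theorem eqM_iff (A B : M6) : eqM A B = true ↔ toM A = toM B := by
  simp [eqM, eqR_iff, toM]

theorem toM_sub1 (A : M6) : toM (sub1 A) = toM A - 1 := by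
  have e : (2 : K) = -1 := rfl
  ext i j
  fin_cases i <;> fin_cases j <;> simp [toM, toV, sub1, e, sub_eq_add_neg]

theorem toM_o : toM oN = 1 := by decide +kernel
theorem toM_z : toM zN = 0 := by decide +kernel

/-- `A` codes `u` -/
def Rp (u : GL6) (A : M6) : Prop := u.1 = toM A

theorem Rp.mul {u v : GL6} {A B : M6} (h : Rp u A) (k : Rp v B) : Rp (u * v) (mul A B) := by
  rw [Rp, toM_mul, Units.val_mul, h, k]

theorem Rp.eq {u v : GL6} {A B : M6} (h : Rp u A) (k : Rp v B) : eqM A B = true ↔ u = v := by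
  rw [eqM_iff, ← h, ← k, Units.val_inj]

theorem rp_o : Rp 1 oN := toM_o.symm
theorem rp_c : Rp (um 0 0 1) cN := by unfold Rp; decide +kernel
theorem rp_d : Rp (um 0 0 2) dN := by unfold Rp; decide +kernel
theorem rp_c' : Rp (um 0 0 1)⁻¹ dN := by unfold Rp; decide +kernel
theorem rp_d' : Rp (um 0 0 2)⁻¹ cN := by unfold Rp; decide +kernel
theorem rp_b : Rp (um 0 1 0) bN := by unfold Rp; decide +kernel
theorem rp_t : Rp (tm τ3) tN := by unfold Rp; decide +kernel
theorem rp_m0 : Rp (mm 0) m0N := by unfold Rp; decide +kernel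
theorem rp_m1 : Rp (mm 1) m1N := by unfold Rp; decide +kernel
theorem rp_m2 : Rp (mm 2) m2N := by unfold Rp; decide +kernel
theorem rp_n0 : Rp (mm 0)⁻¹ n0N := by unfold Rp; decide +kernel
theorem rp_n1 : Rp (mm 1)⁻¹ n1N := by unfold Rp; decide +kernel
theorem rp_n2 : Rp (mm 2)⁻¹ n2N := by unfold Rp; decide +kernel

theorem g1_ok {u : GL6} {A : M6} (h : Rp u A) (e : g1 A = true) : ∃ k, u = mm k ∨ u = (mm k)⁻¹ := by
  simp only [g1, Bool.or_eq_true, h.eq rp_m0, h.eq rp_m1, h.eq rp_m2, h.eq rp_n0, h.eq rp_n1,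
    h.eq rp_n2] at e
  rcases e with e | e | e | e | e | e
  exacts [⟨_, .inl e⟩, ⟨_, .inl e⟩, ⟨_, .inl e⟩, ⟨_, .inr e⟩, ⟨_, .inr e⟩, ⟨_, .inr e⟩]

theorem kill_ok {X : Subgroup GL6} (hB : ∀ m ∈ X, (m ^ 27 = 1 → m ^ 3 = 1) ∧
    ((m.1 - 1) * (m.1 - 1) = 0 → m = 1)) {u : GL6} {A : M6} (h : Rp u A) (hu : u ∈ X) :
    kill A ≠ true := fun e => by
  have r := (h.mul h).mul (h.mul h)
  have r3 := (r.mul r).mul r
  obtain ⟨b1, b2⟩ := hB _ (X.mul_mem (X.mul_mem hu hu) (X.mul_mem hu hu))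
  rw [kill, k1, k2, k3] at e
  generalize u * u * (u * u) = z at *
  generalize mul (mul A A) (mul A A) = Z at *
  cases e3 : eqM (mul (mul Z Z) Z) oN
  · rw [e3, cond_false, ((r3.mul r3).mul r3).eq rp_o] at e
    have e9 : z ^ 9 = 1 := by rw [← e]; simp only [pow_succ, pow_zero, one_mul, mul_assoc]
    have := b1 (by rw [show 27 = 9 * 3 by rfl, pow_mul, e9, one_pow])
    rw [(r3.eq rp_o).2 (by rw [← this, pow_three'])] at e3
    cases e3
  · rw [e3, cond_true, Bool.and_eq_true, eqM_iff, toM_mul, toM_sub1, toM_z, ← r] at e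
    rw [(r.eq rp_o).2 (b2 e.2)] at e
    cases e.1

theorem ok_ok {X : Subgroup GL6} (hX : LX X) (hB : ∀ m ∈ X, (m ^ 27 = 1 → m ^ 3 = 1) ∧
    ((m.1 - 1) * (m.1 - 1) = 0 → m = 1)) (ht : tm τ3 ∈ X) {u : GL6} {A : M6} (h : Rp u A)
    (hu : u ∈ X) (e : ok A = true) : (∃ s, u = um 0 0 s) ∨ ∃ k, ∃ j : K,
      um 0 0 j * u * (um 0 0 j)⁻¹ = mm k ∨ um 0 0 j * u * (um 0 0 j)⁻¹ = (mm k)⁻¹ := by
  have mc : um 0 0 1 ∈ X := hX.u (xc 1)
  have md : um 0 0 2 ∈ X := hX.u (xc 2)
  have mb : um 0 1 0 ∈ X := hX.u (xb 1)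
  have mt := X.mul_mem ht hu
  simp only [ok, Bool.or_eq_true, kill_ok hB (rp_c.mul h) (X.mul_mem mc hu),
    kill_ok hB (rp_d.mul h) (X.mul_mem md hu), kill_ok hB (rp_b.mul h) (X.mul_mem mb hu),
    kill_ok hB h hu, kill_ok hB (rp_t.mul h) mt,
    kill_ok hB (rp_c.mul (rp_t.mul h)) (X.mul_mem mc mt),
    kill_ok hB (rp_b.mul (rp_t.mul h)) (X.mul_mem mb mt), Bool.false_eq_true, false_or, h.eq rp_c, h.eq rp_d] at e
  rcases e with e | e | e | e | e
  · exact .inl ⟨_, e⟩
  · exact .inl ⟨_, e⟩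
  · obtain ⟨k, e⟩ := g1_ok h e
    have e0 : um 0 0 0 = 1 := Units.ext uM_zero
    exact .inr ⟨k, 0, by rwa [e0, one_mul, inv_one, mul_one]⟩
  · obtain ⟨k, e⟩ := g1_ok ((rp_c.mul h).mul rp_c') e
    exact .inr ⟨k, 1, e⟩
  · obtain ⟨k, e⟩ := g1_ok ((rp_d.mul h).mul rp_d') e
    exact .inr ⟨k, 2, e⟩

/-- the shift -/
def SK : Mat := !![0, 0, 0, 0, 0, 0; 0, 0, 0, 0, 0, 0; 1, 0, 0, 0, 0, 0; 0, 1, 0, 0, 0, 0;
  0, 0, 1, 0, 0, 0; 0, 0, 0, 1, 0, 0]

/-- its centraliser -/
def TK (a b c d e f g h i j k l : K) : Mat :=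
  !![a, b, 0, 0, 0, 0; c, d, 0, 0, 0, 0; e, f, a, b, 0, 0; g, h, c, d, 0, 0; i, j, e, f, a, b;
    k, l, g, h, c, d]

theorem par {D : Mat} (h : D * SK = SK * D) : D = TK (D 0 0) (D 0 1) (D 1 0) (D 1 1) (D 2 0) (D 2 1)
    (D 3 0) (D 3 1) (D 4 0) (D 4 1) (D 5 0) (D 5 1) := by
  have e00 : D 0 2 = 0 := by
    simpa [Matrix.mul_apply, Fin.sum_univ_six, SK] using congrFun (congrFun h 0) 0
  have e01 : D 0 3 = 0 := by
    simpa [Matrix.mul_apply, Fin.sum_univ_six, SK] using congrFun (congrFun h 0) 1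
  have e02 : D 0 4 = 0 := by
    simpa [Matrix.mul_apply, Fin.sum_univ_six, SK] using congrFun (congrFun h 0) 2
  have e03 : D 0 5 = 0 := by
    simpa [Matrix.mul_apply, Fin.sum_univ_six, SK] using congrFun (congrFun h 0) 3
  have e10 : D 1 2 = 0 := by
    simpa [Matrix.mul_apply, Fin.sum_univ_six, SK] using congrFun (congrFun h 1) 0
  have e11 : D 1 3 = 0 := by
    simpa [Matrix.mul_apply, Fin.sum_univ_six, SK] using congrFun (congrFun h 1) 1
  have e12 : D 1 4 = 0 := by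
    simpa [Matrix.mul_apply, Fin.sum_univ_six, SK] using congrFun (congrFun h 1) 2
  have e13 : D 1 5 = 0 := by
    simpa [Matrix.mul_apply, Fin.sum_univ_six, SK] using congrFun (congrFun h 1) 3
  have e20 : D 2 2 = D 0 0 := by
    simpa [Matrix.mul_apply, Fin.sum_univ_six, SK] using congrFun (congrFun h 2) 0
  have e21 : D 2 3 = D 0 1 := by
    simpa [Matrix.mul_apply, Fin.sum_univ_six, SK] using congrFun (congrFun h 2) 1
  have e22 : D 2 4 = D 0 2 := by
    simpa [Matrix.mul_apply, Fin.sum_univ_six, SK] using congrFun (congrFun h 2) 2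
  have e23 : D 2 5 = D 0 3 := by
    simpa [Matrix.mul_apply, Fin.sum_univ_six, SK] using congrFun (congrFun h 2) 3
  have e30 : D 3 2 = D 1 0 := by
    simpa [Matrix.mul_apply, Fin.sum_univ_six, SK] using congrFun (congrFun h 3) 0
  have e31 : D 3 3 = D 1 1 := by
    simpa [Matrix.mul_apply, Fin.sum_univ_six, SK] using congrFun (congrFun h 3) 1
  have e32 : D 3 4 = D 1 2 := by
    simpa [Matrix.mul_apply, Fin.sum_univ_six, SK] using congrFun (congrFun h 3) 2
  have e33 : D 3 5 = D 1 3 := by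
    simpa [Matrix.mul_apply, Fin.sum_univ_six, SK] using congrFun (congrFun h 3) 3
  have e40 : D 4 2 = D 2 0 := by
    simpa [Matrix.mul_apply, Fin.sum_univ_six, SK] using congrFun (congrFun h 4) 0
  have e41 : D 4 3 = D 2 1 := by
    simpa [Matrix.mul_apply, Fin.sum_univ_six, SK] using congrFun (congrFun h 4) 1
  have e42 : D 4 4 = D 2 2 := by
    simpa [Matrix.mul_apply, Fin.sum_univ_six, SK] using congrFun (congrFun h 4) 2
  have e43 : D 4 5 = D 2 3 := by
    simpa [Matrix.mul_apply, Fin.sum_univ_six, SK] using congrFun (congrFun h 4) 3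
  have e50 : D 5 2 = D 3 0 := by
    simpa [Matrix.mul_apply, Fin.sum_univ_six, SK] using congrFun (congrFun h 5) 0
  have e51 : D 5 3 = D 3 1 := by
    simpa [Matrix.mul_apply, Fin.sum_univ_six, SK] using congrFun (congrFun h 5) 1
  have e52 : D 5 4 = D 3 2 := by
    simpa [Matrix.mul_apply, Fin.sum_univ_six, SK] using congrFun (congrFun h 5) 2
  have e53 : D 5 5 = D 3 3 := by
    simpa [Matrix.mul_apply, Fin.sum_univ_six, SK] using congrFun (congrFun h 5) 3
  ext i j
  fin_cases i <;> fin_cases j <;> simp [TK, e00, e01, e02, e03, e10, e11, e12, e13, e20, e21, e22, e23, e30, e31, e32, e33, e40, e41, e42, e43, e50, e51, e52, e53]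

theorem toM_ty (a b c d e f g h i j k l : K) : toM (ty a.val b.val c.val d.val e.val f.val g.val
    h.val i.val j.val k.val l.val) = TK a b c d e f g h i j k l + 1 := by
  ext x y
  fin_cases x <;> fin_cases y <;> simp [toM, toV, ty, TK]

/-- the filters -/
structure Fc (N D : Mat) : Prop where
  cm : D * N = N * D
  sq : N * (D * D) = 0
  cu : D * D * D = 0
  ne : N * N * D ≠ 0

theorem Fc.cj {N D u v : Mat} (h : Fc N D) (e : v * u = 1) : Fc (u * N * v) (u * D * v) := by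
  have m : ∀ A B : Mat, u * A * v * (u * B * v) = u * (A * B) * v := fun A B => by
    calc _ = u * A * (v * u) * B * v := by simp only [mul_assoc]
      _ = _ := by rw [e]; simp only [mul_assoc, one_mul]
  refine ⟨by rw [m, m, h.cm], by rw [m, m, h.sq]; simp, by rw [m, m, h.cu]; simp, fun k => h.ne ?_⟩
  rw [m, m] at k
  calc _ = (v * u) * (N * N * D) * (v * u) := by rw [e, one_mul, mul_one]
    _ = v * (u * (N * N * D) * v) * u := by simp only [mul_assoc]
    _ = 0 := by rw [k]; simp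

theorem z3_of {n : ℕ} (h : (n : K) = 0) : z3 n = true := by
  rw [z3, Nat.beq_eq]
  exact (ZMod.natCast_eq_natCast_iff' n 0 3).1 h

theorem A3_ok {p : ℕ → Bool} (h : A3 p = true) (x : K) : p x.val = true := by
  simp only [A3, Bool.and_eq_true] at h
  have := ZMod.val_lt x
  generalize x.val = n at this
  interval_cases n
  exacts [h.1, h.2.1, h.2.2]

set_option synthInstance.maxSize 2000 in
set_option synthInstance.maxHeartbeats 200000 in
theorem tops : ∀ a b c d : K, a * a + b * c = 0 → a * b + b * d = 0 → c * a + d * c = 0 →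
    c * b + d * d = 0 → (a = 0 ∧ b = 0 ∧ c = 0 ∧ d = 0) ∨
    (a.val, b.val, c.val, d.val) ∈ [(0, 0, 1, 0), (0, 0, 2, 0), (0, 1, 0, 0), (0, 2, 0, 0),
      (1, 1, 2, 2), (1, 2, 1, 2), (2, 1, 2, 1), (2, 2, 1, 1)] := by decide +kernel

theorem enum {a b c d e f g h i j k l : K} (H : Fc SK (TK a b c d e f g h i j k l)) :
    ok (mul (mul pN (ty a.val b.val c.val d.val e.val f.val g.val h.val i.val j.val k.val l.val))
      qN) = true := by
  have s := fun x y => congrFun (congrFun H.sq x) y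
  have t := fun x y => congrFun (congrFun H.cu x) y
  have s20 := s 2 0
  have s21 := s 2 1
  have s30 := s 3 0
  have s31 := s 3 1
  have s40 := s 4 0
  have s41 := s 4 1
  have s50 := s 5 0
  have s51 := s 5 1
  have t40 := t 4 0
  have t41 := t 4 1
  have t50 := t 5 0
  have t51 := t 5 1
  simp only [Matrix.mul_apply, Fin.sum_univ_six, SK, TK, of_apply, cons_val', cons_val_zero,
    cons_val_one, cons_val, cons_val_fin_one, Matrix.zero_apply, mul_zero, zero_mul, add_zero,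
    zero_add, one_mul] at s20 s21 s30 s31 s40 s41 s50 s51 t40 t41 t50 t51
  have c0 : chk a.val b.val c.val d.val = true := by
    rcases tops a b c d s20 s21 s30 s31 with ⟨rfl, rfl, rfl, rfl⟩ | m
    · refine absurd ?_ H.ne
      ext x y
      fin_cases x <;> fin_cases y <;> simp [SK, TK, Matrix.mul_apply, Fin.sum_univ_six]
    · generalize a.val = a', b.val = b', c.val = c', d.val = d' at m
      simp only [List.mem_cons, Prod.mk.injEq, List.not_mem_nil, or_false] at m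
      rcases m with m | m | m | m | m | m | m | m <;> obtain ⟨rfl, rfl, rfl, rfl⟩ := m
      exacts [chk0, chk1, chk2, chk3, chk4, chk5, chk6, chk7]
  have c1 := A3_ok (A3_ok (A3_ok (A3_ok c0 e) f) g) h
  have h1 : f1 a.val b.val c.val d.val e.val f.val g.val h.val = true := by
    simp only [f1, Bool.and_eq_true]
    refine ⟨z3_of ?_, z3_of ?_, z3_of ?_, z3_of ?_⟩ <;> push_cast <;>
      simp only [ZMod.natCast_val, ZMod.cast_id', id]
    · linear_combination s40
    · linear_combination s41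
    · linear_combination s50
    · linear_combination s51
  rw [h1, Bool.not_true, Bool.false_or] at c1
  have c2 := A3_ok (A3_ok (A3_ok (A3_ok c1 i) j) k) l
  have h2 : f2 a.val b.val c.val d.val e.val f.val g.val h.val i.val j.val k.val l.val = true := by
    simp only [f2, Bool.and_eq_true]
    refine ⟨z3_of ?_, z3_of ?_, z3_of ?_, z3_of ?_⟩ <;> push_cast <;>
      simp only [ZMod.natCast_val, ZMod.cast_id', id]
    · linear_combination t40
    · linear_combination t41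
    · linear_combination t50
    · linear_combination t51
  rwa [h2, Bool.not_true, Bool.false_or] at c2

theorem fc0 : Fc (uM 1 1 2 - 1) (uM 0 0 1 - 1) :=
  ⟨by decide +kernel, by decide +kernel, by decide +kernel, by decide +kernel⟩

theorem rho : ∀ a : K, uM a a (2 * a * a) - 1 = 0 ∨ ∃ s t : K, uM 1 1 2 - 1 =
    s • (uM a a (2 * a * a) - 1) + t • ((uM a a (2 * a * a) - 1) * (uM a a (2 * a * a) - 1)) ∧
    (uM a a (2 * a * a) - 1) * (uM a a (2 * a * a) - 1) = (uM 1 1 2 - 1) * (uM 1 1 2 - 1) := by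
  decide +kernel

theorem pq : toM pN * toM qN = 1 := by decide +kernel
theorem qsp : toM qN * (uM 1 1 2 - 1) * toM pN = SK := by decide +kernel

theorem x40 (hF : FLStmt) (hB : BadStmt) : X40Stmt := by
  intro X hX ht m hm hN nb
  obtain ⟨g, ⟨g1, g2⟩, hg⟩ := hN ⟨1, 1, 2, 0, 0, 0, 0, 0, 0⟩ ⟨rfl, by decide⟩
  have mi : m⁻¹.1 * m.1 = 1 := m.inv_mul
  have cj : ∀ A : Mat, m.1 * (A - 1) * m⁻¹.1 = m.1 * A * m⁻¹.1 - 1 := fun A => by
    rw [mul_sub, sub_mul, mul_one, m.mul_inv]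
  have e1 : m.1 * uM 1 1 2 * m⁻¹.1 = uM g.a g.a (2 * g.a * g.a) := by
    have := congrArg Units.val hg
    rw [ug_apply g, g1, g2] at this
    exact this
  have F1 := fc0.cj mi
  rw [cj, cj, e1] at F1
  set y := m * um 0 0 1 * m⁻¹ with hy
  rw [show m.1 * uM 0 0 1 * m⁻¹.1 = y.1 from rfl] at F1
  have F2 : Fc (uM 1 1 2 - 1) (y.1 - 1) := by
    rcases rho g.a with e | ⟨s, t, e, e'⟩
    · exact absurd (by rw [e]; simp) F1.ne
    · generalize uM g.a g.a (2 * g.a * g.a) - 1 = ρ at *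
      have c : Commute (y.1 - 1) ρ := F1.cm
      refine ⟨?_, ?_, F1.cu, e' ▸ F1.ne⟩
      · rw [e]; exact ((c.smul_right s).add_right ((c.mul_right c).smul_right t)).eq
      · rw [e, add_mul, smul_mul_assoc, smul_mul_assoc, mul_assoc, F1.sq]; simp
  have F3 := F2.cj pq
  rw [qsp] at F3
  have ep := par F3.cm
  generalize hD : toM qN * (y.1 - 1) * toM pN = D at F3 ep
  rw [ep] at F3
  have ry : Rp y (mul (mul pN (ty (D 0 0).val (D 0 1).val (D 1 0).val (D 1 1).val (D 2 0).val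
      (D 2 1).val (D 3 0).val (D 3 1).val (D 4 0).val (D 4 1).val (D 5 0).val (D 5 1).val)) qN) := by
    rw [Rp, toM_mul, toM_mul, toM_ty, ← ep, ← hD, mul_add, add_mul, mul_one, pq, ← mul_assoc,
      ← mul_assoc, pq, one_mul, mul_assoc, pq, mul_one, sub_add_cancel]
  rcases ok_ok hX (hB X hX) ht ry (X.mul_mem (X.mul_mem hm (hX.u (xc 1))) (X.inv_mem hm))
    (enum F3) with ⟨s, e⟩ | ⟨k, j, e⟩
  · refine absurd (hF X hX m hm fun x ⟨x1, x2⟩ => ?_) nb
    have x1' : x.a = 0 := x1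
    have x2' : x.b = 0 := x2
    have mJ : xc s ∈ Jc := ⟨rfl, rfl⟩
    have hc : ∀ c : K, c = 0 ∨ c = 1 ∨ c = 1 + 1 + 0 * 0 := by decide
    rw [ug_apply x, x1', x2']
    rcases hc x.c with h | h | h <;> rw [h]
    · refine ⟨1, one_mem _, ?_⟩
      rw [show um 0 0 0 = 1 from Units.ext uM_zero, mul_one, mul_inv_cancel, map_one]
    · exact ⟨_, mJ, e⟩
    · refine ⟨_, mul_mem mJ mJ, ?_⟩
      have := um_mul 0 0 1 0 0 1
      rw [add_zero] at this
      rw [map_mul, ← this, show ug (xc s) = y from e.symm, hy]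
      group
  · have e0 : um 0 0 j * m * um 0 0 1 * (um 0 0 j * m)⁻¹ = um 0 0 j * y * (um 0 0 j)⁻¹ := by
      rw [hy]; group
    rw [← e0] at e
    exact ⟨k, j, e⟩

theorem eqns' : True := by
  have := @Rp.eq_1
  have := @SK.eq_1
  have := @TK.eq_1
  trivial

end Cfsg.Agent.H86.X40
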